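import Mathlib

set_option autoImplicit false

namespace Cfsg.Agent.Helper24

/-- A `2`-subgroup `P` of the alternating group and an odd nilpotent group `Q` commuting with it,
whose centralizer contains an odd permutation, lie in a nilpotent group of at least twice the
order of `P × Q`. -/
theorem nil_double_of_odd_centralizer {α : Type} [Fintype α] [DecidableEq α]
    (P Q : Subgroup (Equiv.Perm α)) (hP : IsPGroup 2 P) (hPA : P ≤ alternatingGroup α)
    (hQ : Odd (Nat.card Q)) (hQn : Group.IsNilpotent Q)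
    (hcomm : ∀ x ∈ P, ∀ y ∈ Q, x * y = y * x) (t : Equiv.Perm α)
    (ht : ∀ q ∈ Q, t * q = q * t) (hsign : Equiv.Perm.sign t = -1) :
    ∃ M : Subgroup (Equiv.Perm α), Group.IsNilpotent M ∧
      2 * (Nat.card P * Nat.card Q) ≤ Nat.card M := by
  classical
  haveI : Fact (Nat.Prime 2) := ⟨Nat.prime_two⟩
  obtain ⟨C, hC⟩ : ∃ C : Subgroup (Equiv.Perm α),
      C = Subgroup.centralizer (Q : Set (Equiv.Perm α)) := ⟨_, rfl⟩
  have hmemC : ∀ g : Equiv.Perm α, g ∈ C ↔ ∀ q ∈ Q, q * g = g * q := by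
    intro g
    rw [hC, Subgroup.mem_centralizer_iff]
    rfl
  have hPC : P ≤ C := by
    intro x hx
    rw [hmemC]
    intro q hq
    exact (hcomm x hx q hq).symm
  have htC : t ∈ C := by
    rw [hmemC]
    intro q hq
    exact (ht q hq).symm
  let φ : ↥C →* ℤˣ := (Equiv.Perm.sign).comp C.subtype
  have hker2 : φ.ker.index = 2 := by
    rw [Subgroup.index_ker]
    have hr : φ.range = ⊤ := by
      rw [eq_top_iff]
      intro u _
      rcases Int.units_eq_one_or u with h | h
      · rw [h]; exact φ.range.one_mem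
      · rw [h]; exact ⟨⟨t, htC⟩, hsign⟩
    rw [hr, Subgroup.card_top, Nat.card_eq_fintype_card]
    rfl
  have hP' : IsPGroup 2 (P.subgroupOf C) := hP.comap_subtype
  obtain ⟨S, hS⟩ := hP'.exists_le_sylow
  have hSker : ¬ (S : Subgroup ↥C) ≤ φ.ker := by
    intro hle
    have h1 := Subgroup.relIndex_mul_index hle
    rw [hker2] at h1
    have h2 : 2 ∣ (S : Subgroup ↥C).index := ⟨_, by rw [← h1, mul_comm]⟩
    exact S.not_dvd_index h2
  have hP'ker : P.subgroupOf C ≤ φ.ker := by
    intro x hx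
    rw [MonoidHom.mem_ker]
    have hx' : (x : Equiv.Perm α) ∈ P := Subgroup.mem_subgroupOf.mp hx
    exact Equiv.Perm.mem_alternatingGroup.mp (hPA hx')
  have hne : P.subgroupOf C ≠ (S : Subgroup ↥C) := by
    intro h
    apply hSker
    rw [← h]
    exact hP'ker
  have hcardP' : Nat.card (P.subgroupOf C) = Nat.card P :=
    Nat.card_congr (Subgroup.subgroupOfEquivOfLe hPC).toEquiv
  have hdvd : Nat.card (P.subgroupOf C) ∣ Nat.card (S : Subgroup ↥C) :=
    Subgroup.card_dvd_of_le hS
  have hlt : Nat.card (P.subgroupOf C) ≠ Nat.card (S : Subgroup ↥C) := by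
    intro h
    apply hne
    exact Subgroup.eq_of_le_of_card_ge hS (le_of_eq h.symm)
  have h2P : 2 * Nat.card P ≤ Nat.card (S : Subgroup ↥C) := by
    obtain ⟨k, hk⟩ := hdvd
    rw [hcardP'] at hk hlt
    have hpos : 0 < Nat.card (S : Subgroup ↥C) := Nat.card_pos
    have hk2 : 2 ≤ k := by
      by_contra hcon
      have hk1 : k = 0 ∨ k = 1 := by omega
      rcases hk1 with h0 | h1
      · rw [h0, mul_zero] at hk; omega
      · rw [h1, mul_one] at hk; exact hlt hk.symm
    calc 2 * Nat.card P ≤ k * Nat.card P := Nat.mul_le_mul_right _ hk2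
      _ = Nat.card (S : Subgroup ↥C) := by rw [hk, mul_comm]
  obtain ⟨S', hS'⟩ : ∃ S' : Subgroup (Equiv.Perm α),
      S' = (S : Subgroup ↥C).map C.subtype := ⟨_, rfl⟩
  have hcardS' : Nat.card S' = Nat.card (S : Subgroup ↥C) := by
    rw [hS']
    exact Subgroup.card_map_of_injective C.subtype_injective
  have hS'C : S' ≤ C := by
    rw [hS']
    intro x hx
    obtain ⟨y, _, rfl⟩ := Subgroup.mem_map.mp hx
    exact y.2
  have hS'p : IsPGroup 2 S' := by
    rw [hS']
    exact S.isPGroup'.map C.subtype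
  have hcommS : ∀ (a : S') (b : Q), Commute (S'.subtype a) (Q.subtype b) := by
    intro a b
    have h := (hmemC a).mp (hS'C a.2) b b.2
    exact h.symm
  obtain ⟨f, hf⟩ : ∃ f : S' × Q →* Equiv.Perm α,
      f = MonoidHom.noncommCoprod S'.subtype Q.subtype hcommS := ⟨_, rfl⟩
  have hrange : f.range = S' ⊔ Q := by
    rw [hf, MonoidHom.noncommCoprod_range, Subgroup.range_subtype, Subgroup.range_subtype]
  refine ⟨S' ⊔ Q, ?_, ?_⟩
  · haveI : Group.IsNilpotent S' := hS'p.isNilpotent
    haveI := hQn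
    haveI : Group.IsNilpotent (S' × Q) := Group.isNilpotent_prod
    have h1 : Group.IsNilpotent f.range :=
      Group.nilpotent_of_surjective f.rangeRestrict f.rangeRestrict_surjective
    rw [hrange] at h1
    exact h1
  · have hd1 : Nat.card S' ∣ Nat.card ↥(S' ⊔ Q) := Subgroup.card_dvd_of_le le_sup_left
    have hd2 : Nat.card Q ∣ Nat.card ↥(S' ⊔ Q) := Subgroup.card_dvd_of_le le_sup_right
    have hcop : (Nat.card S').Coprime (Nat.card Q) := by
      obtain ⟨k, hk⟩ := IsPGroup.iff_card.mp hS'p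
      rw [hk]
      exact Nat.Coprime.pow_left k (Nat.coprime_two_left.mpr hQ)
    have hd := Nat.Coprime.mul_dvd_of_dvd_of_dvd hcop hd1 hd2
    have hle := Nat.le_of_dvd Nat.card_pos hd
    calc 2 * (Nat.card P * Nat.card Q) = (2 * Nat.card P) * Nat.card Q := by ring
      _ ≤ Nat.card (S : Subgroup ↥C) * Nat.card Q := Nat.mul_le_mul_right _ h2P
      _ = Nat.card S' * Nat.card Q := by rw [hcardS']
      _ ≤ Nat.card ↥(S' ⊔ Q) := hle

end Cfsg.Agent.Helper24
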