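import Mathlib

set_option autoImplicit false

namespace Cfsg.Agent.Helper24

/-- The action induced on a fibre of an invariant function. -/
@[reducible] def fiberMulAction {A Z Q : Type*} [Group A] [MulAction A Z] (F : Z → Q)
    (hF : ∀ (a : A) (z : Z), F (a • z) = F z) (v : Q) : MulAction A {z : Z // F z = v} where
  smul a z := ⟨a • z.1, (hF a z.1).trans z.2⟩
  one_smul z := Subtype.ext (one_smul A z.1)
  mul_smul a b z := Subtype.ext (mul_smul a b z.1)

theorem isIntegral_intCast_cplx (m : ℤ) : IsIntegral ℤ (m : ℂ) := by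
  have h := isIntegral_algebraMap (R := ℤ) (A := ℂ) (x := m)
  simpa using h

theorem isIntegral_natCast_cplx (m : ℕ) : IsIntegral ℤ (m : ℂ) := by
  have h := isIntegral_intCast_cplx (m : ℤ)
  simpa using h

/-- Weighted fixed-point congruence: the sum of an invariant algebraic-integer-valued function
over a finite set acted on by a `p`-group is congruent mod `p` to the sum over fixed points. -/
theorem sum_fixed_modp {p : ℕ} [Fact p.Prime] {A Z : Type*} [Group A] [MulAction A Z]
    [Fintype Z] (hA : IsPGroup p A) (F : Z → ℂ) (hFi : ∀ z, IsIntegral ℤ (F z))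
    (hF : ∀ (a : A) (z : Z), F (a • z) = F z) (fx : Z → Prop) [Fintype {z : Z // fx z}]
    (hfx : ∀ z, fx z ↔ ∀ a : A, a • z = z) :
    ∃ w : ℂ, IsIntegral ℤ w ∧ ∑ z, F z = ∑ z : {z : Z // fx z}, F z.1 + p * w := by
  classical
  have key : ∀ v : ℂ, ∃ t : ℤ, ((Finset.univ.filter (fun z => F z = v)).card : ℂ) =
      (((Finset.univ.filter fx).filter (fun z => F z = v)).card : ℂ) + p * t := by
    intro v
    letI := fiberMulAction (A := A) F hF v
    have h := hA.card_modEq_card_fixedPoints {z : Z // F z = v}
    have e1 : Nat.card {z : Z // F z = v} = (Finset.univ.filter (fun z => F z = v)).card := by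
      rw [Nat.card_eq_fintype_card, Fintype.card_subtype]
    have e2 : Nat.card (MulAction.fixedPoints A {z : Z // F z = v}) =
        ((Finset.univ.filter fx).filter (fun z => F z = v)).card := by
      rw [← Nat.card_eq_finsetCard]
      exact Nat.card_congr
        ⟨fun z => ⟨z.1.1, Finset.mem_filter.2 ⟨Finset.mem_filter.2 ⟨Finset.mem_univ _,
            (hfx _).2 fun a => congrArg Subtype.val (z.2 a)⟩, z.1.2⟩⟩,
          fun z => ⟨⟨z.1, (Finset.mem_filter.1 z.2).2⟩, fun a => Subtype.ext
            ((hfx _).1 (Finset.mem_filter.1 (Finset.mem_filter.1 z.2).1).2 a)⟩,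
          fun z => rfl, fun z => rfl⟩
    rw [e1, e2] at h
    obtain ⟨t, ht⟩ := Nat.modEq_iff_dvd.1 h
    refine ⟨-t, ?_⟩
    have h3 := congrArg (Int.cast : ℤ → ℂ) ht
    push_cast at h3
    push_cast
    linear_combination (-1 : ℂ) * h3
  choose t ht using key
  refine ⟨∑ v ∈ Finset.univ.image F, (t v : ℂ) * v, ?_, ?_⟩
  · refine IsIntegral.sum _ fun v hv => ?_
    obtain ⟨z, -, rfl⟩ := Finset.mem_image.1 hv
    exact (isIntegral_intCast_cplx _).mul (hFi z)
  · rw [← Finset.sum_subtype (Finset.univ.filter fx) (fun z => by simp) F]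
    rw [← Finset.sum_fiberwise_of_maps_to (s := Finset.univ) (t := Finset.univ.image F) (g := F)
      (fun z _ => Finset.mem_image_of_mem F (Finset.mem_univ z)) F]
    rw [← Finset.sum_fiberwise_of_maps_to (s := Finset.univ.filter fx)
      (t := Finset.univ.image F) (g := F)
      (fun z _ => Finset.mem_image_of_mem F (Finset.mem_univ z)) F]
    rw [Finset.mul_sum, ← Finset.sum_add_distrib]
    refine Finset.sum_congr rfl fun v _ => ?_
    have e1 : ∑ z ∈ Finset.univ.filter (fun z => F z = v), F z =
        ((Finset.univ.filter (fun z => F z = v)).card : ℂ) * v := by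
      rw [Finset.sum_congr rfl (fun z hz => (Finset.mem_filter.1 hz).2), Finset.sum_const,
        nsmul_eq_mul]
    have e2 : ∑ z ∈ (Finset.univ.filter fx).filter (fun z => F z = v), F z =
        (((Finset.univ.filter fx).filter (fun z => F z = v)).card : ℂ) * v := by
      rw [Finset.sum_congr rfl (fun z hz => (Finset.mem_filter.1 hz).2), Finset.sum_const,
        nsmul_eq_mul]
    rw [e1, e2, ht v]
    ring

end Cfsg.Agent.Helper24
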