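import Mathlib
import Cfsg.Agent.Helper2.CharGalois
import Cfsg.Agent.Helper24.FixSum

set_option autoImplicit false

namespace Cfsg.Agent.Helper24

/-- A complex matrix with algebraic integer entries which is congruent mod `p` to a diagonal
matrix with entries prime to `p` has nonzero determinant. -/
theorem det_ne_zero_of_modp {p : ℕ} [Fact p.Prime] {X : Type*} [Fintype X] [DecidableEq X]
    (M : Matrix X X ℂ) (d : X → ℕ) (hd : ∀ i, ¬ p ∣ d i)
    (hM : ∀ i j, ∃ w : ℂ, IsIntegral ℤ w ∧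
      M i j = (if i = j then (d i : ℂ) else 0) + p * w) : M.det ≠ 0 := by
  classical
  choose w hw hMw using hM
  let W : Matrix X X (integralClosure ℤ ℂ) := fun i j => ⟨w i j, hw i j⟩
  let M' : Matrix X X (integralClosure ℤ ℂ) :=
    fun i j => (if i = j then ((d i : ℕ) : integralClosure ℤ ℂ) else 0) +
      ((p : ℕ) : integralClosure ℤ ℂ) * W i j
  have hMM' : M = (integralClosure ℤ ℂ).val.toRingHom.mapMatrix M' := by
    ext i j
    rw [hMw, RingHom.mapMatrix_apply, Matrix.map_apply]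
    show _ = (((if i = j then ((d i : ℕ) : integralClosure ℤ ℂ) else 0) +
      ((p : ℕ) : integralClosure ℤ ℂ) * W i j : integralClosure ℤ ℂ) : ℂ)
    by_cases h : i = j
    · rw [if_pos h, if_pos h]
      push_cast
      rfl
    · rw [if_neg h, if_neg h]
      push_cast
      rfl
  have hdet : M.det = ((M'.det : integralClosure ℤ ℂ) : ℂ) := by
    rw [hMM', ← RingHom.map_det]
    rfl
  let π := Ideal.Quotient.mk (Ideal.span {((p : ℕ) : integralClosure ℤ ℂ)})
  have hπ : π.mapMatrix M' = Matrix.diagonal (fun i => π ((d i : ℕ) : integralClosure ℤ ℂ)) := by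
    ext i j
    rw [RingHom.mapMatrix_apply, Matrix.map_apply, Matrix.diagonal_apply]
    show π ((if i = j then ((d i : ℕ) : integralClosure ℤ ℂ) else 0) +
      ((p : ℕ) : integralClosure ℤ ℂ) * W i j) = _
    have h0 : π (((p : ℕ) : integralClosure ℤ ℂ) * W i j) = 0 :=
      Ideal.Quotient.eq_zero_iff_mem.2
        (Ideal.mem_span_singleton'.2 ⟨W i j, mul_comm _ _⟩)
    rw [map_add, h0, add_zero]
    by_cases h : i = j
    · rw [if_pos h, if_pos h]
    · rw [if_neg h, if_neg h, map_zero]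
  have hdet' : π M'.det = π (((∏ i, d i : ℕ)) : integralClosure ℤ ℂ) := by
    rw [RingHom.map_det, hπ, Matrix.det_diagonal]
    push_cast
    rw [map_prod]
  intro h0
  rw [hdet] at h0
  have h0' : M'.det = 0 := Subtype.ext h0
  rw [h0', map_zero] at hdet'
  have hmem := Ideal.Quotient.eq_zero_iff_mem.1 hdet'.symm
  obtain ⟨z, hz⟩ := Ideal.mem_span_singleton'.1 hmem
  have hp0 : (p : ℂ) ≠ 0 := by
    exact_mod_cast (Fact.out : p.Prime).ne_zero
  have hz' : (z : ℂ) * (p : ℂ) = ((∏ i, d i : ℕ) : ℂ) := by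
    have := congrArg (Subtype.val : integralClosure ℤ ℂ → ℂ) hz
    push_cast at this
    push_cast
    exact this
  have hq : IsIntegral ℤ ((((∏ i, d i : ℕ) : ℚ) / (p : ℚ) : ℚ) : ℂ) := by
    have e : ((((∏ i, d i : ℕ) : ℚ) / (p : ℚ) : ℚ) : ℂ) = (z : ℂ) := by
      push_cast
      push_cast at hz'
      rw [← hz']
      field_simp
    rw [e]
    exact z.2
  obtain ⟨m, hm⟩ := Cfsg.Agent.Helper2.int_of_isIntegral_rat hq
  have hpq : (p : ℚ) ≠ 0 := by
    exact_mod_cast (Fact.out : p.Prime).ne_zero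
  have hdiv : (p : ℤ) ∣ ((∏ i, d i : ℕ) : ℤ) := by
    refine ⟨m, ?_⟩
    have h1 : (((∏ i, d i : ℕ) : ℤ) : ℚ) = ((p : ℤ) : ℚ) * (m : ℚ) := by
      rw [← hm]
      push_cast
      field_simp
    exact_mod_cast h1
  have hdiv' : p ∣ ∏ i, d i := by exact_mod_cast hdiv
  obtain ⟨i, -, hi⟩ := (Prime.dvd_finsetProd_iff (Fact.out : p.Prime).prime _).1 hdiv'
  exact hd i hi

open Classical in
/-- Brauer's permutation argument for a table with one-sided inverses coming from
orthogonality relations mod `p`. -/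
theorem fix_count_eq {p : ℕ} [Fact p.Prime] {X Y : Type*} [Fintype X] [Fintype Y]
    (T : X → Y → ℂ) (T' : Y → X → ℂ) (d₁ : Y → ℕ) (n : ℕ) (hn : ¬ p ∣ n) (d₂ : Y → ℕ)
    (hd₂ : ∀ c, ¬ p ∣ d₂ c)
    (hrow : ∀ θ θ', ∃ w : ℂ, IsIntegral ℤ w ∧
      ∑ c, T θ c * ((d₁ c : ℂ) * T' c θ') = (if θ = θ' then (n : ℂ) else 0) + p * w)
    (hcol : ∀ c c', ∃ w : ℂ, IsIntegral ℤ w ∧
      ∑ θ, T' c θ * T θ c' = (if c = c' then (d₂ c : ℂ) else 0) + p * w)
    (σX : X → X) (σY : Y → Y) (hσ : ∀ θ c, T (σX θ) c = T θ (σY c)) :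
    Nat.card {θ : X // σX θ = θ} = Nat.card {c : Y // σY c = c} := by
  let Tm : Matrix X Y ℂ := Matrix.of T
  let Tm' : Matrix Y X ℂ := Matrix.of T'
  let Dm : Matrix Y Y ℂ := Matrix.diagonal (fun c => (d₁ c : ℂ))
  have h1 : (Tm * (Dm * Tm')).det ≠ 0 := by
    apply det_ne_zero_of_modp (p := p) _ (fun _ => n) (fun _ => hn)
    intro θ θ'
    obtain ⟨w, hw, e⟩ := hrow θ θ'
    refine ⟨w, hw, ?_⟩
    rw [← e, Matrix.mul_apply]
    refine Finset.sum_congr rfl fun c _ => ?_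
    rw [Matrix.diagonal_mul]
    rfl
  have h2 : (Tm' * Tm).det ≠ 0 := by
    apply det_ne_zero_of_modp (p := p) _ d₂ hd₂
    intro c c'
    obtain ⟨w, hw, e⟩ := hcol c c'
    refine ⟨w, hw, ?_⟩
    rw [← e, Matrix.mul_apply]
    rfl
  have hR : Tm * (Dm * Tm' * (Tm * (Dm * Tm'))⁻¹) = 1 := by
    rw [← Matrix.mul_assoc]
    exact Matrix.mul_nonsing_inv _ (isUnit_iff_ne_zero.2 h1)
  have hL : ((Tm' * Tm)⁻¹ * Tm') * Tm = 1 := by
    rw [Matrix.mul_assoc]
    exact Matrix.nonsing_inv_mul _ (isUnit_iff_ne_zero.2 h2)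
  have hLR : (Tm' * Tm)⁻¹ * Tm' = Dm * Tm' * (Tm * (Dm * Tm'))⁻¹ := by
    calc (Tm' * Tm)⁻¹ * Tm' = (Tm' * Tm)⁻¹ * Tm' * (Tm * (Dm * Tm' * (Tm * (Dm * Tm'))⁻¹)) := by
          rw [hR, Matrix.mul_one]
      _ = ((Tm' * Tm)⁻¹ * Tm' * Tm) * (Dm * Tm' * (Tm * (Dm * Tm'))⁻¹) := by
          rw [Matrix.mul_assoc ((Tm' * Tm)⁻¹ * Tm') Tm]
      _ = _ := by rw [hL, Matrix.one_mul]
  obtain ⟨S, hTS, hST⟩ : ∃ S : Matrix Y X ℂ, Tm * S = 1 ∧ S * Tm = 1 :=
    ⟨(Tm' * Tm)⁻¹ * Tm', by rw [hLR]; exact hR, hL⟩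
  have key : (Nat.card {θ : X // σX θ = θ} : ℂ) = (Nat.card {c : Y // σY c = c} : ℂ) := by
    calc (Nat.card {θ : X // σX θ = θ} : ℂ) = ∑ θ, (if σX θ = θ then (1 : ℂ) else 0) := by
          rw [Nat.card_eq_fintype_card, Fintype.card_subtype, Finset.card_filter]
          push_cast
          rfl
      _ = ∑ θ, (Tm * S) (σX θ) θ := by
          refine Finset.sum_congr rfl fun θ _ => ?_
          rw [hTS, Matrix.one_apply]
      _ = ∑ θ, ∑ c, T (σX θ) c * S c θ := by
          refine Finset.sum_congr rfl fun θ _ => ?_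
          rw [Matrix.mul_apply]
          rfl
      _ = ∑ θ, ∑ c, T θ (σY c) * S c θ := by
          refine Finset.sum_congr rfl fun θ _ => Finset.sum_congr rfl fun c _ => ?_
          rw [hσ]
      _ = ∑ c, ∑ θ, S c θ * T θ (σY c) := by
          rw [Finset.sum_comm]
          exact Finset.sum_congr rfl fun c _ => Finset.sum_congr rfl fun θ _ => mul_comm _ _
      _ = ∑ c, (S * Tm) c (σY c) := by
          refine Finset.sum_congr rfl fun c _ => ?_
          rw [Matrix.mul_apply]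
          rfl
      _ = ∑ c, (if σY c = c then (1 : ℂ) else 0) := by
          refine Finset.sum_congr rfl fun c _ => ?_
          rw [hST, Matrix.one_apply]
          exact if_congr eq_comm rfl rfl
      _ = (Nat.card {c : Y // σY c = c} : ℂ) := by
          rw [Nat.card_eq_fintype_card, Fintype.card_subtype, Finset.card_filter]
          push_cast
          rfl
  exact_mod_cast key

end Cfsg.Agent.Helper24
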