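import Mathlib
import Cfsg.Agent.Helper2.CharOrtho
import Cfsg.Agent.Helper2.CharComplete
import Cfsg.Agent.Helper2.CharInner
import Cfsg.Agent.Helper2.CharBound
import Cfsg.Agent.Helper2.ConjClass
import Cfsg.Agent.Helper10.CharConj
import Cfsg.Agent.Helper24.CharBasic
import Cfsg.Agent.Helper24.CharInv
import Cfsg.Agent.Helper24.DetModP

set_option autoImplicit false

namespace Cfsg.Agent.Helper24

open Cfsg

open scoped ComplexConjugate

section CoprimeReal

variable {K : Type*} [Group K] [Finite K] {A : Type*} [Group A]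

/-- The action on conjugacy classes induced by a group of automorphisms. -/
@[reducible] def ccMulAction (f : A →* MulAut K) : MulAction A (ConjClasses K) where
  smul a c := ConjClasses.map (MulEquiv.toMonoidHom (f a)) c
  one_smul c := by
    obtain ⟨k, rfl⟩ := ConjClasses.mk_surjective c
    show ConjClasses.mk ((f 1) k) = ConjClasses.mk k
    rw [map_one]
    rfl
  mul_smul a b c := by
    obtain ⟨k, rfl⟩ := ConjClasses.mk_surjective c
    show ConjClasses.mk ((f (a * b)) k) = ConjClasses.mk ((f a) ((f b) k))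
    rw [map_mul]
    rfl

theorem cr_irr_comp_aut (φ : MulAut K) {θ : K → ℂ} (hθ : IsIrrCharacter K θ) :
    IsIrrCharacter K (fun k => θ (φ k)) := by
  haveI := Fintype.ofFinite K
  exact Helper10.isIrr_comp_equiv φ hθ

/-- The action on irreducible characters induced by a group of automorphisms. -/
@[reducible] noncomputable def irrMulAction (f : A →* MulAut K) :
    MulAction A (IrrCharacter K) where
  smul a θ := ⟨fun k => θ.1 (f a⁻¹ k), cr_irr_comp_aut (f a⁻¹) θ.2⟩
  one_smul θ := by
    apply Subtype.ext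
    funext k
    show θ.1 (f 1⁻¹ k) = θ.1 k
    rw [inv_one, map_one]
    rfl
  mul_smul a b θ := by
    apply Subtype.ext
    funext k
    show θ.1 (f (a * b)⁻¹ k) = θ.1 (f b⁻¹ (f a⁻¹ k))
    rw [mul_inv_rev, map_mul]
    rfl

theorem cr_out_mk (k : K) : IsConj (Quotient.out (ConjClasses.mk k)) k :=
  ConjClasses.mk_eq_mk_iff_isConj.1 (Quotient.out_eq (ConjClasses.mk k))

theorem cr_map_aut (φ : MulAut K) {x y : K} (h : IsConj x y) : IsConj (φ x) (φ y) := by
  obtain ⟨g, hg⟩ := isConj_iff.1 h
  exact isConj_iff.2 ⟨φ g, by rw [← hg, map_mul, map_mul, map_inv]⟩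

theorem cr_inv_inv {x y : K} (h : IsConj x y) : IsConj x⁻¹ y⁻¹ := by
  obtain ⟨g, hg⟩ := isConj_iff.1 h
  exact isConj_iff.2 ⟨g, by rw [← hg]; group⟩

theorem cr_fixed_out (φ : MulAut K) (c : ConjClasses K)
    (hc : ConjClasses.map (MulEquiv.toMonoidHom φ) c = c) :
    IsConj (φ (Quotient.out c)) (Quotient.out c) := by
  apply ConjClasses.mk_eq_mk_iff_isConj.1
  have h1 : ConjClasses.mk (Quotient.out c) = c := Quotient.out_eq c
  have h2 : ConjClasses.mk (φ (Quotient.out c)) =
      ConjClasses.map (MulEquiv.toMonoidHom φ) (ConjClasses.mk (Quotient.out c)) := rfl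
  rw [h2, h1, hc]

theorem cr_out_map (φ : MulAut K) (c : ConjClasses K) :
    IsConj (Quotient.out (ConjClasses.map (MulEquiv.toMonoidHom φ) c)) (φ (Quotient.out c)) := by
  apply ConjClasses.mk_eq_mk_iff_isConj.1
  have h1 : ConjClasses.mk (Quotient.out c) = c := Quotient.out_eq c
  have h2 : ConjClasses.mk (φ (Quotient.out c)) =
      ConjClasses.map (MulEquiv.toMonoidHom φ) (ConjClasses.mk (Quotient.out c)) := rfl
  rw [h2, h1]
  exact Quotient.out_eq _

theorem cr_card_conj_aut (φ : MulAut K) (k : K) :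
    Nat.card {x : K // IsConj x (φ k)} = Nat.card {x : K // IsConj x k} := by
  apply Nat.card_congr
  exact ⟨fun x => ⟨(MulEquiv.symm φ) x.1, by
      have h := cr_map_aut (MulEquiv.symm φ) x.2
      rwa [MulEquiv.symm_apply_apply] at h⟩,
    fun x => ⟨φ x.1, cr_map_aut φ x.2⟩,
    fun x => Subtype.ext (MulEquiv.apply_symm_apply φ x.1),
    fun x => Subtype.ext (MulEquiv.symm_apply_apply φ x.1)⟩

theorem cr_card_map (φ : MulAut K) (c : ConjClasses K) :
    Nat.card {x : K // IsConj x (Quotient.out (ConjClasses.map (MulEquiv.toMonoidHom φ) c))} =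
      Nat.card {x : K // IsConj x (Quotient.out c)} := by
  haveI := Fintype.ofFinite K
  rw [Helper2.card_conj_eq_of_isConj (cr_out_map φ c), cr_card_conj_aut]

theorem cr_integral_conj {θ : K → ℂ} (hθ : IsIrrCharacter K θ) (k : K) :
    IsIntegral ℤ (conj (θ k)) := by
  rw [← char_inv (isCharacter_of_irr hθ) k]
  exact Helper2.IsCharacter.isIntegral (isCharacter_of_irr hθ) _

theorem cr_real_iff (c : ConjClasses K) :
    (∀ k : K, ConjClasses.mk k = c → IsConj k k⁻¹) ↔
      ConjClasses.mk (Quotient.out c)⁻¹ = c := by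
  have h1 : ConjClasses.mk (Quotient.out c) = c := Quotient.out_eq c
  constructor
  · intro h
    exact (ConjClasses.mk_eq_mk_iff_isConj.2 (h _ h1).symm).trans h1
  · intro h k hk
    have h2 : IsConj k (Quotient.out c) := ConjClasses.mk_eq_mk_iff_isConj.1 (hk.trans h1.symm)
    have h3 : ConjClasses.mk k⁻¹ = ConjClasses.mk (Quotient.out c)⁻¹ :=
      ConjClasses.mk_eq_mk_iff_isConj.2 (cr_inv_inv h2)
    exact (ConjClasses.mk_eq_mk_iff_isConj.1 (h3.trans (h.trans hk.symm))).symm

theorem cr_map_one (a : A) (c : ConjClasses K) :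
    ConjClasses.map (MulEquiv.toMonoidHom ((1 : A →* MulAut K) a)) c = c := by
  obtain ⟨k, rfl⟩ := ConjClasses.mk_surjective c
  rfl

/-- The invariant irreducible characters. -/
abbrev InvIrr (f : A →* MulAut K) :=
  {θ : IrrCharacter K // ∀ (a : A) (k : K), (θ : K → ℂ) (f a k) = (θ : K → ℂ) k}

/-- The invariant classes. -/
abbrev InvCls (f : A →* MulAut K) :=
  {c : ConjClasses K // ∀ a : A, ConjClasses.map (MulEquiv.toMonoidHom (f a)) c = c}

theorem cr_irr_conj {θ : K → ℂ} (hθ : IsIrrCharacter K θ) :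
    IsIrrCharacter K (fun k => conj (θ k)) := by
  haveI := Fintype.ofFinite K
  exact Helper2.isIrrCharacter_conj hθ

/-- Complex conjugation on invariant characters. -/
noncomputable def conjIrr (f : A →* MulAut K) (θ : InvIrr f) : InvIrr f :=
  ⟨⟨fun k => conj (θ.1.1 k), cr_irr_conj θ.1.2⟩, fun a k => congrArg conj (θ.2 a k)⟩

/-- Inversion on invariant classes. -/
noncomputable def invCls (f : A →* MulAut K) (c : InvCls f) : InvCls f :=
  ⟨ConjClasses.mk (Quotient.out c.1)⁻¹, fun a => by
    show ConjClasses.mk (f a (Quotient.out c.1)⁻¹) = ConjClasses.mk (Quotient.out c.1)⁻¹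
    rw [map_inv]
    exact ConjClasses.mk_eq_mk_iff_isConj.2 (cr_inv_inv (cr_fixed_out (f a) c.1 (c.2 a)))⟩

theorem cr_val_map (f : A →* MulAut K) (θ : InvIrr f) (a : A) (c : ConjClasses K) :
    θ.1.1 (Quotient.out (ConjClasses.map (MulEquiv.toMonoidHom (f a)) c)) =
      θ.1.1 (Quotient.out c) := by
  rw [Helper2.IsClassFunction.apply_eq_of_isConj
    (Helper2.IsIrrCharacter.isClassFunction θ.1.2) (cr_out_map (f a) c), θ.2 a]

/-- **Coprime action, real characters and real classes.** If a `p`-group `A` acts on a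
`p'`-group `K`, the number of `A`-invariant real-valued irreducible characters of `K` equals the
number of `A`-invariant real classes of `K`. -/
theorem coprime_real_count {p : ℕ} [Fact p.Prime] (f : A →* MulAut K) (hA : IsPGroup p A)
    (hK : ¬ p ∣ Nat.card K) :
    Nat.card {θ : IrrCharacter K // (∀ k : K, ((θ : K → ℂ) k).im = 0) ∧
        ∀ (a : A) (k : K), (θ : K → ℂ) (f a k) = (θ : K → ℂ) k} =
      Nat.card {c : ConjClasses K // (∀ k : K, ConjClasses.mk k = c → IsConj k k⁻¹) ∧
        ∀ a : A, ConjClasses.map (MulEquiv.toMonoidHom (f a)) c = c} := by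
  classical
  haveI := Fintype.ofFinite K
  haveI : Finite (IrrCharacter K) := finite_irrCharacter
  haveI := Fintype.ofFinite (IrrCharacter K)
  haveI := Fintype.ofFinite (ConjClasses K)
  have main : Nat.card {θ : InvIrr f // conjIrr f θ = θ} =
      Nat.card {c : InvCls f // invCls f c = c} := by
    refine fix_count_eq (p := p) (X := InvIrr f) (Y := InvCls f)
      (fun θ c => θ.1.1 (Quotient.out c.1))
      (fun c θ => conj (θ.1.1 (Quotient.out c.1)))
      (fun c => Nat.card {x : K // IsConj x (Quotient.out c.1)})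
      (Nat.card K) hK
      (fun c => Nat.card (Subgroup.centralizer ({Quotient.out c.1} : Set K)))
      (fun c h => hK (h.trans (Subgroup.card_subgroup_dvd_card _))) ?_ ?_
      (conjIrr f) (invCls f) ?_
    · -- row orthogonality mod p
      intro θ θ'
      letI := ccMulAction f
      have hcf : IsClassFunction K (fun k => θ.1.1 k * conj (θ'.1.1 k)) :=
        Helper2.IsClassFunction.mul (Helper2.IsIrrCharacter.isClassFunction θ.1.2)
          (Helper2.IsClassFunction.conj (Helper2.IsIrrCharacter.isClassFunction θ'.1.2))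
      have h1 := Helper2.classInner_irr θ.1.2 θ'.1.2
      unfold classInner at h1
      have hK0 : (Nat.card K : ℂ) ≠ 0 := by exact_mod_cast Nat.card_pos.ne'
      rw [inv_mul_eq_iff_eq_mul₀ hK0, Helper2.sum_eq_sum_conjClasses _ hcf] at h1
      have hinv : ∀ (a : A) (c : ConjClasses K),
          ((Nat.card {x : K // IsConj x
            (Quotient.out (ConjClasses.map (MulEquiv.toMonoidHom (f a)) c))} : ℕ) : ℂ) *
            (θ.1.1 (Quotient.out (ConjClasses.map (MulEquiv.toMonoidHom (f a)) c)) *
              conj (θ'.1.1 (Quotient.out (ConjClasses.map (MulEquiv.toMonoidHom (f a)) c)))) =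
          ((Nat.card {x : K // IsConj x (Quotient.out c)} : ℕ) : ℂ) *
            (θ.1.1 (Quotient.out c) * conj (θ'.1.1 (Quotient.out c))) := by
        intro a c
        rw [cr_card_map, cr_val_map f θ, cr_val_map f θ']
      obtain ⟨w, hw, e⟩ := sum_fixed_modp hA
        (fun c : ConjClasses K => ((Nat.card {x : K // IsConj x (Quotient.out c)} : ℕ) : ℂ) *
          (θ.1.1 (Quotient.out c) * conj (θ'.1.1 (Quotient.out c))))
        (fun c => (isIntegral_natCast_cplx _).mul
          ((Helper2.IsCharacter.isIntegral (isCharacter_of_irr θ.1.2) _).mul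
            (cr_integral_conj θ'.1.2 _)))
        hinv
        (fun c => ∀ a : A, ConjClasses.map (MulEquiv.toMonoidHom (f a)) c = c)
        (fun c => Iff.rfl)
      have e' := e.symm.trans h1
      refine ⟨-w, hw.neg, ?_⟩
      have e3 : ∑ c : InvCls f, θ.1.1 (Quotient.out c.1) *
          (((Nat.card {x : K // IsConj x (Quotient.out c.1)} : ℕ) : ℂ) *
            conj (θ'.1.1 (Quotient.out c.1))) =
          ∑ c : InvCls f, ((Nat.card {x : K // IsConj x (Quotient.out c.1)} : ℕ) : ℂ) *
            (θ.1.1 (Quotient.out c.1) * conj (θ'.1.1 (Quotient.out c.1))) :=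
        Finset.sum_congr rfl fun c _ => by ring
      rw [e3]
      by_cases h : θ = θ'
      · rw [if_pos h]
        rw [if_pos (show θ.1.1 = θ'.1.1 from by rw [h]), mul_one] at e'
        linear_combination e'
      · rw [if_neg h]
        rw [if_neg (show ¬ θ.1.1 = θ'.1.1 from fun h' => h (Subtype.ext (Subtype.ext h'))),
          mul_zero] at e'
        linear_combination e'
    · -- column orthogonality mod p
      intro c c'
      letI := irrMulAction f
      have h2 := Helper2.second_orthogonality (G := K) (Quotient.out c'.1) (Quotient.out c.1)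
      have hinv : ∀ (a : A) (χ : IrrCharacter K),
          χ.1 (f a⁻¹ (Quotient.out c'.1)) * conj (χ.1 (f a⁻¹ (Quotient.out c.1))) =
            χ.1 (Quotient.out c'.1) * conj (χ.1 (Quotient.out c.1)) := by
        intro a χ
        rw [Helper2.IsClassFunction.apply_eq_of_isConj
            (Helper2.IsIrrCharacter.isClassFunction χ.2)
            (cr_fixed_out (f a⁻¹) c'.1 (c'.2 a⁻¹)),
          Helper2.IsClassFunction.apply_eq_of_isConj
            (Helper2.IsIrrCharacter.isClassFunction χ.2)
            (cr_fixed_out (f a⁻¹) c.1 (c.2 a⁻¹))]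
      obtain ⟨w, hw, e⟩ := sum_fixed_modp hA
        (fun χ : IrrCharacter K => χ.1 (Quotient.out c'.1) * conj (χ.1 (Quotient.out c.1)))
        (fun χ => (Helper2.IsCharacter.isIntegral (isCharacter_of_irr χ.2) _).mul
          (cr_integral_conj χ.2 _))
        hinv
        (fun χ => ∀ (a : A) (k : K), (χ : K → ℂ) (f a k) = (χ : K → ℂ) k)
        (fun χ => ⟨fun h a => Subtype.ext (funext fun k => h a⁻¹ k), fun h a k => by
          have h3 := congrFun (congrArg Subtype.val (h a⁻¹)) k
          have h4 : χ.1 (f a⁻¹⁻¹ k) = χ.1 k := h3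
          rwa [inv_inv] at h4⟩)
      have e' := e.symm.trans h2
      refine ⟨-w, hw.neg, ?_⟩
      have e3 : ∑ θ : InvIrr f, conj (θ.1.1 (Quotient.out c.1)) * θ.1.1 (Quotient.out c'.1) =
          ∑ θ : InvIrr f, θ.1.1 (Quotient.out c'.1) * conj (θ.1.1 (Quotient.out c.1)) :=
        Finset.sum_congr rfl fun θ _ => mul_comm _ _
      rw [e3]
      by_cases h : c = c'
      · rw [if_pos h]
        rw [if_pos (show IsConj (Quotient.out c'.1) (Quotient.out c.1) from by
          subst h; exact IsConj.refl _)] at e'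
        linear_combination e'
      · rw [if_neg h]
        rw [if_neg (show ¬ IsConj (Quotient.out c'.1) (Quotient.out c.1) from fun h' => h
          (Subtype.ext ((Quotient.out_eq c.1).symm.trans
            ((ConjClasses.mk_eq_mk_iff_isConj.2 h').symm.trans (Quotient.out_eq c'.1)))))] at e'
        linear_combination e'
    · intro θ c
      show conj (θ.1.1 (Quotient.out c.1)) =
        θ.1.1 (Quotient.out (ConjClasses.mk (Quotient.out c.1)⁻¹))
      rw [Helper2.IsClassFunction.apply_eq_of_isConj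
        (Helper2.IsIrrCharacter.isClassFunction θ.1.2) (cr_out_mk _),
        char_inv (isCharacter_of_irr θ.1.2)]
  have eX : Nat.card {θ : IrrCharacter K // (∀ k : K, ((θ : K → ℂ) k).im = 0) ∧
      ∀ (a : A) (k : K), (θ : K → ℂ) (f a k) = (θ : K → ℂ) k} =
      Nat.card {θ : InvIrr f // conjIrr f θ = θ} := by
    apply Nat.card_congr
    exact ⟨fun θ => ⟨⟨θ.1, θ.2.2⟩, Subtype.ext (Subtype.ext
        (funext fun k => Complex.conj_eq_iff_im.2 (θ.2.1 k)))⟩,
      fun θ => ⟨θ.1.1, fun k => Complex.conj_eq_iff_im.1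
        (show conj (θ.1.1.1 k) = θ.1.1.1 k from
          congrFun (congrArg (fun t : InvIrr f => (t.1.1 : K → ℂ)) θ.2) k), θ.1.2⟩,
      fun θ => rfl, fun θ => rfl⟩
  have eY : Nat.card {c : ConjClasses K // (∀ k : K, ConjClasses.mk k = c → IsConj k k⁻¹) ∧
      ∀ a : A, ConjClasses.map (MulEquiv.toMonoidHom (f a)) c = c} =
      Nat.card {c : InvCls f // invCls f c = c} := by
    apply Nat.card_congr
    exact ⟨fun c => ⟨⟨c.1, c.2.2⟩, Subtype.ext ((cr_real_iff c.1).1 c.2.1)⟩,
      fun c => ⟨c.1.1, (cr_real_iff c.1.1).2 (congrArg Subtype.val c.2), c.1.2⟩,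
      fun c => rfl, fun c => rfl⟩
  rw [eX, eY]
  exact main

/-- If all real-valued irreducible characters are invariant under the coprime action of a
`p`-group, every real element is conjugate to a fixed element. -/
theorem coprime_real_fixed {p : ℕ} [Fact p.Prime] (f : A →* MulAut K) (hA : IsPGroup p A)
    (hK : ¬ p ∣ Nat.card K)
    (hall : ∀ θ : IrrCharacter K, (∀ k : K, ((θ : K → ℂ) k).im = 0) →
      ∀ (a : A) (k : K), (θ : K → ℂ) (f a k) = (θ : K → ℂ) k)
    (k : K) (hk : IsConj k k⁻¹) : ∃ k' : K, IsConj k k' ∧ ∀ a : A, f a k' = k' := by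
  classical
  have h1 := coprime_real_count f hA hK
  have h0 := coprime_real_count (1 : A →* MulAut K) hA hK
  have e1 : Nat.card {θ : IrrCharacter K // (∀ k : K, ((θ : K → ℂ) k).im = 0) ∧
      ∀ (a : A) (k : K), (θ : K → ℂ) (f a k) = (θ : K → ℂ) k} =
      Nat.card {θ : IrrCharacter K // (∀ k : K, ((θ : K → ℂ) k).im = 0) ∧
      ∀ (a : A) (k : K), (θ : K → ℂ) ((1 : A →* MulAut K) a k) = (θ : K → ℂ) k} :=
    Nat.card_congr (Equiv.subtypeEquivRight fun θ =>
      ⟨fun h => ⟨h.1, fun a k => rfl⟩, fun h => ⟨h.1, hall θ h.1⟩⟩)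
  have e2 := h1.symm.trans (e1.trans h0)
  have hinj : Function.Injective
      (fun c : {c : ConjClasses K // (∀ k : K, ConjClasses.mk k = c → IsConj k k⁻¹) ∧
        ∀ a : A, ConjClasses.map (MulEquiv.toMonoidHom (f a)) c = c} =>
        (⟨c.1, c.2.1, fun a => cr_map_one a c.1⟩ :
          {c : ConjClasses K // (∀ k : K, ConjClasses.mk k = c → IsConj k k⁻¹) ∧
            ∀ a : A, ConjClasses.map (MulEquiv.toMonoidHom ((1 : A →* MulAut K) a)) c = c})) :=
    by
      intro c c' h
      have h' := Subtype.ext_iff.1 h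
      exact Subtype.ext h'
  have hbij := Function.Injective.bijective_of_nat_card_le hinj e2.symm.le
  have hreal : ∀ k' : K, ConjClasses.mk k' = ConjClasses.mk k → IsConj k' k'⁻¹ := by
    intro k' hk'
    have h := ConjClasses.mk_eq_mk_iff_isConj.1 hk'
    exact (h.trans hk).trans (cr_inv_inv h.symm)
  obtain ⟨c, hc⟩ := hbij.2 ⟨ConjClasses.mk k, hreal, fun a => cr_map_one a _⟩
  have hc1 : c.1 = ConjClasses.mk k := congrArg Subtype.val hc
  have hfix : ∀ a : A, IsConj (f a k) k := by
    intro a
    have h := c.2.2 a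
    rw [hc1] at h
    exact ConjClasses.mk_eq_mk_iff_isConj.1 h
  letI : MulAction A {x : K // IsConj x k} :=
    { smul := fun a x => ⟨f a x.1, (cr_map_aut (f a) x.2).trans (hfix a)⟩
      one_smul := fun x => Subtype.ext (by
        show f 1 x.1 = x.1
        rw [map_one]
        rfl)
      mul_smul := fun a b x => Subtype.ext (by
        show f (a * b) x.1 = f a (f b x.1)
        rw [map_mul]
        rfl) }
  have hcard : ¬ p ∣ Nat.card {x : K // IsConj x k} := fun h =>
    hK (h.trans (Dvd.intro _ (Helper2.card_conj_mul_card_centralizer k)))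
  obtain ⟨x, hx⟩ := hA.nonempty_fixed_point_of_prime_not_dvd_card {x : K // IsConj x k} hcard
  exact ⟨x.1, x.2.symm, fun a => congrArg Subtype.val (hx a)⟩

end CoprimeReal

/-- Conjugation action of a subgroup `P` normalizing `K` on `K`. -/
def conjNormHom {G : Type*} [Group G] (P K : Subgroup G)
    (hPK : P ≤ Subgroup.normalizer (K : Set G)) : ↥P →* MulAut ↥K where
  toFun x :=
    { toFun := fun k => ⟨(x : G) * k * (x : G)⁻¹,
        (Subgroup.mem_normalizer_iff.1 (hPK x.2) k).1 k.2⟩
      invFun := fun k => ⟨(x : G)⁻¹ * k * (x : G),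
        (Subgroup.mem_normalizer_iff''.1 (hPK x.2) k).1 k.2⟩
      left_inv := fun k => Subtype.ext (by
        show (x : G)⁻¹ * ((x : G) * k * (x : G)⁻¹) * (x : G) = k
        group)
      right_inv := fun k => Subtype.ext (by
        show (x : G) * ((x : G)⁻¹ * k * (x : G)) * (x : G)⁻¹ = k
        group)
      map_mul' := fun k k' => Subtype.ext (by
        show (x : G) * ((k : G) * k') * (x : G)⁻¹ =
          ((x : G) * k * (x : G)⁻¹) * ((x : G) * k' * (x : G)⁻¹)
        group) }
  map_one' := MulEquiv.ext fun k => Subtype.ext (by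
    show ((1 : ↥P) : G) * k * ((1 : ↥P) : G)⁻¹ = k
    simp)
  map_mul' x y := MulEquiv.ext fun k => Subtype.ext (by
    show ((x * y : ↥P) : G) * k * ((x * y : ↥P) : G)⁻¹ =
      (x : G) * ((y : G) * k * (y : G)⁻¹) * (x : G)⁻¹
    rw [Subgroup.coe_mul]
    group)

theorem conjNormHom_apply {G : Type*} [Group G] (P K : Subgroup G)
    (hPK : P ≤ Subgroup.normalizer (K : Set G)) (x : ↥P) (k : ↥K) :
    ((conjNormHom P K hPK x k : ↥K) : G) = (x : G) * (k : G) * (x : G)⁻¹ := rfl

end Cfsg.Agent.Helper24
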