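import Mathlib

set_option autoImplicit false

namespace Cfsg.Agent.Helper24

universe u

/-- A generating set (modulo the kernel of the representation) which is small compared to `#V`. -/
def FqGood (q : ℕ) [Fact q.Prime] (V : Type u) [AddCommGroup V] [Module (ZMod q) V]
    (G : Type u) [Group G] (ρ : G →* (V ≃ₗ[ZMod q] V)) : Prop :=
  ∃ S : Finset G, Subgroup.closure (S : Set G) ⊔ ρ.ker = ⊤ ∧ 2 ^ S.card ≤ Nat.card V - 1 ∧
    (Nat.card V ≠ 3 → 2 ^ (S.card + 1) ≤ Nat.card V - 1)

theorem fq_apply_inv {q : ℕ} [Fact q.Prime] {V : Type*} [AddCommGroup V] [Module (ZMod q) V]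
    {G : Type*} [Group G] (ρ : G →* (V ≃ₗ[ZMod q] V)) (g : G) (v : V) :
    ρ g (ρ g⁻¹ v) = v := by
  have : ρ g * ρ g⁻¹ = 1 := by rw [← map_mul, mul_inv_cancel, map_one]
  have h2 := congrArg (fun e : V ≃ₗ[ZMod q] V => e v) this
  simpa using h2

theorem fq_inv_apply {q : ℕ} [Fact q.Prime] {V : Type*} [AddCommGroup V] [Module (ZMod q) V]
    {G : Type*} [Group G] (ρ : G →* (V ≃ₗ[ZMod q] V)) (g : G) (v : V) :
    ρ g⁻¹ (ρ g v) = v := by
  have : ρ g⁻¹ * ρ g = 1 := by rw [← map_mul, inv_mul_cancel, map_one]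
  have h2 := congrArg (fun e : V ≃ₗ[ZMod q] V => e v) this
  simpa using h2

/-- restriction of a representation to an invariant submodule -/
noncomputable def fqRes {q : ℕ} [Fact q.Prime] {V : Type*} [AddCommGroup V] [Module (ZMod q) V]
    {G : Type*} [Group G] (ρ : G →* (V ≃ₗ[ZMod q] V)) (W : Submodule (ZMod q) V)
    (h : ∀ g : G, ∀ w ∈ W, ρ g w ∈ W) : G →* (W ≃ₗ[ZMod q] W) where
  toFun g := LinearEquiv.ofLinear ((ρ g : V →ₗ[ZMod q] V).restrict (h g))
    ((ρ g⁻¹ : V →ₗ[ZMod q] V).restrict (h g⁻¹))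
    (by
      ext w
      simp only [LinearMap.coe_comp, Function.comp_apply, LinearMap.coe_restrict_apply,
        LinearEquiv.coe_coe, LinearMap.id_coe, id_eq]
      exact fq_apply_inv ρ g _)
    (by
      ext w
      simp only [LinearMap.coe_comp, Function.comp_apply, LinearMap.coe_restrict_apply,
        LinearEquiv.coe_coe, LinearMap.id_coe, id_eq]
      exact fq_inv_apply ρ g _)
  map_one' := by
    ext w
    simp
  map_mul' a b := by
    ext w
    simp

theorem fqRes_apply {q : ℕ} [Fact q.Prime] {V : Type*} [AddCommGroup V] [Module (ZMod q) V]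
    {G : Type*} [Group G] (ρ : G →* (V ≃ₗ[ZMod q] V)) (W : Submodule (ZMod q) V)
    (h : ∀ g : G, ∀ w ∈ W, ρ g w ∈ W) (g : G) (w : W) :
    ((fqRes ρ W h g) w : V) = ρ g w := rfl

/-- the representation induced on the quotient by an invariant submodule -/
noncomputable def fqQuo {q : ℕ} [Fact q.Prime] {V : Type*} [AddCommGroup V] [Module (ZMod q) V]
    {G : Type*} [Group G] (ρ : G →* (V ≃ₗ[ZMod q] V)) (W : Submodule (ZMod q) V)
    (h : ∀ g : G, ∀ w ∈ W, ρ g w ∈ W) : G →* ((V ⧸ W) ≃ₗ[ZMod q] (V ⧸ W)) where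
  toFun g := LinearEquiv.ofLinear (W.mapQ W (ρ g : V →ₗ[ZMod q] V) (fun w hw => h g w hw))
    (W.mapQ W (ρ g⁻¹ : V →ₗ[ZMod q] V) (fun w hw => h g⁻¹ w hw))
    (by
      refine LinearMap.ext fun x => ?_
      induction x using Submodule.Quotient.induction_on with
      | _ v =>
        simp only [LinearMap.coe_comp, Function.comp_apply, Submodule.mapQ_apply,
          LinearEquiv.coe_coe, LinearMap.id_coe, id_eq]
        rw [fq_apply_inv ρ g v])
    (by
      refine LinearMap.ext fun x => ?_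
      induction x using Submodule.Quotient.induction_on with
      | _ v =>
        simp only [LinearMap.coe_comp, Function.comp_apply, Submodule.mapQ_apply,
          LinearEquiv.coe_coe, LinearMap.id_coe, id_eq]
        rw [fq_inv_apply ρ g v])
  map_one' := by
    refine LinearEquiv.ext fun x => ?_
    induction x using Submodule.Quotient.induction_on with
    | _ v => simp
  map_mul' a b := by
    refine LinearEquiv.ext fun x => ?_
    induction x using Submodule.Quotient.induction_on with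
    | _ v => simp

theorem fqQuo_apply {q : ℕ} [Fact q.Prime] {V : Type*} [AddCommGroup V] [Module (ZMod q) V]
    {G : Type*} [Group G] (ρ : G →* (V ≃ₗ[ZMod q] V)) (W : Submodule (ZMod q) V)
    (h : ∀ g : G, ∀ w ∈ W, ρ g w ∈ W) (g : G) (v : V) :
    (fqQuo ρ W h g) (Submodule.Quotient.mk v) = Submodule.Quotient.mk (ρ g v) := rfl

/-- a 2-power-order automorphism acting trivially on `W` and on `V ⧸ W` is trivial (odd characteristic) -/
theorem fq_stab {q : ℕ} [Fact q.Prime] (hq : q ≠ 2) {V : Type*} [AddCommGroup V] [Module (ZMod q) V]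
    (f : V ≃ₗ[ZMod q] V) (W : Submodule (ZMod q) V) (k : ℕ) (hf : f ^ (2 ^ k) = 1)
    (h1 : ∀ w ∈ W, f w = w) (h2 : ∀ v, f v - v ∈ W) : f = 1 := by
  have hq' : q.Prime := Fact.out
  refine LinearEquiv.ext fun v => ?_
  have key : ∀ n : ℕ, (f ^ n) v = v + n • (f v - v) := by
    intro n
    induction n with
    | zero => simp
    | succ n ih =>
      rw [pow_succ', LinearEquiv.mul_apply, ih, map_add, map_nsmul, h1 _ (h2 v)]
      rw [succ_nsmul]
      abel
  have h3 := key (2 ^ k)
  rw [hf] at h3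
  have h4 : (2 ^ k : ℕ) • (f v - v) = 0 := by
    have : v = v + (2 ^ k : ℕ) • (f v - v) := by simpa using h3
    exact (left_eq_add.mp this)
  have h5 : ((2 ^ k : ℕ) : ZMod q) • (f v - v) = 0 := by
    rw [Nat.cast_smul_eq_nsmul]; exact h4
  have h6 : ((2 ^ k : ℕ) : ZMod q) ≠ 0 := by
    rw [Nat.cast_pow]
    apply pow_ne_zero
    intro h0
    have : (q : ℕ) ∣ 2 := (ZMod.natCast_eq_zero_iff 2 q).mp (by exact_mod_cast h0)
    exact hq ((Nat.prime_dvd_prime_iff_eq hq' Nat.prime_two).mp this)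
  have h7 : f v - v = 0 := by
    rcases smul_eq_zero.mp h5 with h | h
    · exact absurd h h6
    · exact h
  simpa using sub_eq_zero.mp h7

/-- gluing generating sets along a two-step series -/
theorem fq_glue {A B C D : Type*} [Group A] [Group B] [Group C] [Group D] (ρ : A →* D)
    (ρ1 : A →* B) (ρ2 : A →* C) (hker : ∀ a, ρ1 a = 1 → ρ2 a = 1 → ρ a = 1)
    (S1 : Finset A) (h1 : Subgroup.closure (S1 : Set A) ⊔ ρ1.ker = ⊤)
    (S2 : Finset ρ1.ker)
    (h2 : Subgroup.closure (S2 : Set ρ1.ker) ⊔ (ρ2.comp ρ1.ker.subtype).ker = ⊤) :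
    ∃ S : Finset A, S.card ≤ S1.card + S2.card ∧ Subgroup.closure (S : Set A) ⊔ ρ.ker = ⊤ := by
  classical
  refine ⟨S1 ∪ S2.image Subtype.val, ?_, ?_⟩
  · exact (Finset.card_union_le _ _).trans (Nat.add_le_add_left Finset.card_image_le _)
  · rw [eq_top_iff]
    intro a _
    have ha : a ∈ Subgroup.closure (S1 : Set A) ⊔ ρ1.ker := by rw [h1]; trivial
    obtain ⟨s, hs, k, hk, rfl⟩ := Subgroup.mem_sup_of_normal_right.mp ha
    have hk2 : (⟨k, hk⟩ : ρ1.ker) ∈
        Subgroup.closure (S2 : Set ρ1.ker) ⊔ (ρ2.comp ρ1.ker.subtype).ker := by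
      rw [h2]; trivial
    obtain ⟨t, ht, k', hk', htk⟩ := Subgroup.mem_sup_of_normal_right.mp hk2
    have hk'1 : ρ (k' : A) = 1 := by
      apply hker
      · exact k'.2
      · simpa using hk'
    have ht' : (t : A) ∈ Subgroup.closure ((S1 ∪ S2.image Subtype.val : Finset A) : Set A) := by
      have h3 : (t : A) ∈ (Subgroup.closure (S2 : Set ρ1.ker)).map ρ1.ker.subtype :=
        Subgroup.mem_map_of_mem _ ht
      rw [MonoidHom.map_closure] at h3
      refine Subgroup.closure_mono ?_ h3
      intro x hx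
      obtain ⟨y, hy, rfl⟩ := hx
      simp only [Finset.coe_union, Finset.coe_image, Set.mem_union, Set.mem_image, Finset.mem_coe]
      exact Or.inr ⟨y, hy, rfl⟩
    have hs' : s ∈ Subgroup.closure ((S1 ∪ S2.image Subtype.val : Finset A) : Set A) := by
      refine Subgroup.closure_mono ?_ hs
      intro x hx
      simp only [Finset.coe_union, Set.mem_union, Finset.mem_coe]
      exact Or.inl hx
    have hk_eq : k = (t : A) * (k' : A) := by
      have := congrArg Subtype.val htk
      simpa using this.symm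
    rw [hk_eq, ← mul_assoc]
    exact Subgroup.mul_mem_sup (Subgroup.mul_mem _ hs' ht') (MonoidHom.mem_ker.mpr hk'1)

/-- goodness of the image implies goodness -/
theorem fq_of_range {q : ℕ} [Fact q.Prime] {V : Type u} [AddCommGroup V] [Module (ZMod q) V]
    {G : Type u} [Group G] (ρ : G →* (V ≃ₗ[ZMod q] V))
    (h : FqGood q V ρ.range ρ.range.subtype) : FqGood q V G ρ := by
  classical
  obtain ⟨S, hS, hc⟩ := h
  have hker : (ρ.range.subtype).ker = ⊥ := (MonoidHom.ker_eq_bot_iff _).mpr (Subgroup.subtype_injective _)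
  rw [hker, sup_bot_eq] at hS
  have hex : ∀ s : ρ.range, ∃ g : G, ρ g = s := fun s => s.2
  choose lift hlift using hex
  refine ⟨S.image lift, ?_, ?_, ?_⟩
  · rw [eq_top_iff]
    intro a _
    have h1 : Subgroup.closure (S : Set ρ.range) ≤
        (Subgroup.closure ((S.image lift : Finset G) : Set G)).map ρ.rangeRestrict := by
      rw [Subgroup.closure_le]
      intro s hs
      refine ⟨lift s, Subgroup.subset_closure ?_, ?_⟩
      · simp only [Finset.coe_image, Set.mem_image, Finset.mem_coe]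
        exact ⟨s, hs, rfl⟩
      · exact Subtype.ext (hlift s)
    have h2 : ρ.rangeRestrict a ∈ Subgroup.closure (S : Set ρ.range) := by rw [hS]; trivial
    obtain ⟨b, hb, hba⟩ := h1 h2
    have h3 : ρ b = ρ a := congrArg Subtype.val hba
    have h4 : b⁻¹ * a ∈ ρ.ker := by
      rw [MonoidHom.mem_ker, map_mul, map_inv, h3, inv_mul_cancel]
    have : a = b * (b⁻¹ * a) := by group
    rw [this]
    exact Subgroup.mul_mem_sup hb h4
  · exact (Nat.pow_le_pow_right (by norm_num) Finset.card_image_le).trans hc.1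
  · intro h3
    exact (Nat.pow_le_pow_right (by norm_num) (Nat.succ_le_succ Finset.card_image_le)).trans (hc.2 h3)

end Cfsg.Agent.Helper24
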