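import Mathlib
import Cfsg.Prelude.Def_CaseTheorems
import Cfsg.Agent.Helper24.FqA

set_option autoImplicit false

namespace Cfsg.Agent.Helper24

universe u

theorem fq_good_of_two {q : ℕ} [Fact q.Prime] {V : Type u} [AddCommGroup V] [Module (ZMod q) V]
    {G : Type u} [Group G] (ρ : G →* (V ≃ₗ[ZMod q] V)) (g h : G)
    (hgh : Subgroup.closure ({g, h} : Set G) = ⊤) (hV : 9 ≤ Nat.card V) : FqGood q V G ρ := by
  classical
  have hc : ({g, h} : Finset G).card ≤ 2 := Finset.card_le_two
  refine ⟨{g, h}, ?_, ?_, ?_⟩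
  · rw [Finset.coe_insert, Finset.coe_singleton, hgh, top_sup_eq]
  · calc 2 ^ ({g, h} : Finset G).card ≤ 2 ^ 2 := Nat.pow_le_pow_right (by norm_num) hc
      _ ≤ Nat.card V - 1 := by omega
  · intro _
    calc 2 ^ (({g, h} : Finset G).card + 1) ≤ 2 ^ 3 :=
          Nat.pow_le_pow_right (by norm_num) (by omega)
      _ ≤ Nat.card V - 1 := by omega

theorem fq_good_of_one {q : ℕ} [Fact q.Prime] {V : Type u} [AddCommGroup V] [Module (ZMod q) V]
    {G : Type u} [Group G] (ρ : G →* (V ≃ₗ[ZMod q] V)) (g : G)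
    (hg : Subgroup.closure ({g} : Set G) = ⊤) (h3 : 3 ≤ Nat.card V) (hodd : Odd (Nat.card V)) :
    FqGood q V G ρ := by
  refine ⟨{g}, ?_, ?_, ?_⟩
  · rw [Finset.coe_singleton, hg, top_sup_eq]
  · rw [Finset.card_singleton]; omega
  · intro hne
    rw [Finset.card_singleton]
    obtain ⟨k, hk⟩ := hodd
    omega

theorem fq_dihedral_gen (n : ℕ) :
    Subgroup.closure ({DihedralGroup.r 1, DihedralGroup.sr 0} : Set (DihedralGroup n)) = ⊤ := by
  rw [eq_top_iff]
  intro x _
  have h1 : (DihedralGroup.r 1 : DihedralGroup n) ∈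
      Subgroup.closure ({DihedralGroup.r 1, DihedralGroup.sr 0} : Set (DihedralGroup n)) :=
    Subgroup.subset_closure (by simp)
  have h2 : (DihedralGroup.sr 0 : DihedralGroup n) ∈
      Subgroup.closure ({DihedralGroup.r 1, DihedralGroup.sr 0} : Set (DihedralGroup n)) :=
    Subgroup.subset_closure (by simp)
  have hr : ∀ i : ZMod n, DihedralGroup.r i ∈
      Subgroup.closure ({DihedralGroup.r 1, DihedralGroup.sr 0} : Set (DihedralGroup n)) := by
    intro i
    obtain ⟨k, rfl⟩ := ZMod.intCast_surjective i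
    rw [← DihedralGroup.r_one_zpow]
    exact Subgroup.zpow_mem _ h1 k
  cases x with
  | r i => exact hr i
  | sr i =>
    have : (DihedralGroup.sr i : DihedralGroup n) = DihedralGroup.sr 0 * DihedralGroup.r i := by
      rw [DihedralGroup.sr_mul_r, zero_add]
    rw [this]
    exact Subgroup.mul_mem _ h2 (hr i)

theorem fq_quaternion_gen (n : ℕ) :
    Subgroup.closure ({QuaternionGroup.a 1, QuaternionGroup.xa 0} : Set (QuaternionGroup n)) = ⊤ := by
  rw [eq_top_iff]
  intro x _
  have h1 : (QuaternionGroup.a 1 : QuaternionGroup n) ∈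
      Subgroup.closure ({QuaternionGroup.a 1, QuaternionGroup.xa 0} : Set (QuaternionGroup n)) :=
    Subgroup.subset_closure (by simp)
  have h2 : (QuaternionGroup.xa 0 : QuaternionGroup n) ∈
      Subgroup.closure ({QuaternionGroup.a 1, QuaternionGroup.xa 0} : Set (QuaternionGroup n)) :=
    Subgroup.subset_closure (by simp)
  have hz : ∀ k : ℤ, (QuaternionGroup.a (k : ZMod (2 * n)) : QuaternionGroup n) ∈
      Subgroup.closure ({QuaternionGroup.a 1, QuaternionGroup.xa 0} : Set (QuaternionGroup n)) := by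
    intro k
    induction k using Int.induction_on with
    | zero =>
      have : (QuaternionGroup.a ((0 : ℤ) : ZMod (2 * n)) : QuaternionGroup n) = 1 := by
        rw [Int.cast_zero]; rfl
      rw [this]; exact Subgroup.one_mem _
    | succ i ih =>
      have : (QuaternionGroup.a (((i : ℤ) + 1 : ℤ) : ZMod (2 * n)) : QuaternionGroup n)
          = QuaternionGroup.a ((i : ℤ) : ZMod (2 * n)) * QuaternionGroup.a 1 := by
        rw [QuaternionGroup.a_mul_a, Int.cast_add, Int.cast_one]
      rw [this]; exact Subgroup.mul_mem _ ih h1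
    | pred i ih =>
      have : (QuaternionGroup.a (((-(i : ℤ)) - 1 : ℤ) : ZMod (2 * n)) : QuaternionGroup n)
          = QuaternionGroup.a ((-(i : ℤ) : ℤ) : ZMod (2 * n)) * (QuaternionGroup.a 1)⁻¹ := by
        rw [eq_mul_inv_iff_mul_eq, QuaternionGroup.a_mul_a, Int.cast_sub, Int.cast_one,
          sub_add_cancel]
      rw [this]; exact Subgroup.mul_mem _ ih (Subgroup.inv_mem _ h1)
  have hr : ∀ i : ZMod (2 * n), (QuaternionGroup.a i : QuaternionGroup n) ∈
      Subgroup.closure ({QuaternionGroup.a 1, QuaternionGroup.xa 0} : Set (QuaternionGroup n)) := by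
    intro i
    obtain ⟨k, rfl⟩ := ZMod.intCast_surjective i
    exact hz k
  cases x with
  | a i => exact hr i
  | xa i =>
    have : (QuaternionGroup.xa i : QuaternionGroup n)
        = QuaternionGroup.xa 0 * QuaternionGroup.a i := by
      rw [QuaternionGroup.xa_mul_a, zero_add]
    rw [this]
    exact Subgroup.mul_mem _ h2 (hr i)

theorem fq_two_gen_of_equiv {G H : Type*} [Group G] [Group H] (e : G ≃* H) (a b : H)
    (h : Subgroup.closure ({a, b} : Set H) = ⊤) :
    Subgroup.closure ({e.symm a, e.symm b} : Set G) = ⊤ := by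
  have h1 := congrArg (Subgroup.map e.symm.toMonoidHom) h
  rw [MonoidHom.map_closure, Set.image_pair,
    Subgroup.map_top_of_surjective _ e.symm.surjective] at h1
  exact h1

theorem fq_quasi_gen {G : Type*} [Group G] (h : Cfsg.IsQuasiDihedral G) :
    ∃ x y : G, Subgroup.closure ({x, y} : Set G) = ⊤ := by
  obtain ⟨n, hn, hcard, x, y, hx, hy, hxy⟩ := h
  haveI : Finite G := Nat.finite_of_card_ne_zero (by rw [hcard]; positivity)
  refine ⟨x, y, ?_⟩
  have hxH : x ∈ Subgroup.closure ({x, y} : Set G) := Subgroup.subset_closure (by simp)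
  have hyH : y ∈ Subgroup.closure ({x, y} : Set G) := Subgroup.subset_closure (by simp)
  have hle : Subgroup.zpowers x ≤ Subgroup.closure ({x, y} : Set G) := by
    rw [Subgroup.zpowers_le]; exact hxH
  have hcz : Nat.card (Subgroup.zpowers x) = 2 ^ n := by rw [Nat.card_zpowers, hx]
  have h4' : 4 ≤ 2 ^ (n - 1) := by
    calc 4 = 2 ^ 2 := by norm_num
      _ ≤ 2 ^ (n - 1) := Nat.pow_le_pow_right (by norm_num) (by omega)
  have h5' : 2 ^ (n - 1) < 2 ^ n := Nat.pow_lt_pow_right (by norm_num) (by omega)
  have hynot : y ∉ Subgroup.zpowers x := by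
    intro hy'
    obtain ⟨k, rfl⟩ := Subgroup.mem_zpowers_iff.mp hy'
    have hc : x ^ k * x * (x ^ k)⁻¹ = x := by group
    rw [hc] at hxy
    have h1 : x ^ (2 ^ (n - 1) - 2) = 1 := by
      have h2 : x ^ (2 ^ (n - 1) - 1) = x ^ (2 ^ (n - 1) - 2) * x := by
        rw [← pow_succ]; congr 1; omega
      rw [h2] at hxy
      have h3 : 1 * x = x ^ (2 ^ (n - 1) - 2) * x := by rw [one_mul]; exact hxy
      exact (mul_right_cancel h3).symm
    have h3 := orderOf_dvd_of_pow_eq_one h1
    rw [hx] at h3
    have := Nat.le_of_dvd (by omega) h3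
    omega
  have hne : Nat.card (Subgroup.closure ({x, y} : Set G)) ≠ 2 ^ n := by
    intro hc
    have : Subgroup.zpowers x = Subgroup.closure ({x, y} : Set G) :=
      Subgroup.eq_of_le_of_card_ge hle (by rw [hc, hcz])
    exact hynot (this ▸ hyH)
  have hdvd1 : 2 ^ n ∣ Nat.card (Subgroup.closure ({x, y} : Set G)) :=
    hcz ▸ Subgroup.card_dvd_of_le hle
  have hdvd2 : Nat.card (Subgroup.closure ({x, y} : Set G)) ∣ 2 ^ (n + 1) :=
    hcard ▸ Subgroup.card_subgroup_dvd_card _
  obtain ⟨m, hm⟩ := hdvd1
  have hm2 : m ∣ 2 := by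
    rw [hm, pow_succ] at hdvd2
    exact Nat.dvd_of_mul_dvd_mul_left (by positivity) hdvd2
  have hm12 : m = 1 ∨ m = 2 := by
    have := Nat.le_of_dvd (by norm_num) hm2
    have hm0 : m ≠ 0 := by rintro rfl; simp at hm2
    omega
  rcases hm12 with rfl | rfl
  · exact absurd (by simpa using hm) hne
  · apply (Subgroup.card_eq_iff_eq_top _).mp
    rw [hm, hcard, pow_succ]

/-- a finite group acting faithfully on a line over `ZMod q` is cyclic -/
theorem fq_cyclic_dim_one {q : ℕ} [Fact q.Prime] {V : Type*} [AddCommGroup V] [Module (ZMod q) V]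
    [Finite V] {G : Type*} [Group G] [Finite G] (ρ : G →* (V ≃ₗ[ZMod q] V))
    (hρ : Function.Injective ρ) (hfr : Module.finrank (ZMod q) V = 1) : IsCyclic G := by
  obtain ⟨v, hv, hspan⟩ := finrank_eq_one_iff'.mp hfr
  have hdet : ∀ e : V ≃ₗ[ZMod q] V, LinearEquiv.det e = 1 → e = 1 := by
    intro e he
    obtain ⟨c, hc⟩ := hspan (e v)
    have h1 : (e : V →ₗ[ZMod q] V) = c • LinearMap.id := by
      ext w
      obtain ⟨d, rfl⟩ := hspan w
      show e (d • v) = c • (d • v)
      rw [map_smul, ← hc, smul_comm]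
    have h2 : LinearMap.det (e : V →ₗ[ZMod q] V) = 1 := by
      have := congrArg (Units.val) he
      simpa [LinearEquiv.coe_det] using this
    rw [h1, LinearMap.det_smul, hfr, pow_one, LinearMap.det_id, mul_one] at h2
    subst h2
    ext w
    have := congrArg (fun f : V →ₗ[ZMod q] V => f w) h1
    simpa using this
  let f : G →* ZMod q := (Units.coeHom (ZMod q)).comp (LinearEquiv.det.comp ρ)
  have hf : Function.Injective f := by
    intro a b hab
    apply hρ
    have h3 : LinearEquiv.det (ρ a) = LinearEquiv.det (ρ b) := Units.ext hab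
    have h4 : LinearEquiv.det ((ρ a)⁻¹ * ρ b) = 1 := by
      rw [map_mul, map_inv, h3, inv_mul_cancel]
    have h5 := hdet _ h4
    exact (inv_mul_eq_one.mp h5)
  exact isCyclic_of_subgroup_isDomain f hf

/-- on a space with three elements any two nontrivial automorphisms coincide -/
theorem fq_three {q : ℕ} [Fact q.Prime] (hq : q ≠ 2) {W : Type*} [AddCommGroup W]
    [Module (ZMod q) W] (h3 : Nat.card W = 3) (f g : W ≃ₗ[ZMod q] W) (hf : f ≠ 1) (hg : g ≠ 1) :
    f = g := by
  classical
  have hq' : q.Prime := Fact.out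
  haveI : Finite W := Nat.finite_of_card_ne_zero (by omega)
  haveI := Fintype.ofFinite W
  have h2 : ∀ w : W, w + w = 0 → w = 0 := by
    intro w hw
    have h5 : (2 : ZMod q) • w = 0 := by rw [two_smul]; exact hw
    have h6 : (2 : ZMod q) ≠ 0 := by
      intro h0
      have : (q : ℕ) ∣ 2 := (ZMod.natCast_eq_zero_iff 2 q).mp (by exact_mod_cast h0)
      exact hq ((Nat.prime_dvd_prime_iff_eq hq' Nat.prime_two).mp this)
    rcases smul_eq_zero.mp h5 with h | h
    · exact absurd h h6
    · exact h
  have key : ∀ f : W ≃ₗ[ZMod q] W, f ≠ 1 → ∀ w, f w = -w := by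
    intro f hf
    have : ∃ v, f v ≠ v := by
      by_contra hcon
      push_neg at hcon
      exact hf (LinearEquiv.ext fun v => by simpa using hcon v)
    obtain ⟨v, hv⟩ := this
    have hv0 : v ≠ 0 := by rintro rfl; exact hv (map_zero f)
    have hvn : v ≠ -v := by
      intro h
      apply hv0
      apply h2
      calc v + v = v + -v := by rw [← h]
        _ = 0 := add_neg_cancel v
    have huniv : ∀ w : W, w = 0 ∨ w = v ∨ w = -v := by
      have hcard : ({0, v, -v} : Finset W).card = 3 := by
        rw [Finset.card_insert_of_notMem, Finset.card_insert_of_notMem, Finset.card_singleton]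
        · simpa using hvn
        · simp only [Finset.mem_insert, Finset.mem_singleton, not_or]
          refine ⟨hv0.symm, ?_⟩
          intro h
          exact hv0 (neg_eq_zero.mp h.symm)
      have : ({0, v, -v} : Finset W) = Finset.univ := by
        apply Finset.eq_univ_of_card
        rw [hcard, ← Nat.card_eq_fintype_card, h3]
      intro w
      have hw : w ∈ ({0, v, -v} : Finset W) := by rw [this]; exact Finset.mem_univ w
      simpa using hw
    have hfv : f v = -v := by
      rcases huniv (f v) with h | h | h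
      · exfalso; apply hv0; apply f.injective; rw [h, map_zero]
      · exact absurd h hv
      · exact h
    intro w
    rcases huniv w with rfl | rfl | rfl
    · simp
    · exact hfv
    · rw [map_neg, hfv]
  exact LinearEquiv.ext fun w => by rw [key f hf, key g hg]

end Cfsg.Agent.Helper24
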