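import Mathlib
import Cfsg.Agent.S3380
import Cfsg.Agent.Helper24.FqA
import Cfsg.Agent.Helper24.FqB

set_option autoImplicit false

namespace Cfsg.Agent.Helper24

universe u

theorem fq_card_odd {q : ℕ} [Fact q.Prime] (hq : q ≠ 2) (V : Type*) [AddCommGroup V]
    [Module (ZMod q) V] [Finite V] : Odd (Nat.card V) := by
  have hq' : q.Prime := Fact.out
  rw [Module.natCard_eq_pow_finrank (K := ZMod q), Nat.card_zmod]
  exact (hq'.odd_of_ne_two hq).pow

theorem fq_card_three_le {q : ℕ} [Fact q.Prime] (hq : q ≠ 2) (V : Type*) [AddCommGroup V]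
    [Module (ZMod q) V] [Finite V] [Nontrivial V] : 3 ≤ Nat.card V := by
  have h1 : 1 < Nat.card V := Finite.one_lt_card
  obtain ⟨k, hk⟩ := fq_card_odd hq V
  omega

theorem fq_card_nine {q : ℕ} [Fact q.Prime] (hq : q ≠ 2) (V : Type*) [AddCommGroup V]
    [Module (ZMod q) V] [Finite V] [Nontrivial V] :
    Module.finrank (ZMod q) V = 1 ∨ 9 ≤ Nat.card V := by
  have hq' : q.Prime := Fact.out
  have hq3 : 3 ≤ q := by
    have := hq'.two_le
    omega
  have hc : Nat.card V = q ^ Module.finrank (ZMod q) V := by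
    rw [Module.natCard_eq_pow_finrank (K := ZMod q), Nat.card_zmod]
  have h1 : 1 < Nat.card V := Finite.one_lt_card
  rcases Nat.lt_or_ge (Module.finrank (ZMod q) V) 2 with h | h
  · left
    have h0 : Module.finrank (ZMod q) V ≠ 0 := by
      intro h0
      rw [hc, h0, pow_zero] at h1
      omega
    omega
  · right
    rw [hc]
    calc 9 = 3 ^ 2 := by norm_num
      _ ≤ q ^ 2 := Nat.pow_le_pow_left hq3 2
      _ ≤ q ^ Module.finrank (ZMod q) V := Nat.pow_le_pow_right (by omega) h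

theorem fqRes_fix {q : ℕ} [Fact q.Prime] {V : Type*} [AddCommGroup V] [Module (ZMod q) V]
    {G : Type*} [Group G] (ρ : G →* (V ≃ₗ[ZMod q] V)) (W : Submodule (ZMod q) V)
    (h : ∀ g : G, ∀ w ∈ W, ρ g w ∈ W) (g : G) (hg : fqRes ρ W h g = 1) (w : V) (hw : w ∈ W) :
    ρ g w = w := by
  have h1 := congrArg (fun e : W ≃ₗ[ZMod q] W => ((e ⟨w, hw⟩ : W) : V)) hg
  simpa [fqRes_apply] using h1

theorem fq_num1 (w u a b : ℕ) (hw : 3 ≤ w) (hu : 3 ≤ u) (ha : a ≤ w - 1)
    (ha' : w ≠ 3 → 2 * a ≤ w - 1) (hb : b ≤ u - 1) (hb' : u ≠ 3 → 2 * b ≤ u - 1) :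
    2 * (a * b) ≤ w * u - 1 := by
  obtain ⟨w', rfl⟩ : ∃ w', w = w' + 1 := ⟨w - 1, by omega⟩
  obtain ⟨u', rfl⟩ : ∃ u', u = u' + 1 := ⟨u - 1, by omega⟩
  simp only [Nat.add_sub_cancel] at ha ha' hb hb'
  apply Nat.le_sub_one_of_lt
  by_cases h3 : w' + 1 = 3
  · by_cases h3' : u' + 1 = 3
    · have hw2 : w' = 2 := by omega
      have hu2 : u' = 2 := by omega
      subst hw2 hu2
      have := Nat.mul_le_mul ha hb
      omega
    · have h1 := hb' h3'
      have h2 := Nat.mul_le_mul ha h1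
      nlinarith
  · have h1 := ha' h3
    have h2 := Nat.mul_le_mul h1 hb
    nlinarith

theorem fq_index_two_gen {G : Type*} [Group G] (H : Subgroup G) (hidx : H.index = 2) (x : G)
    (hx : x ∉ H) (L : Subgroup G) (hxL : x ∈ L) (hHL : H ≤ L) : L = ⊤ := by
  rw [eq_top_iff]
  intro g _
  by_cases hg : g ∈ H
  · exact hHL hg
  · have h1 : x⁻¹ * g ∈ H := by
      rw [Subgroup.mul_mem_iff_of_index_two hidx]
      constructor
      · intro h; exact absurd ((Subgroup.inv_mem_iff H).mp h) hx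
      · intro h; exact absurd h hg
    have : g = x * (x⁻¹ * g) := by group
    rw [this]
    exact L.mul_mem hxL (hHL h1)

theorem fq_reducible {q : ℕ} [Fact q.Prime] (hq : q ≠ 2) {V : Type u} [AddCommGroup V]
    [Module (ZMod q) V] [Finite V] {G : Type u} [Group G] (ρ : G →* (V ≃ₗ[ZMod q] V))
    (hG : IsPGroup 2 G)
    (ih : ∀ (V' : Type u) [AddCommGroup V'] [Module (ZMod q) V'] [Finite V'] [Nontrivial V']
      (G' : Type u) [Group G'] (ρ' : G' →* (V' ≃ₗ[ZMod q] V')),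
      Nat.card V' < Nat.card V → IsPGroup 2 G' → FqGood q V' G' ρ')
    (W : Submodule (ZMod q) V) (hW : ∀ g : G, ∀ w ∈ W, ρ g w ∈ W) (hbot : W ≠ ⊥) (htop : W ≠ ⊤) :
    FqGood q V G ρ := by
  classical
  haveI : Nontrivial W := Submodule.nontrivial_iff_ne_bot.mpr hbot
  haveI : Nontrivial (V ⧸ W) := Submodule.Quotient.nontrivial_iff.mpr htop
  haveI : Finite (V ⧸ W) := Finite.of_surjective (Submodule.mkQ W) (Submodule.mkQ_surjective W)
  have hcard : Nat.card V = Nat.card W * Nat.card (V ⧸ W) := by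
    exact Submodule.card_eq_card_quotient_mul_card W
  have hw3 : 3 ≤ Nat.card W := fq_card_three_le hq W
  have hu3 : 3 ≤ Nat.card (V ⧸ W) := fq_card_three_le hq (V ⧸ W)
  have hlt1 : Nat.card W < Nat.card V := by rw [hcard]; nlinarith
  have hlt2 : Nat.card (V ⧸ W) < Nat.card V := by rw [hcard]; nlinarith
  obtain ⟨S1, hS1, hn1, hn1'⟩ := ih W G (fqRes ρ W hW) hlt1 hG
  obtain ⟨S2, hS2, hn2, hn2'⟩ := ih (V ⧸ W) (fqRes ρ W hW).ker
    ((fqQuo ρ W hW).comp (fqRes ρ W hW).ker.subtype) hlt2 (hG.to_subgroup _)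
  have hker : ∀ a, fqRes ρ W hW a = 1 → fqQuo ρ W hW a = 1 → ρ a = 1 := by
    intro a h1 h2
    obtain ⟨k, hk⟩ := hG a
    apply fq_stab hq (ρ a) W k
    · rw [← map_pow, hk, map_one]
    · intro w hw
      exact fqRes_fix ρ W hW a h1 w hw
    · intro v
      have h3 := congrArg (fun e : (V ⧸ W) ≃ₗ[ZMod q] (V ⧸ W) => e (Submodule.Quotient.mk v)) h2
      simp only [fqQuo_apply] at h3
      exact (Submodule.Quotient.eq W).mp h3
  obtain ⟨S, hScard, hSgen⟩ := fq_glue ρ (fqRes ρ W hW) (fqQuo ρ W hW) hker S1 hS1 S2 hS2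
  have hnum : 2 ^ (S.card + 1) ≤ Nat.card V - 1 := by
    have h1 := fq_num1 (Nat.card W) (Nat.card (V ⧸ W)) (2 ^ S1.card) (2 ^ S2.card) hw3 hu3 hn1
      (fun h => by have := hn1' h; rw [pow_succ] at this; omega) hn2
      (fun h => by have := hn2' h; rw [pow_succ] at this; omega)
    rw [hcard]
    calc 2 ^ (S.card + 1) ≤ 2 ^ (S1.card + S2.card + 1) :=
          Nat.pow_le_pow_right (by norm_num) (by omega)
      _ = 2 * (2 ^ S1.card * 2 ^ S2.card) := by ring
      _ ≤ _ := h1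
  refine ⟨S, hSgen, ?_, fun _ => hnum⟩
  exact (Nat.pow_le_pow_right (by norm_num) (Nat.le_succ _)).trans hnum

end Cfsg.Agent.Helper24
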