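import Mathlib
import Cfsg.Agent.S3380
import Cfsg.Agent.Helper24.FqA
import Cfsg.Agent.Helper24.FqB
import Cfsg.Agent.Helper24.FqC

set_option autoImplicit false

namespace Cfsg.Agent.Helper24

universe u

theorem fq_perm_two (σ : Equiv.Perm (Fin 2)) (h : orderOf σ = 2) : σ 0 = 1 ∧ σ 1 = 0 := by
  have hne : σ ≠ 1 := by
    rintro rfl
    rw [orderOf_one] at h
    omega
  have h01 : σ 0 ≠ σ 1 := fun h' => by
    have := σ.injective h'
    exact absurd this (by decide)
  have h0 : σ 0 = 1 := by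
    by_contra hcon
    have h00 : σ 0 = 0 := by
      have := (σ 0).isLt
      apply Fin.ext
      have h2 : (σ 0).val ≠ 1 := fun h' => hcon (Fin.ext h')
      simp only [Fin.val_zero]
      omega
    have h11 : σ 1 = 1 := by
      have := (σ 1).isLt
      apply Fin.ext
      have h2 : (σ 1).val ≠ 0 := fun h' => h01 (by rw [h00]; exact (Fin.ext h').symm)
      simp only [Fin.val_one]
      omega
    apply hne
    ext i
    fin_cases i
    · simp [h00]
    · simp [h11]
  refine ⟨h0, ?_⟩
  have := (σ 1).isLt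
  apply Fin.ext
  have h2 : (σ 1).val ≠ 1 := fun h' => h01 (by rw [h0]; exact (Fin.ext h').symm)
  simp only [Fin.val_zero]
  omega

theorem fq_imprim {q : ℕ} [Fact q.Prime] (hq : q ≠ 2) {V : Type u} [AddCommGroup V]
    [Module (ZMod q) V] [Finite V] [Nontrivial V] {G : Type u} [Group G]
    (ρ : G →* (V ≃ₗ[ZMod q] V)) (hρ : Function.Injective ρ) (hG : IsPGroup 2 G)
    (ih : ∀ (V' : Type u) [AddCommGroup V'] [Module (ZMod q) V'] [Finite V'] [Nontrivial V']
      (G' : Type u) [Group G'] (ρ' : G' →* (V' ≃ₗ[ZMod q] V')),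
      Nat.card V' < Nat.card V → IsPGroup 2 G' → FqGood q V' G' ρ')
    (H : Subgroup G) (W : Fin 2 → Submodule (ZMod q) V) (hidx : H.index = 2)
    (hsup : iSup W = ⊤) (hind : iSupIndep W)
    (hinv : ∀ h ∈ H, ∀ i, ∀ w ∈ W i, ρ h w ∈ W i)
    (hswap : ∀ g : G, g ∉ H → ∃ σ : Equiv.Perm (Fin 2), orderOf σ = 2 ∧
      ∀ i, (W i).map (ρ g : V →ₗ[ZMod q] V) = W (σ i)) : FqGood q V G ρ := by
  classical
  have hHtop : H ≠ ⊤ := by
    intro h
    rw [h, Subgroup.index_top] at hidx
    omega
  obtain ⟨x, hx⟩ : ∃ x, x ∉ H := by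
    by_contra hcon
    push_neg at hcon
    exact hHtop (eq_top_iff.mpr fun g _ => hcon g)
  obtain ⟨σ, hσ, hWσ⟩ := hswap x hx
  obtain ⟨hσ0, hσ1⟩ := fq_perm_two σ hσ
  have hW0 : (W 0).map (ρ x : V →ₗ[ZMod q] V) = W 1 := by rw [hWσ 0, hσ0]
  have hsup' : W 0 ⊔ W 1 = ⊤ := by
    rw [eq_top_iff, ← hsup]
    apply iSup_le
    intro i
    fin_cases i
    · exact le_sup_left
    · exact le_sup_right
  have hdisj : Disjoint (W 0) (W 1) := hind.pairwiseDisjoint (by decide)
  have hcompl : IsCompl (W 0) (W 1) := ⟨hdisj, codisjoint_iff.mpr hsup'⟩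
  have hcardV : Nat.card V = Nat.card (W 0) * Nat.card (W 1) := by
    rw [← Nat.card_prod]
    exact (Nat.card_congr (Submodule.prodEquivOfIsCompl (W 0) (W 1) hcompl).toEquiv).symm
  have hcard01 : Nat.card (W 0) = Nat.card (W 1) := by
    have h1 := Nat.card_congr
      ((W 0).equivMapOfInjective (ρ x : V →ₗ[ZMod q] V) (ρ x).injective).toEquiv
    rw [hW0] at h1
    exact h1
  have hV1 : 1 < Nat.card V := Finite.one_lt_card
  have hW01 : 1 < Nat.card (W 0) := by
    by_contra hcon
    have h0 : Nat.card (W 0) ≤ 1 := by omega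
    have h1 : Nat.card (W 1) ≤ 1 := by omega
    have := Nat.mul_le_mul h0 h1
    omega
  haveI : Nontrivial (W 0) := Finite.one_lt_card_iff_nontrivial.mp hW01
  haveI : Nontrivial (W 1) := Finite.one_lt_card_iff_nontrivial.mp (hcard01 ▸ hW01)
  have hw3 : 3 ≤ Nat.card (W 0) := fq_card_three_le hq (W 0)
  have hlt0 : Nat.card (W 0) < Nat.card V := by rw [hcardV, ← hcard01]; nlinarith
  have hlt1 : Nat.card (W 1) < Nat.card V := by rw [hcardV, ← hcard01]; nlinarith
  -- a linear automorphism trivial on both blocks is trivial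
  have hboth : ∀ e : V ≃ₗ[ZMod q] V, (∀ w ∈ W 0, e w = w) → (∀ w ∈ W 1, e w = w) → e = 1 := by
    intro e h0 h1
    refine LinearEquiv.ext fun v => ?_
    have hv : v ∈ W 0 ⊔ W 1 := by rw [hsup']; trivial
    obtain ⟨y, hy, z, hz, rfl⟩ := Submodule.mem_sup.mp hv
    rw [map_add, h0 y hy, h1 z hz]
    rfl
  have hinvH : ∀ i, ∀ h : H, ∀ w ∈ W i, (ρ.comp H.subtype) h w ∈ W i :=
    fun i h w hw => hinv h h.2 i w hw
  have hρH : Function.Injective (ρ.comp H.subtype) :=
    hρ.comp (Subgroup.subtype_injective H)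
  have hker : ∀ a : H, fqRes (ρ.comp H.subtype) (W 0) (hinvH 0) a = 1 →
      fqRes (ρ.comp H.subtype) (W 1) (hinvH 1) a = 1 → (ρ.comp H.subtype) a = 1 := by
    intro a h0 h1
    exact hboth _ (fun w hw => fqRes_fix _ _ _ a h0 w hw) (fun w hw => fqRes_fix _ _ _ a h1 w hw)
  obtain ⟨S1, hS1, hn1, hn1'⟩ := ih (W 0) H (fqRes (ρ.comp H.subtype) (W 0) (hinvH 0)) hlt0
    (hG.to_subgroup H)
  obtain ⟨S2, hS2, hn2, hn2'⟩ := ih (W 1) (fqRes (ρ.comp H.subtype) (W 0) (hinvH 0)).ker
    ((fqRes (ρ.comp H.subtype) (W 1) (hinvH 1)).comp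
      (fqRes (ρ.comp H.subtype) (W 0) (hinvH 0)).ker.subtype) hlt1
    ((hG.to_subgroup H).to_subgroup _)
  -- generic conclusion from a generating set of `H`
  have hfin : ∀ (SH : Finset H), Subgroup.closure (SH : Set H) = ⊤ →
      2 ^ (SH.card + 2) ≤ Nat.card V - 1 → FqGood q V G ρ := by
    intro SH hSH hnum
    have hgen : Subgroup.closure ((insert x (SH.image H.subtype) : Finset G) : Set G) = ⊤ := by
      apply fq_index_two_gen H hidx x hx
      · exact Subgroup.subset_closure (by simp)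
      · intro h hh
        have h1 : (⟨h, hh⟩ : H) ∈ Subgroup.closure (SH : Set H) := by rw [hSH]; trivial
        have h2 : h ∈ (Subgroup.closure (SH : Set H)).map H.subtype := ⟨⟨h, hh⟩, h1, rfl⟩
        rw [MonoidHom.map_closure] at h2
        refine Subgroup.closure_mono ?_ h2
        intro y hy
        obtain ⟨z, hz, rfl⟩ := hy
        simp only [Finset.coe_insert, Finset.coe_image, Set.mem_insert_iff, Set.mem_image,
          Finset.mem_coe]
        exact Or.inr ⟨z, hz, rfl⟩
    have hcard : (insert x (SH.image H.subtype) : Finset G).card ≤ SH.card + 1 :=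
      (Finset.card_insert_le _ _).trans (Nat.succ_le_succ Finset.card_image_le)
    have hnum' : 2 ^ ((insert x (SH.image H.subtype) : Finset G).card + 1) ≤ Nat.card V - 1 :=
      (Nat.pow_le_pow_right (by norm_num) (by omega)).trans hnum
    refine ⟨insert x (SH.image H.subtype), by rw [hgen, top_sup_eq], ?_, fun _ => hnum'⟩
    exact (Nat.pow_le_pow_right (by norm_num) (Nat.le_succ _)).trans hnum'
  have hkerbot : (ρ.comp H.subtype).ker = ⊥ := (MonoidHom.ker_eq_bot_iff _).mpr hρH
  by_cases h3 : Nat.card (W 0) = 3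
  · -- the case `#V = 9`
    have h31 : Nat.card (W 1) = 3 := by rw [← hcard01]; exact h3
    have hV9 : Nat.card V = 9 := by rw [hcardV, h3, h31]
    have hc1 : S1.card ≤ 1 := by
      by_contra hcon
      have : 2 ^ 2 ≤ 2 ^ S1.card := Nat.pow_le_pow_right (by norm_num) (by omega)
      rw [h3] at hn1
      omega
    have hc2 : S2.card ≤ 1 := by
      by_contra hcon
      have : 2 ^ 2 ≤ 2 ^ S2.card := Nat.pow_le_pow_right (by norm_num) (by omega)
      rw [h31] at hn2
      omega
    by_cases hk : (fqRes (ρ.comp H.subtype) (W 0) (hinvH 0)).ker = ⊥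
    · rw [hk, sup_bot_eq] at hS1
      apply hfin S1 hS1
      rw [hV9]
      calc 2 ^ (S1.card + 2) ≤ 2 ^ 3 := Nat.pow_le_pow_right (by norm_num) (by omega)
        _ ≤ 9 - 1 := by norm_num
    · obtain ⟨k0, hk0⟩ := (Subgroup.ne_bot_iff_exists_ne_one).mp hk
      -- the second kernel is trivial
      have hker2 : ((fqRes (ρ.comp H.subtype) (W 1) (hinvH 1)).comp
          (fqRes (ρ.comp H.subtype) (W 0) (hinvH 0)).ker.subtype).ker = ⊥ := by
        rw [eq_bot_iff]
        intro k hk'
        rw [Subgroup.mem_bot]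
        have h1 : (ρ.comp H.subtype) (k : H) = 1 := hker (k : H) k.2 (by simpa using hk')
        have h2 : (k : H) = 1 := hρH (by rw [h1, map_one])
        exact Subtype.ext h2
      rw [hker2, sup_bot_eq] at hS2
      have hgen : Subgroup.closure ((insert x (S2.image (H.subtype.comp (fqRes (ρ.comp H.subtype) (W 0) (hinvH 0)).ker.subtype)) : Finset G) :
          Set G) = ⊤ := by
        have hxL : x ∈ Subgroup.closure
            ((insert x (S2.image (H.subtype.comp (fqRes (ρ.comp H.subtype) (W 0) (hinvH 0)).ker.subtype)) : Finset G) : Set G) :=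
          Subgroup.subset_closure (by simp)
        have hkL : ∀ k : (fqRes (ρ.comp H.subtype) (W 0) (hinvH 0)).ker, ((k : H) : G) ∈
            Subgroup.closure
              ((insert x (S2.image (H.subtype.comp (fqRes (ρ.comp H.subtype) (W 0) (hinvH 0)).ker.subtype)) : Finset G) : Set G) := by
          intro k
          have h1 : k ∈ Subgroup.closure (S2 : Set (fqRes (ρ.comp H.subtype) (W 0) (hinvH 0)).ker) := by
            rw [hS2]; trivial
          have h2 : ((k : H) : G) ∈ (Subgroup.closure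
              (S2 : Set (fqRes (ρ.comp H.subtype) (W 0) (hinvH 0)).ker)).map
              (H.subtype.comp (fqRes (ρ.comp H.subtype) (W 0) (hinvH 0)).ker.subtype) :=
            ⟨k, h1, rfl⟩
          rw [MonoidHom.map_closure] at h2
          refine Subgroup.closure_mono ?_ h2
          intro y hy
          obtain ⟨z, hz, rfl⟩ := hy
          simp only [Finset.coe_insert, Finset.coe_image, Set.mem_insert_iff, Set.mem_image,
            Finset.mem_coe]
          exact Or.inr ⟨z, hz, rfl⟩
        apply fq_index_two_gen H hidx x hx _ hxL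
        intro h hh
        haveI : H.Normal := Subgroup.normal_of_index_eq_two hidx
        have hk'H : x * ((k0 : H) : G) * x⁻¹ ∈ H := ‹H.Normal›.conj_mem _ (k0 : H).2 x
        have hk'L : x * ((k0 : H) : G) * x⁻¹ ∈ Subgroup.closure
            ((insert x (S2.image (H.subtype.comp (fqRes (ρ.comp H.subtype) (W 0) (hinvH 0)).ker.subtype)) : Finset G) : Set G) :=
          Subgroup.mul_mem _ (Subgroup.mul_mem _ hxL (hkL k0)) (Subgroup.inv_mem _ hxL)
        have hk'ne : fqRes (ρ.comp H.subtype) (W 0) (hinvH 0) ⟨x * ((k0 : H) : G) * x⁻¹, hk'H⟩ ≠ 1 := by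
          intro hcon
          have hf0 : ∀ w ∈ W 0, ρ (x * ((k0 : H) : G) * x⁻¹) w = w := fun w hw =>
            fqRes_fix _ _ _ _ hcon w hw
          have hf1 : ∀ w ∈ W 1, ρ (x * ((k0 : H) : G) * x⁻¹) w = w := by
            intro w hw
            rw [← hW0] at hw
            obtain ⟨w0, hw0, rfl⟩ := Submodule.mem_map.mp hw
            have hkw : ρ ((k0 : H) : G) w0 = w0 := fqRes_fix _ _ _ (k0 : H) k0.2 w0 hw0
            rw [map_mul, map_mul]
            show ρ x (ρ ((k0 : H) : G) (ρ x⁻¹ (ρ x w0))) = ρ x w0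
            rw [fq_inv_apply ρ x w0, hkw]
          have h1 := hboth _ hf0 hf1
          have h2 : x * ((k0 : H) : G) * x⁻¹ = 1 := hρ (by rw [h1, map_one])
          have h3' : ((k0 : H) : G) = 1 := by
            have : ((k0 : H) : G) = x⁻¹ * (x * ((k0 : H) : G) * x⁻¹) * x := by group
            rw [this, h2]; group
          exact hk0 (Subtype.ext (Subtype.ext h3'))
        by_cases hh1 : fqRes (ρ.comp H.subtype) (W 0) (hinvH 0) ⟨h, hh⟩ = 1
        · exact hkL ⟨⟨h, hh⟩, hh1⟩
        · have heq := fq_three hq h3 _ _ hh1 hk'ne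
          have hmem : (⟨x * ((k0 : H) : G) * x⁻¹, hk'H⟩ : H)⁻¹ * ⟨h, hh⟩ ∈
              (fqRes (ρ.comp H.subtype) (W 0) (hinvH 0)).ker := by
            rw [MonoidHom.mem_ker, map_mul, map_inv, heq, inv_mul_cancel]
          have h4 := hkL ⟨_, hmem⟩
          have h5 : h = (x * ((k0 : H) : G) * x⁻¹) * ((x * ((k0 : H) : G) * x⁻¹)⁻¹ * h) := by group
          rw [h5]
          exact Subgroup.mul_mem _ hk'L h4
      have hcard : (insert x (S2.image (H.subtype.comp (fqRes (ρ.comp H.subtype) (W 0) (hinvH 0)).ker.subtype)) : Finset G).card ≤ 2 :=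
        (Finset.card_insert_le _ _).trans
          (Nat.succ_le_succ (Finset.card_image_le.trans hc2))
      have hnum' : 2 ^ ((insert x (S2.image (H.subtype.comp (fqRes (ρ.comp H.subtype) (W 0) (hinvH 0)).ker.subtype)) : Finset G).card + 1)
          ≤ Nat.card V - 1 := by
        rw [hV9]
        calc 2 ^ ((insert x (S2.image (H.subtype.comp (fqRes (ρ.comp H.subtype) (W 0) (hinvH 0)).ker.subtype)) : Finset G).card + 1) ≤ 2 ^ 3 :=
              Nat.pow_le_pow_right (by norm_num) (by omega)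
          _ ≤ 9 - 1 := by norm_num
      refine ⟨insert x (S2.image (H.subtype.comp (fqRes (ρ.comp H.subtype) (W 0) (hinvH 0)).ker.subtype)), by rw [hgen, top_sup_eq], ?_,
        fun _ => hnum'⟩
      exact (Nat.pow_le_pow_right (by norm_num) (Nat.le_succ _)).trans hnum'
  · -- the generic case
    have h31 : Nat.card (W 1) ≠ 3 := by rw [← hcard01]; exact h3
    obtain ⟨SH, hSHc, hSHg⟩ := fq_glue (ρ.comp H.subtype) _ _ hker S1 hS1 S2 hS2
    rw [hkerbot, sup_bot_eq] at hSHg
    apply hfin SH hSHg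
    have e1 := hn1' h3
    have e2 := hn2' h31
    have hw1 : 1 ≤ Nat.card (W 0) := by omega
    have hw1' : 1 ≤ Nat.card (W 1) := by omega
    rw [hcardV]
    apply Nat.le_sub_one_of_lt
    have e3 := Nat.mul_le_mul e1 e2
    have e4 : 2 ^ (SH.card + 2) ≤ 2 ^ (S1.card + 1) * 2 ^ (S2.card + 1) := by
      rw [← pow_add]
      exact Nat.pow_le_pow_right (by norm_num) (by omega)
    have e5 : (Nat.card (W 0) - 1) * (Nat.card (W 1) - 1) < Nat.card (W 0) * Nat.card (W 1) := by
      obtain ⟨a, ha⟩ : ∃ a, Nat.card (W 0) = a + 1 := ⟨Nat.card (W 0) - 1, by omega⟩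
      obtain ⟨b, hb⟩ : ∃ b, Nat.card (W 1) = b + 1 := ⟨Nat.card (W 1) - 1, by omega⟩
      rw [ha, hb]
      simp only [Nat.add_sub_cancel]
      nlinarith
    omega

end Cfsg.Agent.Helper24
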