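import Mathlib
import Cfsg.Agent.S3380
import Cfsg.Agent.Helper24.FqA
import Cfsg.Agent.Helper24.FqB
import Cfsg.Agent.Helper24.FqC
import Cfsg.Agent.Helper24.FqD

set_option autoImplicit false

namespace Cfsg.Agent.Helper24

universe u

theorem fq_irred {q : ℕ} [Fact q.Prime] (hq : q ≠ 2) {V : Type u} [AddCommGroup V]
    [Module (ZMod q) V] [Finite V] [Nontrivial V] {G : Type u} [Group G]
    (ρ : G →* (V ≃ₗ[ZMod q] V)) (hρ : Function.Injective ρ) (hG : IsPGroup 2 G)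
    (ih : ∀ (V' : Type u) [AddCommGroup V'] [Module (ZMod q) V'] [Finite V'] [Nontrivial V']
      (G' : Type u) [Group G'] (ρ' : G' →* (V' ≃ₗ[ZMod q] V')),
      Nat.card V' < Nat.card V → IsPGroup 2 G' → FqGood q V' G' ρ')
    (hirr : ∀ W : Submodule (ZMod q) V, (∀ g : G, ∀ w ∈ W, ρ g w ∈ W) → W = ⊥ ∨ W = ⊤) :
    FqGood q V G ρ := by
  haveI : Finite (V ≃ₗ[ZMod q] V) :=
    Finite.of_injective (fun e : V ≃ₗ[ZMod q] V => (e : V → V))
      (fun a b h => LinearEquiv.ext (congrFun h))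
  haveI : Finite G := Finite.of_injective ρ hρ
  have hodd := fq_card_odd hq V
  have h3 : 3 ≤ Nat.card V := fq_card_three_le hq V
  by_cases hc : IsCyclic G
  · obtain ⟨g, hg⟩ := hc.exists_generator
    refine fq_good_of_one ρ g ?_ h3 hodd
    rw [← Subgroup.zpowers_eq_closure, eq_top_iff]
    intro y _
    exact hg y
  · have h9 : 9 ≤ Nat.card V := by
      rcases fq_card_nine hq V with h1 | h9
      · exact absurd (fq_cyclic_dim_one ρ hρ h1) hc
      · exact h9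
    by_cases hq8 : ∃ n : ℕ, Nonempty (G ≃* QuaternionGroup n)
    · obtain ⟨n, ⟨e⟩⟩ := hq8
      exact fq_good_of_two ρ _ _ (fq_two_gen_of_equiv e _ _ (fq_quaternion_gen n)) h9
    by_cases hd : ∃ n : ℕ, Nonempty (G ≃* DihedralGroup n)
    · obtain ⟨n, ⟨e⟩⟩ := hd
      exact fq_good_of_two ρ _ _ (fq_two_gen_of_equiv e _ _ (fq_dihedral_gen n)) h9
    by_cases hsd : Cfsg.IsQuasiDihedral G
    · obtain ⟨x, y, hxy⟩ := fq_quasi_gen hsd
      exact fq_good_of_two ρ x y hxy h9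
    · obtain ⟨H, W, hidx, hsup, hind, hinv, -, hswap⟩ :=
        Cfsg.Agent.S3380.result q 2 hG ρ hρ hirr hc (fun n hn => hq8 ⟨n, hn⟩)
          (fun n hn => hd ⟨n, hn⟩) hsd
      exact fq_imprim hq ρ hρ hG ih H W hidx hsup hind hinv hswap

theorem fq_step {q : ℕ} [Fact q.Prime] (hq : q ≠ 2) {V : Type u} [AddCommGroup V]
    [Module (ZMod q) V] [Finite V] [Nontrivial V] {G : Type u} [Group G]
    (ρ : G →* (V ≃ₗ[ZMod q] V)) (hρ : Function.Injective ρ) (hG : IsPGroup 2 G)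
    (ih : ∀ (V' : Type u) [AddCommGroup V'] [Module (ZMod q) V'] [Finite V'] [Nontrivial V']
      (G' : Type u) [Group G'] (ρ' : G' →* (V' ≃ₗ[ZMod q] V')),
      Nat.card V' < Nat.card V → IsPGroup 2 G' → FqGood q V' G' ρ') :
    FqGood q V G ρ := by
  by_cases hirr : ∀ W : Submodule (ZMod q) V, (∀ g : G, ∀ w ∈ W, ρ g w ∈ W) → W = ⊥ ∨ W = ⊤
  · exact fq_irred hq ρ hρ hG ih hirr
  · push_neg at hirr
    obtain ⟨W, hW, hbot, htop⟩ := hirr
    exact fq_reducible hq ρ hG ih W hW hbot htop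

theorem fq_main (q : ℕ) [Fact q.Prime] (hq : q ≠ 2) (n : ℕ) :
    ∀ (V : Type u) [AddCommGroup V] [Module (ZMod q) V] [Finite V] [Nontrivial V]
      (G : Type u) [Group G] (ρ : G →* (V ≃ₗ[ZMod q] V)),
      Nat.card V ≤ n → IsPGroup 2 G → FqGood q V G ρ := by
  induction n using Nat.strong_induction_on with
  | _ n ih =>
    intro V _ _ _ _ G _ ρ hn hG
    apply fq_of_range
    apply fq_step hq ρ.range.subtype (Subgroup.subtype_injective _)
      (hG.of_surjective ρ.rangeRestrict ρ.rangeRestrict_surjective)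
    intro V' _ _ _ _ G' _ ρ' hlt hG'
    exact ih (Nat.card V') (by omega) V' G' ρ' le_rfl hG'

end Cfsg.Agent.Helper24
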