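import Mathlib
import Cfsg.Agent.S3380
import Cfsg.Agent.S0014
import Cfsg.Agent.Helper24.FqA
import Cfsg.Agent.Helper24.FqB
import Cfsg.Agent.Helper24.FqC
import Cfsg.Agent.Helper24.FqD
import Cfsg.Agent.Helper24.FqE

set_option autoImplicit false

namespace Cfsg.Agent.Helper24

universe u

/-- an abelian minimal normal subgroup has prime exponent -/
theorem fq_exponent {G : Type*} [Group G] [Finite G] (N : Subgroup G) (hN : N.Normal)
    (hc : ∀ a ∈ N, ∀ b ∈ N, a * b = b * a) (hNodd : Odd (Nat.card ↥N))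
    (hmin : N ≠ ⊥ ∧ ∀ M : Subgroup G, M.Normal → M ≠ ⊥ → N ≤ M) :
    ∃ q : ℕ, q.Prime ∧ q ≠ 2 ∧ ∀ x ∈ N, x ^ q = 1 := by
  have hcard1 : Nat.card N ≠ 1 := by
    intro h
    exact hmin.1 (Subgroup.eq_bot_of_card_eq N h)
  have hq : (Nat.card N).minFac.Prime := Nat.minFac_prime hcard1
  have hqd : (Nat.card N).minFac ∣ Nat.card N := Nat.minFac_dvd _
  refine ⟨(Nat.card N).minFac, hq, ?_, ?_⟩
  · intro h2
    rw [h2] at hqd
    exact (Nat.not_even_iff_odd.mpr hNodd) (even_iff_two_dvd.mpr hqd)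
  · generalize (Nat.card N).minFac = q at hq hqd
    let M : Subgroup G :=
      { carrier := {y | ∃ x ∈ N, x ^ q = y}
        mul_mem' := by
          rintro _ _ ⟨a, ha, rfl⟩ ⟨b, hb, rfl⟩
          exact ⟨a * b, N.mul_mem ha hb, (Commute.mul_pow (hc a ha b hb) q)⟩
        one_mem' := ⟨1, N.one_mem, one_pow q⟩
        inv_mem' := by
          rintro _ ⟨a, ha, rfl⟩
          exact ⟨a⁻¹, N.inv_mem ha, inv_pow a q⟩ }
    have hMn : M.Normal := ⟨by
      rintro _ ⟨x, hx, rfl⟩ g
      exact ⟨g * x * g⁻¹, hN.conj_mem x hx g, conj_pow⟩⟩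
    by_contra hcon
    push_neg at hcon
    obtain ⟨x0, hx0, hx0q⟩ := hcon
    have hMne : M ≠ ⊥ := by
      intro h
      have h1 : x0 ^ q ∈ M := ⟨x0, hx0, rfl⟩
      rw [h, Subgroup.mem_bot] at h1
      exact hx0q h1
    have hNM := hmin.2 M hMn hMne
    have hsurj : Function.Surjective (fun x : N => x ^ q) := by
      intro y
      obtain ⟨x, hx, hxy⟩ := hNM y.2
      exact ⟨⟨x, hx⟩, Subtype.ext hxy⟩
    have hinj := Finite.injective_iff_surjective.mpr hsurj
    haveI : Fact q.Prime := ⟨hq⟩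
    obtain ⟨z, hz⟩ := exists_prime_orderOf_dvd_card' q hqd
    have h1 : (fun x : N => x ^ q) z = (fun x : N => x ^ q) 1 := by
      show z ^ q = 1 ^ q
      rw [one_pow, ← hz, pow_orderOf_eq_one]
    have h2 := hinj h1
    rw [h2, orderOf_one] at hz
    exact hq.one_lt.ne hz

/-- automorphisms of an elementary abelian group as linear maps -/
noncomputable def fqLin (q : ℕ) (A : Type*) [CommGroup A] [Module (ZMod q) (Additive A)] :
    MulAut A →* (Additive A ≃ₗ[ZMod q] Additive A) where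
  toFun e :=
    { (MulEquiv.toAdditive e) with
      map_smul' := fun c x => ZMod.map_smul (MulEquiv.toAdditive e) c x }
  map_one' := by
    ext x
    rfl
  map_mul' := fun a b => by
    ext x
    rfl

/-- abstract form, with the module structure given -/
theorem fq_abstract_mod {A : Type u} [CommGroup A] [Finite A] [Nontrivial A] {P : Type u}
    [Group P] [Finite P] (q : ℕ) [Fact q.Prime] [Module (ZMod q) (Additive A)] (hq2 : q ≠ 2)
    (φ : P →* MulAut A) (hφ : Function.Injective φ) (hP : IsPGroup 2 P) :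
    (frattini P).index ≤ Nat.card A - 1 := by
  classical
  have hlin : Function.Injective (fqLin q A) := by
    intro e1 e2 h
    ext a
    have h1 : (fqLin q A e1) (Additive.ofMul a) = (fqLin q A e2) (Additive.ofMul a) := by rw [h]
    exact congrArg Additive.toMul h1
  have hρ : Function.Injective ((fqLin q A).comp φ) := hlin.comp hφ
  obtain ⟨S, hS, hn, -⟩ := fq_main q hq2 (Nat.card (Additive A)) (Additive A) P
    ((fqLin q A).comp φ) le_rfl hP
  rw [(MonoidHom.ker_eq_bot_iff _).mpr hρ, sup_bot_eq] at hS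
  obtain ⟨k, hk⟩ := IsPGroup.iff_card.mp hP
  have hdvd : (frattini P).index ∣ 2 ^ k := hk ▸ Subgroup.index_dvd_card _
  obtain ⟨m, -, hm⟩ := (Nat.dvd_prime_pow Nat.prime_two).mp hdvd
  have hle := (Cfsg.Agent.S0014.result 2 m hP hm).2 S hS
  calc (frattini P).index = 2 ^ m := hm
    _ ≤ 2 ^ S.card := Nat.pow_le_pow_right (by norm_num) hle
    _ ≤ Nat.card (Additive A) - 1 := hn
    _ = Nat.card A - 1 := rfl

/-- abstract form: a 2-group acting faithfully on an elementary abelian group of odd order -/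
theorem fq_abstract {A : Type u} [CommGroup A] [Finite A] [Nontrivial A] {P : Type u} [Group P]
    [Finite P] (q : ℕ) [Fact q.Prime] (hq2 : q ≠ 2) (hexp : ∀ a : A, a ^ q = 1)
    (φ : P →* MulAut A) (hφ : Function.Injective φ) (hP : IsPGroup 2 P) :
    (frattini P).index ≤ Nat.card A - 1 := by
  have hexp' : ∀ x : Additive A, q • x = 0 := by
    intro x
    exact congrArg Additive.ofMul (hexp (Additive.toMul x))
  exact @fq_abstract_mod A _ _ _ P _ _ q _ (AddCommGroup.zmodModule hexp') hq2 φ hφ hP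

theorem fq_final {G : Type u} [Group G] [Finite G] (N P : Subgroup G) (hN : N.Normal)
    (hNab : IsMulCommutative ↥N) (hNodd : Odd (Nat.card ↥N)) (hP : IsPGroup 2 ↥P)
    (hdisj : N ⊓ P = ⊥) (hprod : N ⊔ P = ⊤)
    (hmin : N ≠ ⊥ ∧ ∀ M : Subgroup G, M.Normal → M ≠ ⊥ → N ≤ M) :
    (frattini ↥P).index ≤ Nat.card ↥N - 1 := by
  classical
  have hc : ∀ a ∈ N, ∀ b ∈ N, a * b = b * a := by
    intro a ha b hb
    have h1 := hNab.is_comm.comm (⟨a, ha⟩ : N) ⟨b, hb⟩
    exact congrArg Subtype.val h1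
  obtain ⟨q, hqp, hq2, hexp⟩ := fq_exponent N hN hc hNodd hmin
  haveI : Fact q.Prime := ⟨hqp⟩
  haveI := hN
  letI : CommGroup ↥N :=
    { (inferInstance : Group ↥N) with
      mul_comm := fun a b => Subtype.ext (hc a a.2 b b.2) }
  haveI : Nontrivial ↥N := (Subgroup.nontrivial_iff_ne_bot N).mpr hmin.1
  have hker1 : ∀ g : ↥P, ((MulAut.conjNormal (H := N)).comp P.subtype) g = 1 → g = 1 := by
    intro g hg
    by_contra hg1
    have hcomm : ∀ n ∈ N, (g : G) * n = n * (g : G) := by
      intro n hn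
      have h1 := congrArg (fun e : MulAut ↥N => ((e ⟨n, hn⟩ : ↥N) : G)) hg
      have h2 : (g : G) * n * (g : G)⁻¹ = n := h1
      calc (g : G) * n = ((g : G) * n * (g : G)⁻¹) * g := by group
        _ = n * g := by rw [h2]
    have hconj : ∀ c : G, c * (g : G) * c⁻¹ ∈ P := by
      intro c
      have hcm : c ∈ N ⊔ P := by rw [hprod]; trivial
      obtain ⟨n, hn, p, hp, rfl⟩ := Subgroup.mem_sup_of_normal_left.mp hcm
      have h1 : p * (g : G) * p⁻¹ ∈ P := P.mul_mem (P.mul_mem hp g.2) (P.inv_mem hp)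
      have h2 : n * p * (g : G) * (n * p)⁻¹ = p * (g : G) * p⁻¹ := by
        have h3 : p⁻¹ * n * p ∈ N := by simpa using hN.conj_mem n hn p⁻¹
        have h4 := hcomm _ h3
        calc n * p * (g : G) * (n * p)⁻¹
            = p * ((p⁻¹ * n * p) * (g : G)) * p⁻¹ * n⁻¹ := by group
          _ = p * ((g : G) * (p⁻¹ * n * p)) * p⁻¹ * n⁻¹ := by rw [h4]
          _ = p * (g : G) * p⁻¹ := by group
      rw [h2]; exact h1
    have hle : Subgroup.normalClosure ({(g : G)} : Set G) ≤ P := by
      rw [Subgroup.normalClosure, Subgroup.closure_le]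
      intro y hy
      obtain ⟨a, ha, hconj'⟩ := Group.mem_conjugatesOfSet_iff.mp hy
      rw [Set.mem_singleton_iff] at ha
      subst ha
      obtain ⟨c, hc'⟩ := isConj_iff.mp hconj'
      rw [← hc']; exact hconj c
    have hne : Subgroup.normalClosure ({(g : G)} : Set G) ≠ ⊥ := by
      intro h
      have h1 : (g : G) ∈ Subgroup.normalClosure ({(g : G)} : Set G) :=
        Subgroup.subset_normalClosure (Set.mem_singleton _)
      rw [h, Subgroup.mem_bot] at h1
      exact hg1 (Subtype.ext h1)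
    have hNle := hmin.2 _ Subgroup.normalClosure_normal hne
    have h5 : N ≤ N ⊓ P := le_inf le_rfl (hNle.trans hle)
    rw [hdisj] at h5
    exact hmin.1 (eq_bot_iff.mpr h5)
  have hφ : Function.Injective ((MulAut.conjNormal (H := N)).comp P.subtype) := by
    intro a b hab
    have h1 : ((MulAut.conjNormal (H := N)).comp P.subtype) (a⁻¹ * b) = 1 := by
      rw [MonoidHom.map_mul, MonoidHom.map_inv, hab, inv_mul_cancel]
    exact inv_mul_eq_one.mp (hker1 _ h1)
  exact fq_abstract q hq2 (fun a => Subtype.ext (hexp a a.2))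
    ((MulAut.conjNormal (H := N)).comp P.subtype) hφ hP

end Cfsg.Agent.Helper24
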