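import Mathlib
import Cfsg.Agent.Helper24.FqF

set_option autoImplicit false

namespace Cfsg.Agent.Helper24

universe u

/-- generating-set form of `fq_abstract_mod` -/
theorem fq_gen_mod {A : Type u} [CommGroup A] [Finite A] [Nontrivial A] {P : Type u}
    [Group P] (q : ℕ) [Fact q.Prime] [Module (ZMod q) (Additive A)] (hq2 : q ≠ 2)
    (φ : P →* MulAut A) (hφ : Function.Injective φ) (hP : IsPGroup 2 P) :
    ∃ S : Finset P, Subgroup.closure (S : Set P) = ⊤ ∧ 2 ^ S.card ≤ Nat.card A - 1 ∧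
      (Nat.card A ≠ 3 → 2 ^ (S.card + 1) ≤ Nat.card A - 1) := by
  classical
  have hlin : Function.Injective (fqLin q A) := by
    intro e1 e2 h
    ext a
    have h1 : (fqLin q A e1) (Additive.ofMul a) = (fqLin q A e2) (Additive.ofMul a) := by rw [h]
    exact congrArg Additive.toMul h1
  have hρ : Function.Injective ((fqLin q A).comp φ) := hlin.comp hφ
  obtain ⟨S, hS, hn, hn'⟩ := fq_main q hq2 (Nat.card (Additive A)) (Additive A) P
    ((fqLin q A).comp φ) le_rfl hP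
  rw [(MonoidHom.ker_eq_bot_iff _).mpr hρ, sup_bot_eq] at hS
  exact ⟨S, hS, hn, hn'⟩

theorem fq_gen_abs {A : Type u} [CommGroup A] [Finite A] [Nontrivial A] {P : Type u} [Group P]
    (q : ℕ) [Fact q.Prime] (hq2 : q ≠ 2) (hexp : ∀ a : A, a ^ q = 1)
    (φ : P →* MulAut A) (hφ : Function.Injective φ) (hP : IsPGroup 2 P) :
    ∃ S : Finset P, Subgroup.closure (S : Set P) = ⊤ ∧ 2 ^ S.card ≤ Nat.card A - 1 ∧
      (Nat.card A ≠ 3 → 2 ^ (S.card + 1) ≤ Nat.card A - 1) := by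
  have hexp' : ∀ x : Additive A, q • x = 0 := by
    intro x
    exact congrArg Additive.ofMul (hexp (Additive.toMul x))
  exact @fq_gen_mod A _ _ _ P _ q _ (AddCommGroup.zmodModule hexp') hq2 φ hφ hP

/-- in the semidirect product setting the complement acts faithfully -/
theorem fq_faithful {G : Type*} [Group G] (N P : Subgroup G) (hN : N.Normal)
    (hdisj : N ⊓ P = ⊥) (hprod : N ⊔ P = ⊤)
    (hmin : N ≠ ⊥ ∧ ∀ M : Subgroup G, M.Normal → M ≠ ⊥ → N ≤ M) (g : G) (hgP : g ∈ P)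
    (hcomm : ∀ n ∈ N, g * n = n * g) : g = 1 := by
  haveI := hN
  by_contra hg1
  have hconj : ∀ c : G, c * g * c⁻¹ ∈ P := by
    intro c
    have hcm : c ∈ N ⊔ P := by rw [hprod]; trivial
    obtain ⟨n, hn, p, hp, rfl⟩ := Subgroup.mem_sup_of_normal_left.mp hcm
    have h1 : p * g * p⁻¹ ∈ P := P.mul_mem (P.mul_mem hp hgP) (P.inv_mem hp)
    have h2 : n * p * g * (n * p)⁻¹ = p * g * p⁻¹ := by
      have h3 : p⁻¹ * n * p ∈ N := by simpa using hN.conj_mem n hn p⁻¹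
      have h4 := hcomm _ h3
      calc n * p * g * (n * p)⁻¹
          = p * ((p⁻¹ * n * p) * g) * p⁻¹ * n⁻¹ := by group
        _ = p * (g * (p⁻¹ * n * p)) * p⁻¹ * n⁻¹ := by rw [h4]
        _ = p * g * p⁻¹ := by group
    rw [h2]; exact h1
  have hle : Subgroup.normalClosure ({g} : Set G) ≤ P := by
    rw [Subgroup.normalClosure, Subgroup.closure_le]
    intro y hy
    obtain ⟨a, ha, hconj'⟩ := Group.mem_conjugatesOfSet_iff.mp hy
    rw [Set.mem_singleton_iff] at ha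
    subst ha
    obtain ⟨c, hc'⟩ := isConj_iff.mp hconj'
    rw [← hc']; exact hconj c
  have hne : Subgroup.normalClosure ({g} : Set G) ≠ ⊥ := by
    intro h
    have h1 : g ∈ Subgroup.normalClosure ({g} : Set G) :=
      Subgroup.subset_normalClosure (Set.mem_singleton _)
    rw [h, Subgroup.mem_bot] at h1
    exact hg1 h1
  have hNle := hmin.2 _ Subgroup.normalClosure_normal hne
  have h5 : N ≤ N ⊓ P := le_inf le_rfl (hNle.trans hle)
  rw [hdisj] at h5
  exact hmin.1 (eq_bot_iff.mpr h5)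

/-- a small generating set of the complement -/
theorem fq_gen_final {G : Type u} [Group G] [Finite G] (N P : Subgroup G) (hN : N.Normal)
    (hc : ∀ a ∈ N, ∀ b ∈ N, a * b = b * a) (q : ℕ) [Fact q.Prime] (hq2 : q ≠ 2)
    (hexp : ∀ x ∈ N, x ^ q = 1) (hP : IsPGroup 2 ↥P)
    (hdisj : N ⊓ P = ⊥) (hprod : N ⊔ P = ⊤)
    (hmin : N ≠ ⊥ ∧ ∀ M : Subgroup G, M.Normal → M ≠ ⊥ → N ≤ M) :
    ∃ S : Finset ↥P, Subgroup.closure (S : Set ↥P) = ⊤ ∧ 2 ^ S.card ≤ Nat.card ↥N - 1 ∧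
      (Nat.card ↥N ≠ 3 → 2 ^ (S.card + 1) ≤ Nat.card ↥N - 1) := by
  classical
  haveI := hN
  letI : CommGroup ↥N :=
    { (inferInstance : Group ↥N) with
      mul_comm := fun a b => Subtype.ext (hc a a.2 b b.2) }
  haveI : Nontrivial ↥N := (Subgroup.nontrivial_iff_ne_bot N).mpr hmin.1
  have hker1 : ∀ g : ↥P, ((MulAut.conjNormal (H := N)).comp P.subtype) g = 1 → g = 1 := by
    intro g hg
    apply Subtype.ext
    apply fq_faithful N P hN hdisj hprod hmin (g : G) g.2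
    intro n hn
    have h1 := congrArg (fun e : MulAut ↥N => ((e ⟨n, hn⟩ : ↥N) : G)) hg
    have h2 : (g : G) * n * (g : G)⁻¹ = n := h1
    calc (g : G) * n = ((g : G) * n * (g : G)⁻¹) * g := by group
      _ = n * g := by rw [h2]
  have hφ : Function.Injective ((MulAut.conjNormal (H := N)).comp P.subtype) := by
    intro a b hab
    have h1 : ((MulAut.conjNormal (H := N)).comp P.subtype) (a⁻¹ * b) = 1 := by
      rw [MonoidHom.map_mul, MonoidHom.map_inv, hab, inv_mul_cancel]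
    exact inv_mul_eq_one.mp (hker1 _ h1)
  exact fq_gen_abs q hq2 (fun a => Subtype.ext (hexp a a.2))
    ((MulAut.conjNormal (H := N)).comp P.subtype) hφ hP

/-- a central involution of the complement inverts `N` -/
theorem fq_invol {G : Type*} [Group G] [Finite G] (N P : Subgroup G) (hN : N.Normal)
    (hc : ∀ a ∈ N, ∀ b ∈ N, a * b = b * a) (hP : IsPGroup 2 ↥P) (hP1 : P ≠ ⊥)
    (hdisj : N ⊓ P = ⊥) (hprod : N ⊔ P = ⊤)
    (hmin : N ≠ ⊥ ∧ ∀ M : Subgroup G, M.Normal → M ≠ ⊥ → N ≤ M) :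
    ∃ z : G, z ∈ P ∧ z ≠ 1 ∧ z * z = 1 ∧ ∀ n ∈ N, z * n * z⁻¹ = n⁻¹ := by
  classical
  haveI : Nontrivial ↥P := (Subgroup.nontrivial_iff_ne_bot P).mpr hP1
  haveI : Nontrivial (Subgroup.center ↥P) := hP.center_nontrivial
  have hPc : IsPGroup 2 (Subgroup.center ↥P) := hP.to_subgroup _
  obtain ⟨k, hk⟩ := IsPGroup.iff_card.mp hPc
  have h2 : 2 ∣ Nat.card (Subgroup.center ↥P) := by
    rw [hk]
    have hk0 : k ≠ 0 := by
      rintro rfl
      have h1 : 1 < Nat.card (Subgroup.center ↥P) := Finite.one_lt_card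
      rw [hk] at h1
      simp at h1
    exact dvd_pow_self 2 hk0
  obtain ⟨z0, hz0⟩ := exists_prime_orderOf_dvd_card' 2 h2
  have hzc : ∀ p ∈ P, ((z0 : ↥P) : G) * p = p * ((z0 : ↥P) : G) := by
    intro p hp
    have h1 := Subgroup.mem_center_iff.mp z0.2 ⟨p, hp⟩
    have h2 := congrArg Subtype.val h1
    exact h2.symm
  have hz1 : ((z0 : ↥P) : G) ≠ 1 := by
    intro h
    have h3 : z0 = 1 := Subtype.ext (Subtype.ext h)
    rw [h3, orderOf_one] at hz0
    omega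
  have hz2 : ((z0 : ↥P) : G) * ((z0 : ↥P) : G) = 1 := by
    have h3 : z0 ^ 2 = 1 := by rw [← hz0]; exact pow_orderOf_eq_one z0
    have h4 := congrArg (fun x : Subgroup.center ↥P => ((x : ↥P) : G)) h3
    simpa [pow_two] using h4
  have hzinv : ((z0 : ↥P) : G)⁻¹ = ((z0 : ↥P) : G) := inv_eq_of_mul_eq_one_right hz2
  refine ⟨((z0 : ↥P) : G), (z0 : ↥P).2, hz1, hz2, ?_⟩
  -- the fixed points of z in N form a normal subgroup
  have hCn : (N ⊓ Subgroup.centralizer ({((z0 : ↥P) : G)} : Set G)).Normal := by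
    refine ⟨fun c hcC g => ?_⟩
    have hcN : c ∈ N := hcC.1
    have hcz : c * ((z0 : ↥P) : G) = ((z0 : ↥P) : G) * c := by
      have := Subgroup.mem_centralizer_iff.mp hcC.2 _ (Set.mem_singleton _)
      exact this.symm
    have hgm : g ∈ N ⊔ P := by rw [hprod]; trivial
    obtain ⟨n, hn, p, hp, rfl⟩ := Subgroup.mem_sup_of_normal_left.mp hgm
    have h1 : p * c * p⁻¹ ∈ N := hN.conj_mem c hcN p
    have h2 : n * p * c * (n * p)⁻¹ = p * c * p⁻¹ := by
      have h3 := hc n hn _ h1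
      calc n * p * c * (n * p)⁻¹ = (n * (p * c * p⁻¹)) * n⁻¹ := by group
        _ = ((p * c * p⁻¹) * n) * n⁻¹ := by rw [h3]
        _ = p * c * p⁻¹ := by group
    rw [h2]
    refine ⟨h1, ?_⟩
    refine Subgroup.mem_centralizer_iff.mpr ?_
    intro y hy
    rw [Set.mem_singleton_iff] at hy
    subst hy
    have h4 := hzc p hp
    have h5 := hzc p⁻¹ (P.inv_mem hp)
    calc ((z0 : ↥P) : G) * (p * c * p⁻¹) = (((z0 : ↥P) : G) * p) * c * p⁻¹ := by group
      _ = (p * ((z0 : ↥P) : G)) * c * p⁻¹ := by rw [h4]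
      _ = p * (((z0 : ↥P) : G) * c) * p⁻¹ := by group
      _ = p * (c * ((z0 : ↥P) : G)) * p⁻¹ := by rw [hcz]
      _ = p * c * (((z0 : ↥P) : G) * p⁻¹) := by group
      _ = p * c * (p⁻¹ * ((z0 : ↥P) : G)) := by rw [h5]
      _ = p * c * p⁻¹ * ((z0 : ↥P) : G) := by group
  have hCbot : N ⊓ Subgroup.centralizer ({((z0 : ↥P) : G)} : Set G) = ⊥ := by
    by_contra hne
    have hNle := hmin.2 _ hCn hne
    apply hz1
    apply fq_faithful N P hN hdisj hprod hmin _ (z0 : ↥P).2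
    intro n hn
    have := Subgroup.mem_centralizer_iff.mp (hNle hn).2 _ (Set.mem_singleton _)
    exact this
  intro n hn
  have hzn : ((z0 : ↥P) : G) * n * ((z0 : ↥P) : G)⁻¹ ∈ N := hN.conj_mem n hn _
  have hm : n * (((z0 : ↥P) : G) * n * ((z0 : ↥P) : G)⁻¹) ∈
      N ⊓ Subgroup.centralizer ({((z0 : ↥P) : G)} : Set G) := by
    refine ⟨N.mul_mem hn hzn, ?_⟩
    refine Subgroup.mem_centralizer_iff.mpr ?_
    intro y hy
    rw [Set.mem_singleton_iff] at hy
    subst hy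
    have h3 := hc n hn _ hzn
    rw [hzinv] at h3 ⊢
    calc ((z0 : ↥P) : G) * (n * (((z0 : ↥P) : G) * n * ((z0 : ↥P) : G)))
        = (((z0 : ↥P) : G) * n * ((z0 : ↥P) : G)) * n * ((z0 : ↥P) : G) := by group
      _ = n * (((z0 : ↥P) : G) * n * ((z0 : ↥P) : G)) * ((z0 : ↥P) : G) := by rw [← h3]
  rw [hCbot, Subgroup.mem_bot] at hm
  exact eq_inv_of_mul_eq_one_right hm

end Cfsg.Agent.Helper24
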