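import Mathlib
import Cfsg.Agent.Helper24.FqG
import Cfsg.Agent.Helper24.LinearChar
import Cfsg.Agent.Helper24.CharValues
import Cfsg.Agent.Helper25.FSIndicator
import Cfsg.Agent.S0169

set_option autoImplicit false

namespace Cfsg.Agent.Helper24

open Cfsg

universe u

/-- at least `#N + 1` elements square to the identity -/
theorem fq_sq_count {G : Type*} [Group G] [Finite G] (N P : Subgroup G) (hN : N.Normal)
    (hc : ∀ a ∈ N, ∀ b ∈ N, a * b = b * a) (hP : IsPGroup 2 ↥P) (hP1 : P ≠ ⊥)
    (hdisj : N ⊓ P = ⊥) (hprod : N ⊔ P = ⊤)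
    (hmin : N ≠ ⊥ ∧ ∀ M : Subgroup G, M.Normal → M ≠ ⊥ → N ≤ M) :
    Nat.card ↥N + 1 ≤ Nat.card {s : G // s * s = 1} := by
  classical
  obtain ⟨z, hzP, hz1, hz2, hzinv⟩ := fq_invol N P hN hc hP hP1 hdisj hprod hmin
  have hzi : z⁻¹ = z := inv_eq_of_mul_eq_one_right hz2
  have hsq : ∀ n : ↥N, (n : G) * z * ((n : G) * z) = 1 := by
    intro n
    have h := hzinv n n.2
    rw [hzi] at h
    calc (n : G) * z * ((n : G) * z) = (n : G) * (z * n * z) := by group
      _ = (n : G) * (n : G)⁻¹ := by rw [h]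
      _ = 1 := mul_inv_cancel _
  have hnz : ∀ n : ↥N, (n : G) * z ≠ 1 := by
    intro n h
    have h2 : z = (n : G)⁻¹ := eq_inv_of_mul_eq_one_right h
    have h3 : z ∈ N ⊓ P := ⟨h2 ▸ N.inv_mem n.2, hzP⟩
    rw [hdisj, Subgroup.mem_bot] at h3
    exact hz1 h3
  let f : Option ↥N → {s : G // s * s = 1} := fun o =>
    match o with
    | none => ⟨1, mul_one 1⟩
    | some n => ⟨(n : G) * z, hsq n⟩
  have hf : Function.Injective f := by
    intro a b hab
    match a, b with
    | none, none => rfl
    | none, some n =>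
      exfalso
      have h1 : (1 : G) = (n : G) * z := congrArg Subtype.val hab
      exact hnz n h1.symm
    | some n, none =>
      exfalso
      have h1 : (n : G) * z = 1 := congrArg Subtype.val hab
      exact hnz n h1
    | some n, some m =>
      have h1 : (n : G) * z = (m : G) * z := congrArg Subtype.val hab
      exact congrArg some (Subtype.ext (mul_right_cancel h1))
  have h4 := Nat.card_le_card_of_injective f hf
  rwa [Finite.card_option] at h4

/-- the index of `N` is a power of two -/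
theorem fq_index_pow {G : Type*} [Group G] [Finite G] (N P : Subgroup G) (hN : N.Normal)
    (hP : IsPGroup 2 ↥P) (hprod : N ⊔ P = ⊤) : ∃ k : ℕ, N.index = 2 ^ k := by
  haveI := hN
  have h2 : IsPGroup 2 (G ⧸ N) := by
    intro x
    induction x using QuotientGroup.induction_on with
    | _ g =>
      have hgm : g ∈ N ⊔ P := by rw [hprod]; trivial
      obtain ⟨n, hn, p, hp, rfl⟩ := Subgroup.mem_sup_of_normal_left.mp hgm
      obtain ⟨k, hk⟩ := hP ⟨p, hp⟩
      refine ⟨k, ?_⟩
      have h3 : ((n * p : G) : G ⧸ N) = ((p : G) : G ⧸ N) := by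
        rw [QuotientGroup.mk_mul, (QuotientGroup.eq_one_iff n).mpr hn, one_mul]
      rw [h3, ← QuotientGroup.mk_pow]
      have h4 : p ^ 2 ^ k = 1 := by
        have := congrArg Subtype.val hk
        simpa using this
      rw [h4]
      rfl
  obtain ⟨k, hk⟩ := IsPGroup.iff_card.mp h2
  exact ⟨k, by rw [Subgroup.index_eq_card]; exact hk⟩

end Cfsg.Agent.Helper24
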