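import Mathlib
import Cfsg.Agent.Helper24.FqH
import Cfsg.Agent.Helper24.CharInv

set_option autoImplicit false

namespace Cfsg.Agent.Helper24

open Cfsg

universe u

/-- Ito: the irreducible character degrees are powers of two -/
theorem fq_deg_pow {G : Type*} [Group G] [Finite G] (N P : Subgroup G) (hN : N.Normal)
    (hc : ∀ a ∈ N, ∀ b ∈ N, a * b = b * a) (hP : IsPGroup 2 ↥P) (hprod : N ⊔ P = ⊤)
    (χ : IrrCharacter G) : ∃ j : ℕ, charDegree (χ : G → ℂ) = 2 ^ j := by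
  haveI := hN
  obtain ⟨k, hk⟩ := fq_index_pow N P hN hP hprod
  obtain ⟨n, ρ, hirr, hρ⟩ := χ.2
  haveI := hirr
  have h1 := Cfsg.Agent.S0169.result ρ N hc
  rw [hk] at h1
  have h2 : Module.finrank ℂ (Fin n → ℂ) = n := by simp
  rw [h2] at h1
  obtain ⟨j, _, hj⟩ := (Nat.dvd_prime_pow Nat.prime_two).mp h1
  refine ⟨j, ?_⟩
  have h3 := charDegree_spec (isCharacter_of_irr χ.2)
  have h4 : (χ : G → ℂ) 1 = (n : ℂ) := by
    rw [← hρ, Representation.char_one]; simp
  rw [h4] at h3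
  have h5 : n = charDegree (χ : G → ℂ) := by exact_mod_cast h3
  rw [← h5, hj]

/-- a linear character with indicator one has values `±1` -/
theorem fq_lin_pm {G : Type*} [Group G] [Fintype G] {χ : G → ℂ} (hχ : IsIrrCharacter G χ)
    (h1 : χ 1 = 1) (hν : (Nat.card G : ℂ)⁻¹ * ∑ s : G, χ (s * s) = 1) (g : G) :
    χ g = 1 ∨ χ g = -1 := by
  have hfs := (Cfsg.Agent.Helper25.fs_indicator hχ).2
  have him : (χ g).im = 0 := by
    by_contra h
    have h0 := hfs ⟨g, h⟩
    rw [hν] at h0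
    exact one_ne_zero h0
  have hn := linear_char_norm (isCharacter_of_irr hχ) h1 g
  have hre : (χ g).re * (χ g).re = 1 := by
    have h2 := Complex.sq_norm (χ g)
    rw [hn, Complex.normSq_apply, him] at h2
    linarith
  have h3 : ((χ g).re - 1) * ((χ g).re + 1) = 0 := by linarith
  rcases mul_eq_zero.mp h3 with h | h
  · left
    apply Complex.ext
    · simp; linarith
    · simp [him]
  · right
    apply Complex.ext
    · simp; linarith
    · simp [him]

/-- the linear characters with indicator one are determined by their values on generators of `P` -/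
theorem fq_lin_count {G : Type*} [Group G] [Fintype G]
    (N P : Subgroup G) (q : ℕ) (hq : Odd q)
    (hexp : ∀ x ∈ N, x ^ q = 1) (hprod : N ⊔ P = ⊤) (S : Finset ↥P)
    (hS : Subgroup.closure (S : Set ↥P) = ⊤) (L : Finset (IrrCharacter G))
    (hL : ∀ χ ∈ L, (χ : G → ℂ) 1 = 1 ∧
      (Nat.card G : ℂ)⁻¹ * ∑ s : G, (χ : G → ℂ) (s * s) = 1) :
    L.card ≤ 2 ^ S.card := by
  classical
  have hpm : ∀ χ ∈ L, ∀ g : G, (χ : G → ℂ) g = 1 ∨ (χ : G → ℂ) g = -1 := fun χ hχ g =>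
    fq_lin_pm χ.2 (hL χ hχ).1 (hL χ hχ).2 g
  have hN1 : ∀ χ ∈ L, ∀ n ∈ N, (χ : G → ℂ) n = 1 := by
    intro χ hχ n hn
    have h1 := linear_char_pow (isCharacter_of_irr χ.2) (hL χ hχ).1 n q
    rw [hexp n hn, (hL χ hχ).1] at h1
    rcases hpm χ hχ n with h | h
    · exact h
    · rw [h, hq.neg_one_pow] at h1
      exfalso
      norm_num at h1
  let Φ : IrrCharacter G → (↥S → Bool) := fun χ s => decide ((χ : G → ℂ) ((s : ↥P) : G) = 1)
  have hinj : Set.InjOn Φ (L : Set (IrrCharacter G)) := by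
    intro χ hχ χ' hχ' heq
    have hχ := Finset.mem_coe.mp hχ
    have hχ' := Finset.mem_coe.mp hχ'
    have hS' : ∀ s ∈ S, (χ : G → ℂ) ((s : ↥P) : G) = (χ' : G → ℂ) ((s : ↥P) : G) := by
      intro s hs
      have h1 := congrFun heq ⟨s, hs⟩
      have h2 : ((χ : G → ℂ) ((s : ↥P) : G) = 1) ↔ ((χ' : G → ℂ) ((s : ↥P) : G) = 1) := by
        simpa [Φ] using h1
      rcases hpm χ hχ (s : G) with h | h
      · rw [h, h2.mp h]
      · rcases hpm χ' hχ' (s : G) with h' | h'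
        · rw [h2.mpr h'] at h
          norm_num at h
        · rw [h, h']
    have hmul := linear_char_mul (isCharacter_of_irr χ.2) (hL χ hχ).1
    have hmul' := linear_char_mul (isCharacter_of_irr χ'.2) (hL χ' hχ').1
    let E : Subgroup G :=
      { carrier := {g | (χ : G → ℂ) g = (χ' : G → ℂ) g}
        one_mem' := by
          show (χ : G → ℂ) 1 = (χ' : G → ℂ) 1
          rw [(hL χ hχ).1, (hL χ' hχ').1]
        mul_mem' := by
          intro a b ha hb
          show (χ : G → ℂ) (a * b) = (χ' : G → ℂ) (a * b)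
          have ha' : (χ : G → ℂ) a = (χ' : G → ℂ) a := ha
          have hb' : (χ : G → ℂ) b = (χ' : G → ℂ) b := hb
          rw [hmul, hmul', ha', hb']
        inv_mem' := by
          intro a ha
          show (χ : G → ℂ) a⁻¹ = (χ' : G → ℂ) a⁻¹
          have h1 : (χ : G → ℂ) a * (χ : G → ℂ) a⁻¹ = 1 := by
            rw [← hmul, mul_inv_cancel, (hL χ hχ).1]
          have h2 : (χ' : G → ℂ) a * (χ' : G → ℂ) a⁻¹ = 1 := by
            rw [← hmul', mul_inv_cancel, (hL χ' hχ').1]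
          have ha' : (χ : G → ℂ) a = (χ' : G → ℂ) a := ha
          rw [ha'] at h1
          have hne : (χ' : G → ℂ) a ≠ 0 := by
            intro h0
            rw [h0, zero_mul] at h2
            exact zero_ne_one h2
          exact mul_left_cancel₀ hne (h1.trans h2.symm) }
    have hNE : N ≤ E := by
      intro n hn
      show (χ : G → ℂ) n = (χ' : G → ℂ) n
      rw [hN1 χ hχ n hn, hN1 χ' hχ' n hn]
    have hPE : P ≤ E := by
      intro p hp
      have h1 : (⟨p, hp⟩ : ↥P) ∈ Subgroup.closure (S : Set ↥P) := by rw [hS]; trivial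
      have h2 : Subgroup.closure (S : Set ↥P) ≤ E.comap P.subtype := by
        rw [Subgroup.closure_le]
        intro s hs
        exact hS' s (Finset.mem_coe.mp hs)
      exact h2 h1
    have hE : E = ⊤ := by
      rw [eq_top_iff, ← hprod]
      exact sup_le hNE hPE
    apply Subtype.ext
    funext g
    have hg : g ∈ E := by rw [hE]; trivial
    exact hg
  have h1 := Finset.card_le_card_of_injOn (t := Finset.univ) Φ
    (fun χ _ => Finset.mem_univ (Φ χ)) hinj
  rw [Finset.card_univ, Fintype.card_fun, Fintype.card_bool, Fintype.card_coe] at h1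
  exact h1

/-- the average degree of the strongly real characters of degree one or even is at least `4/3` -/
theorem fq_acd {G : Type u} [Group G] [Finite G] (N P : Subgroup G) (hN : N.Normal) (q : ℕ)
    [Fact q.Prime] (hq : q ≠ 2) (hc : ∀ a ∈ N, ∀ b ∈ N, a * b = b * a)
    (hexp : ∀ x ∈ N, x ^ q = 1) (hP : IsPGroup 2 ↥P) (hP1 : P ≠ ⊥)
    (hdisj : N ⊓ P = ⊥) (hprod : N ⊔ P = ⊤)
    (hmin : N ≠ ⊥ ∧ ∀ M : Subgroup G, M.Normal → M ≠ ⊥ → N ≤ M) :
    4 * Nat.card {χ : Cfsg.IrrCharacter G // (Cfsg.charDegree (χ : G → ℂ) = 1 ∨ 2 ∣ Cfsg.charDegree (χ : G → ℂ)) ∧ (Nat.card G : ℂ)⁻¹ * ∑ᶠ g : G, (χ : G → ℂ) (g * g) = 1} ≤ 3 * (∑ᶠ χ : {χ : Cfsg.IrrCharacter G // (Cfsg.charDegree (χ : G → ℂ) = 1 ∨ 2 ∣ Cfsg.charDegree (χ : G → ℂ)) ∧ (Nat.card G : ℂ)⁻¹ * ∑ᶠ g : G, (χ : G → ℂ) (g * g) = 1}, Cfsg.charDegree (χ.1 : G → ℂ)) := by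
  classical
  haveI := Fintype.ofFinite G
  haveI := finite_irrCharacter (G := G)
  haveI := Fintype.ofFinite (IrrCharacter G)
  obtain ⟨ν, hν⟩ : ∃ ν : IrrCharacter G → ℂ, ∀ χ, ν χ
      = (Nat.card G : ℂ)⁻¹ * ∑ s : G, (χ : G → ℂ) (s * s) := ⟨_, fun _ => rfl⟩
  have hfin : ∀ χ : IrrCharacter G, (Nat.card G : ℂ)⁻¹ * ∑ᶠ g : G, (χ : G → ℂ) (g * g)
      = ν χ := by
    intro χ
    rw [finsum_eq_sum_of_fintype, hν]
  obtain ⟨S, hS, hS1, hS2⟩ := fq_gen_final N P hN hc q hq hexp hP hdisj hprod hmin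
  have hsq := fq_sq_count N P hN hc hP hP1 hdisj hprod hmin
  have hcount := Cfsg.Agent.Helper25.sqrt_count (1 : G)
  simp only [← hν] at hcount
  obtain ⟨T, hT0⟩ : ∃ T : Finset (IrrCharacter G), T = Finset.univ.filter
      (fun χ : IrrCharacter G =>
        (charDegree (χ : G → ℂ) = 1 ∨ 2 ∣ charDegree (χ : G → ℂ)) ∧
          (Nat.card G : ℂ)⁻¹ * ∑ᶠ g : G, (χ : G → ℂ) (g * g) = 1) := ⟨_, rfl⟩
  have hcard : Nat.card {χ : IrrCharacter G // (charDegree (χ : G → ℂ) = 1 ∨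
      2 ∣ charDegree (χ : G → ℂ)) ∧
        (Nat.card G : ℂ)⁻¹ * ∑ᶠ g : G, (χ : G → ℂ) (g * g) = 1} = T.card := by
    rw [Nat.card_eq_fintype_card, Fintype.card_subtype, hT0]
  have hsum : ∑ᶠ χ : {χ : IrrCharacter G // (charDegree (χ : G → ℂ) = 1 ∨
      2 ∣ charDegree (χ : G → ℂ)) ∧
        (Nat.card G : ℂ)⁻¹ * ∑ᶠ g : G, (χ : G → ℂ) (g * g) = 1}, charDegree (χ.1 : G → ℂ)
      = ∑ χ ∈ T, charDegree (χ : G → ℂ) := by
    rw [finsum_eq_sum_of_fintype]
    exact (Finset.sum_subtype T (fun χ => by rw [hT0]; simp)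
      (fun χ => charDegree (χ : G → ℂ))).symm
  rw [hcard, hsum]
  have hT : T = Finset.univ.filter (fun χ : IrrCharacter G =>
      (charDegree (χ : G → ℂ) = 1 ∨ 2 ∣ charDegree (χ : G → ℂ)) ∧ ν χ = 1) := by
    rw [hT0]
    ext χ
    rw [Finset.mem_filter, Finset.mem_filter, hfin χ]
  have hdeg : ∀ χ : IrrCharacter G,
      charDegree (χ : G → ℂ) = 1 ∨ 2 ∣ charDegree (χ : G → ℂ) := by
    intro χ
    obtain ⟨j, hj⟩ := fq_deg_pow N P hN hc hP hprod χ
    rcases Nat.eq_zero_or_pos j with h0 | hpos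
    · left
      rw [hj, h0, pow_zero]
    · right
      rw [hj]
      exact dvd_pow_self 2 hpos.ne'
  have hpos : ∀ χ : IrrCharacter G, 0 < charDegree (χ : G → ℂ) := fun χ => irr_degree_pos χ.2
  have hone : ∀ χ : IrrCharacter G, (χ : G → ℂ) 1 = (charDegree (χ : G → ℂ) : ℂ) :=
    fun χ => charDegree_spec (isCharacter_of_irr χ.2)
  have hνcases : ∀ χ : IrrCharacter G, ν χ = 1 ∨ ν χ = -1 ∨ ν χ = 0 := by
    intro χ
    have hfs := Cfsg.Agent.Helper25.fs_indicator χ.2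
    rw [← hν] at hfs
    by_cases hreal : ∀ s : G, ((χ : G → ℂ) s).im = 0
    · rcases hfs.1 hreal with h | h
      · exact Or.inl h
      · exact Or.inr (Or.inl h)
    · push_neg at hreal
      exact Or.inr (Or.inr (hfs.2 hreal))
  have hK3 : Nat.card {s : G // s * s = 1} ≤ ∑ χ ∈ T, charDegree (χ : G → ℂ) := by
    have h1 : (Nat.card {s : G // s * s = 1} : ℝ)
        = ∑ χ : IrrCharacter G, (ν χ * (χ : G → ℂ) 1).re := by
      have h := congrArg Complex.re hcount
      rw [Complex.natCast_re, Complex.re_sum] at h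
      exact h
    have h2 : ∀ χ : IrrCharacter G, (ν χ * (χ : G → ℂ) 1).re
        ≤ ((if (charDegree (χ : G → ℂ) = 1 ∨ 2 ∣ charDegree (χ : G → ℂ)) ∧ ν χ = 1
            then charDegree (χ : G → ℂ) else 0 : ℕ) : ℝ) := by
      intro χ
      rw [hone χ]
      have hd : (0:ℝ) ≤ (charDegree (χ : G → ℂ) : ℝ) := Nat.cast_nonneg _
      rcases hνcases χ with h | h | h
      · rw [if_pos ⟨hdeg χ, h⟩, h, one_mul, Complex.natCast_re]
      · rw [h]
        have h5 : ((-1 : ℂ) * (charDegree (χ : G → ℂ) : ℂ)).re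
            = -(charDegree (χ : G → ℂ) : ℝ) := by simp
        rw [h5]
        have h6 : (0:ℝ) ≤ ((if (charDegree (χ : G → ℂ) = 1 ∨ 2 ∣ charDegree (χ : G → ℂ)) ∧
            (-1 : ℂ) = 1 then charDegree (χ : G → ℂ) else 0 : ℕ) : ℝ) := Nat.cast_nonneg _
        linarith
      · rw [h, zero_mul, Complex.zero_re]
        exact Nat.cast_nonneg _
    have h3 : (Nat.card {s : G // s * s = 1} : ℝ)
        ≤ ((∑ χ ∈ T, charDegree (χ : G → ℂ) : ℕ) : ℝ) := by
      rw [h1, hT, Finset.sum_filter, Nat.cast_sum]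
      exact Finset.sum_le_sum (fun χ _ => h2 χ)
    exact_mod_cast h3
  have hK1 : 2 * T.card ≤ ∑ χ ∈ T, charDegree (χ : G → ℂ)
      + (T.filter (fun χ : IrrCharacter G => charDegree (χ : G → ℂ) = 1)).card := by
    have h0 : 2 * T.card = ∑ _χ ∈ T, 2 := by rw [Finset.sum_const, smul_eq_mul, mul_comm]
    rw [h0, Finset.card_filter, ← Finset.sum_add_distrib]
    apply Finset.sum_le_sum
    intro χ hχ
    rw [hT] at hχ
    have hm := (Finset.mem_filter.mp hχ).2.1
    have hp := hpos χ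
    split_ifs with h
    · omega
    · rcases hm with h' | h'
      · exact absurd h' h
      · obtain ⟨c, hc'⟩ := h'
        omega
  have hqodd : Odd q := (Fact.out : q.Prime).eq_two_or_odd'.resolve_left hq
  have hK2 : (T.filter (fun χ : IrrCharacter G => charDegree (χ : G → ℂ) = 1)).card ≤ 2 ^ S.card := by
    apply fq_lin_count N P q hqodd hexp hprod S hS
    intro χ hχ
    rw [Finset.mem_filter] at hχ
    have h1 : (χ : G → ℂ) 1 = 1 := by
      rw [hone χ, hχ.2]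
      simp
    have h2 := hχ.1
    rw [hT] at h2
    have h3 := (Finset.mem_filter.mp h2).2.2
    rw [hν] at h3
    exact ⟨h1, h3⟩
  obtain ⟨m, hm⟩ : ∃ m : ℕ, m = 2 ^ S.card := ⟨_, rfl⟩
  rw [pow_succ] at hS2
  rw [← hm] at hS1 hS2 hK2
  have hfinal : 2 * (T.filter (fun χ : IrrCharacter G => charDegree (χ : G → ℂ) = 1)).card
      ≤ ∑ χ ∈ T, charDegree (χ : G → ℂ) := by
    by_cases h3 : Nat.card ↥N = 3
    · rw [h3] at hS1 hsq
      omega
    · have h4 := hS2 h3
      omega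
  omega

end Cfsg.Agent.Helper24
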