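import Mathlib
import Cfsg.Agent.Helper24.CharValues
import Cfsg.Agent.Helper24.CharBasic
import Cfsg.Agent.Helper2.CharNat
import Cfsg.Agent.Helper2.CharOrtho
import Cfsg.Agent.Helper2.CharComplete

/-!
Galois conjugation of characters: for `k` coprime to `|G|`, the function `g ↦ χ (g ^ k)` is an
(irreducible) character whenever `χ` is.  The proof twists a representation by a field
automorphism of `ℂ` raising a primitive `|G|`-th root of unity to its `k`-th power.
-/

set_option autoImplicit false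

namespace Cfsg.Agent.Helper24

open Cfsg Cardinal Polynomial
open scoped ComplexConjugate

/-- Two uncountable algebraically closed algebras over a countable field `R` of the same
cardinality are isomorphic over `R`. -/
theorem exists_ringEquiv_of_algebra {R K L : Type} [Field R] [Field K] [Field L]
    [Algebra R K] [Algebra R L] [IsAlgClosed K] [IsAlgClosed L]
    (hR : #R ≤ ℵ₀) (hK : ℵ₀ < #K) (hKL : #K = #L) :
    ∃ σ : K ≃+* L, ∀ r : R, σ (algebraMap R K r) = algebraMap R L r := by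
  obtain ⟨ι, v, hv⟩ := exists_isTranscendenceBasis' (R := R) (A := K)
  obtain ⟨κ, w, hw⟩ := exists_isTranscendenceBasis' (R := R) (A := L)
  have h1 : #K = #ι :=
    IsAlgClosed.cardinal_eq_cardinal_transcendence_basis_of_aleph0_lt' v hv hR hK
  have h2 : #L = #κ :=
    IsAlgClosed.cardinal_eq_cardinal_transcendence_basis_of_aleph0_lt' w hw hR (hKL ▸ hK)
  obtain ⟨e⟩ : Nonempty (ι ≃ κ) := Cardinal.eq.mp (by rw [← h1, ← h2, hKL])
  letI := IsAlgClosed.isAlgClosure_of_transcendence_basis v hv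
  letI := IsAlgClosed.isAlgClosure_of_transcendence_basis w hw
  let e' : Algebra.adjoin R (Set.range v) ≃ₐ[R] Algebra.adjoin R (Set.range w) :=
    hv.1.aevalEquiv.symm.trans ((MvPolynomial.renameEquiv R e).trans hw.1.aevalEquiv)
  refine ⟨IsAlgClosure.equivOfEquiv K L e'.toRingEquiv, fun r => ?_⟩
  have h3 := IsAlgClosure.equivOfEquiv_algebraMap K L e'.toRingEquiv
    (algebraMap R (Algebra.adjoin R (Set.range v)) r)
  have h4 : algebraMap (Algebra.adjoin R (Set.range v)) K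
      (algebraMap R (Algebra.adjoin R (Set.range v)) r) = algebraMap R K r := rfl
  have h5 : e'.toRingEquiv (algebraMap R (Algebra.adjoin R (Set.range v)) r) =
      algebraMap R (Algebra.adjoin R (Set.range w)) r := e'.commutes r
  rw [h4, h5] at h3
  exact h3

/-- There is a field automorphism of `ℂ` raising a given primitive `n`-th root of unity to the
`k`-th power, for `k` coprime to `n`. -/
theorem exists_ringEquiv_complex_pow (n k : ℕ) (hn : 0 < n) (hk : k.Coprime n) (ζ : ℂ)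
    (hζ : IsPrimitiveRoot ζ n) : ∃ σ : ℂ ≃+* ℂ, σ ζ = ζ ^ k := by
  have hirr : Irreducible (cyclotomic n ℚ) := cyclotomic.irreducible_rat hn
  haveI : Fact (Irreducible (cyclotomic n ℚ)) := ⟨hirr⟩
  have hζk : IsPrimitiveRoot (ζ ^ k) n := hζ.pow_of_coprime k hk
  have hroot : ∀ η : ℂ, IsPrimitiveRoot η n →
      eval₂ (algebraMap ℚ ℂ) η (cyclotomic n ℚ) = 0 := by
    intro η hη
    have h1 := hη.isRoot_cyclotomic hn
    rw [← map_cyclotomic n (algebraMap ℚ ℂ), IsRoot.def, eval_map] at h1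
    exact h1
  let i₁ : AdjoinRoot (cyclotomic n ℚ) →+* ℂ :=
    AdjoinRoot.lift (algebraMap ℚ ℂ) ζ (hroot ζ hζ)
  let i₂ : AdjoinRoot (cyclotomic n ℚ) →+* ℂ :=
    AdjoinRoot.lift (algebraMap ℚ ℂ) (ζ ^ k) (hroot _ hζk)
  have hR : #(AdjoinRoot (cyclotomic n ℚ)) ≤ ℵ₀ := by
    have h1 : #(AdjoinRoot (cyclotomic n ℚ)) ≤ #ℚ[X] :=
      Cardinal.mk_le_of_surjective (AdjoinRoot.mk_surjective (g := cyclotomic n ℚ))
    have h2 : #ℚ[X] ≤ max #ℚ ℵ₀ := Polynomial.cardinalMk_le_max
    have h3 : #ℚ ≤ ℵ₀ := Cardinal.mk_le_aleph0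
    exact h1.trans (h2.trans (max_le h3 le_rfl))
  have hK : ℵ₀ < #ℂ := by
    rw [Cardinal.mk_complex]
    exact Cardinal.aleph0_lt_continuum
  obtain ⟨σ, hσ⟩ := @exists_ringEquiv_of_algebra (AdjoinRoot (cyclotomic n ℚ)) ℂ ℂ _ _ _
    i₁.toAlgebra i₂.toAlgebra _ _ hR hK rfl
  refine ⟨σ, ?_⟩
  have h1 := hσ (AdjoinRoot.root (cyclotomic n ℚ))
  have e1 : i₁ (AdjoinRoot.root (cyclotomic n ℚ)) = ζ := AdjoinRoot.lift_root _
  have e2 : i₂ (AdjoinRoot.root (cyclotomic n ℚ)) = ζ ^ k := AdjoinRoot.lift_root _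
  calc σ ζ = σ (i₁ (AdjoinRoot.root (cyclotomic n ℚ))) := by rw [e1]
    _ = i₂ (AdjoinRoot.root (cyclotomic n ℚ)) := h1
    _ = ζ ^ k := e2

/-- Twisting a character by a ring endomorphism of `ℂ` gives a character. -/
theorem isCharacter_ringHom_comp {G : Type*} [Group G] (σ : ℂ →+* ℂ) {χ : G → ℂ}
    (hχ : IsCharacter G χ) : IsCharacter G (fun g => σ (χ g)) := by
  classical
  obtain ⟨n, ρ, rfl⟩ := hχ
  let ρ' : Representation ℂ G (Fin n → ℂ) :=
    { toFun := fun g => Matrix.toLin' ((LinearMap.toMatrix' (ρ g)).map σ)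
      map_one' := by
        rw [map_one]
        have h1 : LinearMap.toMatrix' (1 : Module.End ℂ (Fin n → ℂ)) = 1 :=
          LinearMap.toMatrix'_one
        rw [h1, Matrix.map_one σ (map_zero σ) (map_one σ)]
        exact Matrix.toLin'_one
      map_mul' := fun g h => by
        rw [map_mul]
        have h1 : LinearMap.toMatrix' (ρ g * ρ h) =
            LinearMap.toMatrix' (ρ g) * LinearMap.toMatrix' (ρ h) :=
          LinearMap.toMatrix'_mul _ _
        rw [h1, Matrix.map_mul, Matrix.toLin'_mul]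
        rfl }
  refine ⟨n, ρ', ?_⟩
  funext g
  show LinearMap.trace ℂ (Fin n → ℂ) (Matrix.toLin' ((LinearMap.toMatrix' (ρ g)).map σ)) =
    σ (LinearMap.trace ℂ (Fin n → ℂ) (ρ g))
  rw [Matrix.trace_toLin'_eq]
  conv_rhs => rw [← Matrix.toLin'_toMatrix' (ρ g), Matrix.trace_toLin'_eq]
  exact (AddMonoidHom.map_trace σ.toAddMonoidHom _).symm

/-- Galois conjugation: `g ↦ χ (g ^ k)` is a character when `k` is coprime to `|G|`. -/
theorem isCharacter_comp_pow {G : Type*} [Group G] [Finite G] {χ : G → ℂ}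
    (hχ : IsCharacter G χ) (k : ℕ) (hk : k.Coprime (Nat.card G)) :
    IsCharacter G (fun g => χ (g ^ k)) := by
  have hN : 0 < Nat.card G := Nat.card_pos
  obtain ⟨ζ, hζ⟩ : ∃ ζ : ℂ, IsPrimitiveRoot ζ (Nat.card G) :=
    ⟨_, Complex.isPrimitiveRoot_exp _ hN.ne'⟩
  obtain ⟨σ, hσ⟩ := exists_ringEquiv_complex_pow (Nat.card G) k hN hk ζ hζ
  have h1 := isCharacter_ringHom_comp (σ : ℂ →+* ℂ) hχ
  have h2 : (fun g => (σ : ℂ →+* ℂ) (χ g)) = fun g => χ (g ^ k) := by
    funext g
    obtain ⟨d, hd⟩ := char_pow_expansion hχ g (Nat.card G) hN pow_card_eq_one' ζ hζ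
    have e1 := hd 1
    have ek := hd k
    rw [pow_one] at e1
    rw [e1, ek, map_sum]
    apply Finset.sum_congr rfl
    intro j _
    rw [map_mul, map_natCast, map_pow]
    have h3 : (σ : ℂ →+* ℂ) ζ = ζ ^ k := hσ
    rw [h3, mul_one, ← pow_mul, mul_comm k j]
  rw [← h2]
  exact h1

/-- Galois conjugation preserves irreducibility. -/
theorem isIrrCharacter_comp_pow {G : Type*} [Group G] [Fintype G] {χ : G → ℂ}
    (hχ : IsIrrCharacter G χ) (k : ℕ) (hk : k.Coprime (Nat.card G)) :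
    IsIrrCharacter G (fun g => χ (g ^ k)) := by
  apply Helper2.isIrrCharacter_of_norm_one (isCharacter_comp_pow (isCharacter_of_irr hχ) k hk)
  have h1 := Helper2.classInner_irr hχ hχ
  rw [if_pos rfl] at h1
  rw [← h1]
  unfold classInner
  congr 1
  exact Fintype.sum_equiv (powCoprime hk.symm) _ (fun g => χ g * conj (χ g)) (fun g => rfl)

/-- A conjugation identity for powers. -/
theorem conj_inv_pow {G : Type*} [Group G] (g m : G) (k : ℕ) :
    g * (g⁻¹ * m * g) ^ k * g⁻¹ = m ^ k := by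
  have h : g⁻¹ * m * g = g⁻¹ * m * g⁻¹⁻¹ := by rw [inv_inv]
  rw [h, conj_pow]
  group

end Cfsg.Agent.Helper24
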