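import Mathlib
import Cfsg.Agent.Helper24.InvCount
import Cfsg.Agent.Helper10.AbDual
import Cfsg.Agent.Helper21.Frattini
import Cfsg.Agent.Helper22.AutGen
import Cfsg.Agent.Lead.PGroup

set_option autoImplicit false

namespace Cfsg.Agent.Helper24

open Cfsg

attribute [local instance] signAction

/-- Homomorphisms to `ℂˣ` act on the irreducible characters by multiplication. -/
noncomputable def linAction (G : Type*) [Group G] [Fintype G] :
    MulAction (G →* ℂˣ) (IrrCharacter G) where
  smul μ χ := ⟨fun g => ((μ g : ℂˣ) : ℂ) * (χ : G → ℂ) g, isIrrCharacter_hom_mul μ χ.2⟩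
  one_smul χ := by
    apply Subtype.ext
    funext g
    show (((1 : G →* ℂˣ) g : ℂˣ) : ℂ) * (χ : G → ℂ) g = (χ : G → ℂ) g
    rw [MonoidHom.one_apply, Units.val_one, one_mul]
  mul_smul μ ν χ := by
    apply Subtype.ext
    funext g
    show (((μ * ν) g : ℂˣ) : ℂ) * (χ : G → ℂ) g
      = ((μ g : ℂˣ) : ℂ) * (((ν g : ℂˣ) : ℂ) * (χ : G → ℂ) g)
    rw [MonoidHom.mul_apply, Units.val_mul, mul_assoc]

attribute [local instance] linAction

theorem linAction_apply {G : Type*} [Group G] [Fintype G] (μ : G →* ℂˣ) (χ : IrrCharacter G)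
    (g : G) : ((μ • χ : IrrCharacter G) : G → ℂ) g = ((μ g : ℂˣ) : ℂ) * (χ : G → ℂ) g := rfl

/-- The homomorphisms to `ℂˣ` of exponent dividing four. -/
def homFour (G : Type*) [Group G] : Subgroup (G →* ℂˣ) where
  carrier := {μ | ∀ g : G, μ g ^ 4 = 1}
  mul_mem' := by
    intro μ ν hμ hν g
    have h1 : μ g ^ 4 = 1 := hμ g
    have h2 : ν g ^ 4 = 1 := hν g
    rw [MonoidHom.mul_apply, mul_pow, h1, h2, one_mul]
  one_mem' := by
    intro g
    rw [MonoidHom.one_apply, one_pow]
  inv_mem' := by
    intro μ hμ g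
    have h1 : μ g ^ 4 = 1 := hμ g
    rw [MonoidHom.inv_apply, inv_pow, h1, inv_one]

theorem mem_homFour {G : Type*} [Group G] (μ : G →* ℂˣ) :
    μ ∈ homFour G ↔ ∀ g : G, μ g ^ 4 = 1 := Iff.rfl

theorem hom_pow_apply {G : Type*} [Group G] (μ : G →* ℂˣ) (n : ℕ) (g : G) :
    (μ ^ n) g = μ g ^ n :=
  MonoidHom.pow_apply μ n g

/-- An irreducible character vanishing off a subgroup `W` forces `|G| ≤ |W| χ(1)²`. -/
theorem card_le_of_vanish {G : Type*} [Group G] [Fintype G] (χ : IrrCharacter G)
    (W : Subgroup G) (hvan : ∀ g : G, g ∉ W → (χ : G → ℂ) g = 0) :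
    Nat.card G ≤ Nat.card {g : G // g ∈ W} * charDegree (χ : G → ℂ) ^ 2 := by
  classical
  have hsum := irr_norm_sum χ.2
  have hle : ∀ g : G, ‖(χ : G → ℂ) g‖ ^ 2
      ≤ if g ∈ W then ((charDegree (χ : G → ℂ) : ℝ)) ^ 2 else 0 := by
    intro g
    split_ifs with h
    · have h5 := Helper25.char_norm_le (isCharacter_of_irr χ.2) g
      rw [charDegree_spec (isCharacter_of_irr χ.2)] at h5
      have h6 : ‖((charDegree (χ : G → ℂ) : ℕ) : ℂ)‖ = (charDegree (χ : G → ℂ) : ℝ) := by
        simp
      rw [h6] at h5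
      exact pow_le_pow_left₀ (norm_nonneg _) h5 2
    · rw [hvan g h]
      simp
  have h7 : (Nat.card G : ℝ)
      ≤ (Nat.card {g : G // g ∈ W} : ℝ) * (charDegree (χ : G → ℂ) : ℝ) ^ 2 := by
    rw [← hsum]
    calc ∑ g : G, ‖(χ : G → ℂ) g‖ ^ 2
        ≤ ∑ g : G, (if g ∈ W then ((charDegree (χ : G → ℂ) : ℝ)) ^ 2 else 0) :=
          Finset.sum_le_sum fun g _ => hle g
      _ = (Nat.card {g : G // g ∈ W} : ℝ) * (charDegree (χ : G → ℂ) : ℝ) ^ 2 := by
          rw [← Finset.sum_filter, Finset.sum_const, nsmul_eq_mul, Nat.card_eq_fintype_card,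
            Fintype.card_subtype]
  exact_mod_cast h7

/-- In a finite `2`-group with `|G : Φ(G)| = 4` admitting a linear character of order four,
the number of solutions of `x ^ 2 = 1` is divisible by four. -/
theorem four_dvd_sq_count {G : Type*} [Group G] [Finite G] (hG : IsPGroup 2 G)
    (hidx : (frattini G).index = 4) (lam : G →* ℂˣ) (hlam : ∀ g : G, lam g ^ 4 = 1)
    (x₀ : G) (hx₀ : lam (x₀ ^ 2) ≠ 1) :
    4 ∣ Nat.card {s : G // s * s = 1} := by
  classical
  haveI : Fact (Nat.Prime 2) := ⟨Nat.prime_two⟩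
  have := Fintype.ofFinite G
  have := finite_irrCharacter (G := G)
  have := Fintype.ofFinite (IrrCharacter G)
  have hΛfin : Finite (G →* ℤˣ) :=
    Finite.of_injective (fun f => (f : G → ℤˣ)) DFunLike.coe_injective
  haveI : Finite (G →* ℂˣ) := Helper10.finite_hom_units (Q := G)
  have hA := Helper25.sqrt_count (G := G) 1
  have hex : ∀ χ : IrrCharacter G, ∃ z : ℤ,
      (z : ℂ) = (Nat.card G : ℂ)⁻¹ * ∑ s : G, (χ : G → ℂ) (s * s) ∧
      ((∀ s : G, ((χ : G → ℂ) s).im = 0) → (z = 1 ∨ z = -1)) ∧
      (¬ (∀ s : G, ((χ : G → ℂ) s).im = 0) → z = 0) := by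
    intro χ
    have hfs := Helper25.fs_indicator χ.2
    by_cases hre : ∀ s : G, ((χ : G → ℂ) s).im = 0
    · rcases hfs.1 hre with h | h
      · exact ⟨1, by rw [h]; simp, fun _ => Or.inl rfl, fun h' => absurd hre h'⟩
      · exact ⟨-1, by rw [h]; simp, fun _ => Or.inr rfl, fun h' => absurd hre h'⟩
    · have hre' := hre
      push_neg at hre
      exact ⟨0, by rw [hfs.2 hre]; simp, fun h' => absurd h' hre', fun _ => rfl⟩
  choose e he hereal henonreal using hex
  have hN : (Nat.card {s : G // s * s = 1} : ℤ)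
      = ∑ χ : IrrCharacter G, e χ * (charDegree (χ : G → ℂ) : ℤ) := by
    have h1 : ((Nat.card {s : G // s * s = 1} : ℤ) : ℂ)
        = ((∑ χ : IrrCharacter G, e χ * (charDegree (χ : G → ℂ) : ℤ) : ℤ) : ℂ) := by
      push_cast
      rw [hA]
      refine Finset.sum_congr rfl fun χ _ => ?_
      rw [he χ, charDegree_spec (isCharacter_of_irr χ.2)]
    exact Int.cast_injective h1
  have hΛ2 : IsPGroup 2 (G →* ℤˣ) := by
    intro β
    refine ⟨1, ?_⟩
    rw [pow_one, pow_two]
    ext g
    simp [Int.units_mul_self]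
  obtain ⟨m, hm⟩ := IsPGroup.iff_card.mp hΛ2
  have hm2 : 2 ≤ m := by
    have h1 := card_quot_frattini_le_card_sign hG
    rw [← Subgroup.index_eq_card, hidx, hm] at h1
    have h1' : 2 ^ 2 ≤ 2 ^ m := by norm_num; exact h1
    exact (Nat.pow_le_pow_iff_right (by norm_num : 1 < 2)).mp h1'
  have hdeg2 : ∀ χ : IrrCharacter G, ∃ a, charDegree (χ : G → ℂ) = 2 ^ a := by
    intro χ
    obtain ⟨n, hn⟩ := IsPGroup.iff_card.mp hG
    have h1 := Helper2.irr_degree_dvd_card χ.2
    rw [hn] at h1
    obtain ⟨a, _, ha⟩ := (Nat.dvd_prime_pow Nat.prime_two).mp h1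
    exact ⟨a, ha⟩
  have hdsmul : ∀ (β : G →* ℤˣ) (χ : IrrCharacter G),
      charDegree ((β • χ : IrrCharacter G) : G → ℂ) = charDegree (χ : G → ℂ) := by
    intro β χ
    have h1 := charDegree_spec (isCharacter_of_irr (β • χ).2)
    have h2 := charDegree_spec (isCharacter_of_irr χ.2)
    have h3 : ((β • χ : IrrCharacter G) : G → ℂ) 1 = (χ : G → ℂ) 1 := by
      rw [signAction_apply]
      simp
    rw [h1, h2] at h3
    exact_mod_cast h3
  have hesmul : ∀ (β : G →* ℤˣ) (χ : IrrCharacter G), e (β • χ) = e χ := by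
    intro β χ
    apply Int.cast_injective (α := ℂ)
    rw [he, he]
    congr 1
    refine Finset.sum_congr rfl fun s _ => ?_
    rw [signAction_apply, map_mul, Int.units_mul_self]
    simp
  have hfixsmul : ∀ (l : G →* ℤˣ) (χ : IrrCharacter G),
      (∀ β : G →* ℤˣ, β • (l • χ) = l • χ) ↔ (∀ β : G →* ℤˣ, β • χ = χ) := by
    intro l χ
    constructor
    · intro h
      have h1 : l • χ = χ := by
        have h2 := h l⁻¹
        rw [inv_smul_smul] at h2
        exact h2.symm
      intro β
      have h3 := h β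
      rw [h1] at h3
      exact h3
    · intro h β
      rw [h l, h β]
  have hBdeg : ∀ χ : IrrCharacter G, (∀ β : G →* ℤˣ, β • χ = χ) →
      ∃ a, charDegree (χ : G → ℂ) = 2 ^ (a + 1) := by
    intro χ hfix
    obtain ⟨a, ha⟩ := hdeg2 χ
    have hstab : MulAction.stabilizer (G →* ℤˣ) χ = ⊤ := by
      rw [eq_top_iff]
      intro β _
      exact MulAction.mem_stabilizer_iff.2 (hfix β)
    have h1 := card_sign_stabilizer_le χ
    rw [hstab, Subgroup.card_top, hm, ha, ← pow_mul] at h1
    have h2 := (Nat.pow_le_pow_iff_right (by norm_num : 1 < 2)).mp h1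
    cases a with
    | zero => omega
    | succ a => exact ⟨a, ha⟩
  have hBvan : ∀ χ : IrrCharacter G, (∀ β : G →* ℤˣ, β • χ = χ) →
      ∀ g : G, g ∉ frattini G → (χ : G → ℂ) g = 0 := by
    intro χ hfix g hg
    obtain ⟨β, hβ⟩ := exists_sign_of_not_mem_frattini hG hg
    have hm1 : β g = -1 := (Int.units_eq_one_or _).resolve_left hβ
    have h3 := congrArg (fun ψ : IrrCharacter G => (ψ : G → ℂ) g) (hfix β)
    simp only [signAction_apply, hm1] at h3
    have h4 : (-1 : ℂ) * (χ : G → ℂ) g = (χ : G → ℂ) g := by simpa using h3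
    linear_combination (-1 / 2 : ℂ) * h4
  -- Part 1: the characters not fixed by all sign characters
  obtain ⟨g₁, hg₁⟩ : ∃ g₁ : IrrCharacter G → ℤ, ∀ χ, g₁ χ =
      if (∀ β : G →* ℤˣ, β • χ = χ) then 0
      else e χ * (charDegree (χ : G → ℂ) : ℤ) := ⟨_, fun _ => rfl⟩
  have hpart1 : (4 : ℤ) ∣ ∑ χ : IrrCharacter G, g₁ χ := by
    apply dvd_sum_of_orbit (Λ := G →* ℤˣ)
    · intro β χ
      rw [hg₁, hg₁, hdsmul, hesmul]
      exact if_congr (hfixsmul β χ) rfl rfl
    · intro χ
      by_cases hfix : ∀ β : G →* ℤˣ, β • χ = χ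
      · rw [hg₁, if_pos hfix, mul_zero]
        exact dvd_zero _
      · rw [hg₁, if_neg hfix]
        have hos : Nat.card (MulAction.orbit (G →* ℤˣ) χ)
            * Nat.card (MulAction.stabilizer (G →* ℤˣ) χ) = 2 ^ m := by
          rw [← hm, Nat.card_coe_set_eq, ← MulAction.index_stabilizer, mul_comm]
          exact Subgroup.card_mul_index _
        have hSle := card_sign_stabilizer_le χ
        obtain ⟨a, ha⟩ := hdeg2 χ
        obtain ⟨o, _, ho⟩ := (Nat.dvd_prime_pow Nat.prime_two).mp (Dvd.intro _ hos)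
        obtain ⟨s, _, hs⟩ := (Nat.dvd_prime_pow Nat.prime_two).mp (Dvd.intro_left _ hos)
        have hosm : o + s = m := by
          rw [ho, hs, ← pow_add] at hos
          exact Nat.pow_right_injective (le_refl 2) hos
        have hs2a : s ≤ 2 * a := by
          rw [hs, ha, ← pow_mul] at hSle
          have := (Nat.pow_le_pow_iff_right (by norm_num : 1 < 2)).mp hSle
          omega
        have ho1 : 1 ≤ o := by
          by_contra h0
          have ho0 : o = 0 := by omega
          rw [ho0, pow_zero] at ho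
          apply hfix
          have hst : MulAction.stabilizer (G →* ℤˣ) χ = ⊤ := by
            apply Subgroup.index_eq_one.1
            rw [MulAction.index_stabilizer, ← Nat.card_coe_set_eq]
            exact ho
          intro β
          have hβ : β ∈ MulAction.stabilizer (G →* ℤˣ) χ := by
            rw [hst]; exact Subgroup.mem_top β
          exact MulAction.mem_stabilizer_iff.1 hβ
        have hcore : 4
            ∣ Nat.card (MulAction.orbit (G →* ℤˣ) χ) * charDegree (χ : G → ℂ) := by
          rw [ho, ha, ← pow_add]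
          exact dvd_trans (by norm_num : (4 : ℕ) ∣ 2 ^ 2) (pow_dvd_pow 2 (by omega))
        have h1 : ((4 : ℤ))
            ∣ ((Nat.card (MulAction.orbit (G →* ℤˣ) χ) * charDegree (χ : G → ℂ) : ℕ) : ℤ) := by
          exact_mod_cast hcore
        have h2 : (Nat.card (MulAction.orbit (G →* ℤˣ) χ) : ℤ)
              * (e χ * (charDegree (χ : G → ℂ) : ℤ))
            = e χ * ((Nat.card (MulAction.orbit (G →* ℤˣ) χ)
                * charDegree (χ : G → ℂ) : ℕ) : ℤ) := by
          push_cast
          ring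
        rw [h2]
        exact Dvd.dvd.mul_left h1 _
  -- Part 2: comparison of the indicator with realness on the fixed characters
  have hpart2 : ∀ χ : IrrCharacter G, (4 : ℤ) ∣
      (if (∀ β : G →* ℤˣ, β • χ = χ) then e χ * (charDegree (χ : G → ℂ) : ℤ) else 0)
      - (if (∀ β : G →* ℤˣ, β • χ = χ) ∧ (∀ s : G, ((χ : G → ℂ) s).im = 0)
          then (charDegree (χ : G → ℂ) : ℤ) else 0) := by
    intro χ
    by_cases hfix : ∀ β : G →* ℤˣ, β • χ = χ
    · obtain ⟨a, ha⟩ := hBdeg χ hfix
      by_cases hre : ∀ s : G, ((χ : G → ℂ) s).im = 0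
      · rw [if_pos hfix, if_pos ⟨hfix, hre⟩, ha]
        rcases hereal χ hre with h | h
        · rw [h]
          simp
        · rw [h]
          push_cast
          exact ⟨-(2 ^ a), by ring⟩
      · rw [if_pos hfix, if_neg (fun h => hre h.2), henonreal χ hre]
        simp
    · rw [if_neg hfix, if_neg (fun h => hfix h.1)]
      simp
  -- Part 3: the fixed real characters, under the homomorphisms of exponent four
  have hL4 : IsPGroup 2 (homFour G) := by
    intro μ
    refine ⟨2, ?_⟩
    apply Subtype.ext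
    refine MonoidHom.ext fun g => ?_
    rw [Subgroup.coe_pow, hom_pow_apply, Subgroup.coe_one, MonoidHom.one_apply]
    exact (mem_homFour _).1 μ.2 g
  obtain ⟨k4, hk4⟩ := IsPGroup.iff_card.mp hL4
  have hlamL : lam ∈ homFour G := hlam
  have hPinv : ∀ (μ : homFour G) (χ : IrrCharacter G),
      ((∀ β : G →* ℤˣ, β • χ = χ) ∧ (∀ s : G, ((χ : G → ℂ) s).im = 0)) →
      ((∀ β : G →* ℤˣ, β • (μ • χ) = μ • χ)
        ∧ (∀ s : G, (((μ • χ : IrrCharacter G) : G → ℂ) s).im = 0)) := by
    intro μ χ hP
    obtain ⟨hfix, hre⟩ := hP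
    have hcomm : ∀ β : G →* ℤˣ, β • (μ • χ) = μ • (β • χ) := by
      intro β
      apply Subtype.ext
      funext g
      show (((β g : ℤˣ) : ℤ) : ℂ) * ((((μ : G →* ℂˣ) g : ℂˣ) : ℂ) * (χ : G → ℂ) g)
        = (((μ : G →* ℂˣ) g : ℂˣ) : ℂ) * ((((β g : ℤˣ) : ℤ) : ℂ) * (χ : G → ℂ) g)
      ring
    refine ⟨fun β => by rw [hcomm β, hfix β], ?_⟩
    intro s
    show ((((μ : G →* ℂˣ) s : ℂˣ) : ℂ) * (χ : G → ℂ) s).im = 0
    by_cases hs : s ∈ frattini G
    · have hker : frattini G ≤ ((μ : G →* ℂˣ) * (μ : G →* ℂˣ)).ker := by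
        apply Helper21.frattini_le_of_sq_mem
        intro x
        rw [MonoidHom.mem_ker, MonoidHom.mul_apply, map_pow, ← pow_two, ← pow_mul]
        exact (mem_homFour _).1 μ.2 x
      have h1 := hker hs
      rw [MonoidHom.mem_ker, MonoidHom.mul_apply] at h1
      have h2 : (((μ : G →* ℂˣ) s : ℂˣ) : ℂ) * (((μ : G →* ℂˣ) s : ℂˣ) : ℂ) = 1 := by
        rw [← Units.val_mul, h1, Units.val_one]
      rcases mul_self_eq_one_iff.1 h2 with h | h
      · rw [h, one_mul]
        exact hre s
      · rw [h, neg_one_mul, Complex.neg_im, hre s, neg_zero]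
    · rw [hBvan χ hfix s hs, mul_zero]
      exact Complex.zero_im
  have hPiff : ∀ (μ : homFour G) (χ : IrrCharacter G),
      ((∀ β : G →* ℤˣ, β • (μ • χ) = μ • χ)
        ∧ (∀ s : G, (((μ • χ : IrrCharacter G) : G → ℂ) s).im = 0)) ↔
      ((∀ β : G →* ℤˣ, β • χ = χ) ∧ (∀ s : G, ((χ : G → ℂ) s).im = 0)) := by
    intro μ χ
    constructor
    · intro h
      have h1 := hPinv μ⁻¹ (μ • χ) h
      rw [inv_smul_smul] at h1
      exact h1
    · exact hPinv μ χ
  have hdlin : ∀ (μ : homFour G) (χ : IrrCharacter G),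
      charDegree ((μ • χ : IrrCharacter G) : G → ℂ) = charDegree (χ : G → ℂ) := by
    intro μ χ
    have h3 : ((μ • χ : IrrCharacter G) : G → ℂ) 1 = (χ : G → ℂ) 1 := by
      show (((μ : G →* ℂˣ) 1 : ℂˣ) : ℂ) * (χ : G → ℂ) 1 = (χ : G → ℂ) 1
      rw [map_one, Units.val_one, one_mul]
    rw [charDegree_spec (isCharacter_of_irr (μ • χ).2),
      charDegree_spec (isCharacter_of_irr χ.2)] at h3
    exact_mod_cast h3
  obtain ⟨g₃, hg₃⟩ : ∃ g₃ : IrrCharacter G → ℤ, ∀ χ, g₃ χ =
      if (∀ β : G →* ℤˣ, β • χ = χ) ∧ (∀ s : G, ((χ : G → ℂ) s).im = 0)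
      then (charDegree (χ : G → ℂ) : ℤ) else 0 := ⟨_, fun _ => rfl⟩
  have hpart3 : (4 : ℤ) ∣ ∑ χ : IrrCharacter G, g₃ χ := by
    apply dvd_sum_of_orbit (Λ := homFour G)
    · intro μ χ
      rw [hg₃, hg₃, hdlin]
      exact if_congr (hPiff μ χ) rfl rfl
    · intro χ
      by_cases hP : (∀ β : G →* ℤˣ, β • χ = χ) ∧ (∀ s : G, ((χ : G → ℂ) s).im = 0)
      · rw [hg₃, if_pos hP]
        obtain ⟨a, ha⟩ := hBdeg χ hP.1
        rcases Nat.eq_zero_or_pos a with ha0 | hapos
        · have hd2 : charDegree (χ : G → ℂ) = 2 := by rw [ha, ha0]; norm_num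
          have hne : (⟨lam, hlamL⟩ : homFour G) • χ ≠ χ := by
            intro hfixlam
            have hvanW : ∀ g : G, g ∉ frattini G ⊓ lam.ker → (χ : G → ℂ) g = 0 := by
              intro g hg
              by_cases hgΦ : g ∈ frattini G
              · have hgk : g ∉ lam.ker := fun h => hg ⟨hgΦ, h⟩
                have h4 : ((lam g : ℂˣ) : ℂ) * (χ : G → ℂ) g = (χ : G → ℂ) g :=
                  congrArg (fun ψ : IrrCharacter G => (ψ : G → ℂ) g) hfixlam
                have h5 : ((lam g : ℂˣ) : ℂ) ≠ 1 := by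
                  intro h
                  apply hgk
                  rw [MonoidHom.mem_ker]
                  exact Units.ext h
                have h6 : (((lam g : ℂˣ) : ℂ) - 1) * (χ : G → ℂ) g = 0 := by
                  linear_combination h4
                rcases mul_eq_zero.1 h6 with h | h
                · exact absurd (sub_eq_zero.1 h) h5
                · exact h
              · exact hBvan χ hP.1 g hgΦ
            have hcard := card_le_of_vanish χ (frattini G ⊓ lam.ker) hvanW
            rw [hd2] at hcard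
            have hWle : frattini G ⊓ lam.ker ≤ frattini G := inf_le_left
            have hrel := Subgroup.relIndex_mul_index hWle
            rw [hidx] at hrel
            have hr1 : (frattini G ⊓ lam.ker).relIndex (frattini G) ≠ 1 := by
              intro h
              have hle : frattini G ≤ frattini G ⊓ lam.ker := Subgroup.relIndex_eq_one.1 h
              have hx : x₀ ^ 2 ∈ frattini G := Cfsg.Agent.Lead.pow_mem_frattini hG x₀
              exact hx₀ (MonoidHom.mem_ker.1 (hle hx).2)
            have hWi : (frattini G ⊓ lam.ker).index ≠ 0 := Subgroup.index_ne_zero_of_finite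
            have hW := Subgroup.card_mul_index (frattini G ⊓ lam.ker)
            have hWpos : 0 < Nat.card (frattini G ⊓ lam.ker : Subgroup G) := Nat.card_pos
            have hr2 : 2 ≤ (frattini G ⊓ lam.ker).relIndex (frattini G) := by omega
            have h8 : Nat.card (frattini G ⊓ lam.ker : Subgroup G) * 8 ≤ Nat.card G := by
              rw [← hW, ← hrel]
              calc Nat.card (frattini G ⊓ lam.ker : Subgroup G) * 8
                  = Nat.card (frattini G ⊓ lam.ker : Subgroup G) * (2 * 4) := by norm_num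
                _ ≤ Nat.card (frattini G ⊓ lam.ker : Subgroup G)
                    * ((frattini G ⊓ lam.ker).relIndex (frattini G) * 4) :=
                  Nat.mul_le_mul_left _ (Nat.mul_le_mul_right 4 hr2)
            have hcard' : Nat.card G ≤ Nat.card (frattini G ⊓ lam.ker : Subgroup G) * 4 := by
              have h9 : (2 : ℕ) ^ 2 = 4 := by norm_num
              rw [h9] at hcard
              exact hcard
            omega
          have hstab : MulAction.stabilizer (homFour G) χ ≠ ⊤ := by
            intro h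
            apply hne
            have hmem : (⟨lam, hlamL⟩ : homFour G) ∈ MulAction.stabilizer (homFour G) χ := by
              rw [h]; exact Subgroup.mem_top _
            exact MulAction.mem_stabilizer_iff.1 hmem
          have h1 : (MulAction.stabilizer (homFour G) χ).index ∣ 2 ^ k4 := by
            rw [← hk4]
            exact Subgroup.index_dvd_card _
          obtain ⟨j, -, hj⟩ := (Nat.dvd_prime_pow Nat.prime_two).1 h1
          have hj0 : j ≠ 0 := by
            rintro rfl
            rw [pow_zero] at hj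
            exact hstab (Subgroup.index_eq_one.1 hj)
          have h2 : 2 ∣ Nat.card (MulAction.orbit (homFour G) χ) := by
            rw [Nat.card_coe_set_eq, ← MulAction.index_stabilizer, hj]
            exact dvd_pow_self 2 hj0
          rw [hd2]
          obtain ⟨c, hc⟩ := h2
          rw [hc]
          push_cast
          exact ⟨c, by ring⟩
        · rw [ha]
          obtain ⟨a', rfl⟩ : ∃ a', a = a' + 1 := ⟨a - 1, by omega⟩
          exact Dvd.dvd.mul_left ⟨2 ^ a', by push_cast; ring⟩ _
      · rw [hg₃, if_neg hP, mul_zero]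
        exact dvd_zero _
  have hfinal : (4 : ℤ) ∣ ∑ χ : IrrCharacter G, e χ * (charDegree (χ : G → ℂ) : ℤ) := by
    have hsplit : ∑ χ : IrrCharacter G, e χ * (charDegree (χ : G → ℂ) : ℤ)
        = ∑ χ : IrrCharacter G, g₁ χ + ∑ χ : IrrCharacter G, g₃ χ
          + ∑ χ : IrrCharacter G,
            ((if (∀ β : G →* ℤˣ, β • χ = χ) then e χ * (charDegree (χ : G → ℂ) : ℤ) else 0)
            - (if (∀ β : G →* ℤˣ, β • χ = χ) ∧ (∀ s : G, ((χ : G → ℂ) s).im = 0)
                then (charDegree (χ : G → ℂ) : ℤ) else 0)) := by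
      rw [← Finset.sum_add_distrib, ← Finset.sum_add_distrib]
      refine Finset.sum_congr rfl fun χ _ => ?_
      rw [hg₁, hg₃]
      by_cases hfix : ∀ β : G →* ℤˣ, β • χ = χ
      · rw [if_pos hfix, if_pos hfix]
        ring
      · rw [if_neg hfix, if_neg hfix, if_neg (fun h => hfix h.1)]
        ring
    rw [hsplit]
    exact dvd_add (dvd_add hpart1 hpart3) (Finset.dvd_sum fun χ _ => hpart2 χ)
  have hcast : ((4 : ℕ) : ℤ) ∣ (Nat.card {s : G // s * s = 1} : ℤ) := by
    rw [hN]
    exact_mod_cast hfinal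
  exact Int.natCast_dvd_natCast.mp hcast

/-- A finite `2`-group whose number of involutions is `1` modulo `4` is cyclic or has
commutator subgroup of index `4`. -/
theorem cyclic_or_index_four_of_involutions {G : Type*} [Group G] [Finite G]
    (hG : IsPGroup 2 G) (ht : Nat.card {x : G // orderOf x = 2} % 4 = 1) :
    IsCyclic G ∨ (commutator G).index = 4 := by
  classical
  haveI : Fact (Nat.Prime 2) := ⟨Nat.prime_two⟩
  have := Fintype.ofFinite G
  have hcount : Nat.card {s : G // s * s = 1} = Nat.card {x : G // orderOf x = 2} + 1 := by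
    rw [Nat.card_eq_fintype_card, Nat.card_eq_fintype_card, Fintype.card_subtype,
      Fintype.card_subtype]
    have hset : (Finset.univ.filter (fun s : G => s * s = 1))
        = insert 1 (Finset.univ.filter (fun x : G => orderOf x = 2)) := by
      ext s
      simp only [Finset.mem_filter, Finset.mem_univ, true_and, Finset.mem_insert]
      constructor
      · intro h
        by_cases h1 : s = 1
        · exact Or.inl h1
        · exact Or.inr (orderOf_eq_prime (by rw [pow_two]; exact h) h1)
      · rintro (rfl | h)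
        · exact one_mul 1
        · have h2 := pow_orderOf_eq_one s
          rw [h, pow_two] at h2
          exact h2
    rw [hset, Finset.card_insert_of_notMem]
    simp
  have hN4 : ¬ 4 ∣ Nat.card {s : G // s * s = 1} := by
    rw [hcount]
    omega
  have hQ : IsPGroup 2 (G ⧸ frattini G) := hG.to_quotient (frattini G)
  obtain ⟨r, hr⟩ := IsPGroup.iff_card.mp hQ
  have hidx : (frattini G).index = 2 ^ r := by
    rw [Subgroup.index_eq_card]; exact hr
  have hr2 : r ≤ 2 := by
    by_contra hlt
    push_neg at hlt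
    apply hN4
    have h1 := involution_count_dvd hG 1 (by
      rw [hr]
      exact Nat.pow_le_pow_right (by norm_num) (by omega))
    have hcard : Nat.card {x : G // x ^ 2 = 1} = Nat.card {s : G // s * s = 1} := by
      simp only [pow_two]
    have h4 : (2 : ℕ) ^ (1 + 1) = 4 := by norm_num
    rw [hcard, h4] at h1
    exact h1
  rcases (by omega : r ≤ 1 ∨ r = 2) with hr1 | hr2'
  · left
    obtain ⟨T, hT1, hT2⟩ := Cfsg.Agent.Helper22.exists_gen_of_frattini_index hG hidx
    rcases Nat.lt_or_ge T.card 1 with h0 | h1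
    · have hT0 : T = ∅ := Finset.card_eq_zero.1 (by omega)
      rw [hT0, Finset.coe_empty, Subgroup.closure_empty] at hT2
      exact isCyclic_iff_exists_zpowers_eq_top.2 ⟨1, by
        rw [Subgroup.zpowers_one_eq_bot]; exact hT2⟩
    · obtain ⟨x, hx⟩ := Finset.card_eq_one.1 (by omega : T.card = 1)
      rw [hx, Finset.coe_singleton, ← Subgroup.zpowers_eq_closure] at hT2
      exact isCyclic_iff_exists_zpowers_eq_top.2 ⟨x, hT2⟩
  · have hidx4 : (frattini G).index = 4 := by
      rw [hidx, hr2']; norm_num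
    by_cases hsq : ∀ x : G, x ^ 2 ∈ commutator G
    · right
      have h1 : frattini G ≤ commutator G :=
        Cfsg.Agent.Helper21.frattini_le_of_sq_mem (commutator G) hsq
      have h2 : commutator G ≤ frattini G := Cfsg.Agent.Lead.commutator_le_frattini hG
      rw [le_antisymm h2 h1]
      exact hidx4
    · exfalso
      push_neg at hsq
      obtain ⟨x, hx⟩ := hsq
      have hne : Abelianization.of (x ^ 2) ≠ 1 := by
        intro h
        apply hx
        rw [← Abelianization.ker_of, MonoidHom.mem_ker]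
        exact h
      obtain ⟨l, hl⟩ := Helper10.exists_hom_ne_one (Q := Abelianization G)
        (fun a b => mul_comm a b) hne
      obtain ⟨lam₀, hlam₀⟩ : ∃ lam₀ : G →* ℂˣ, lam₀ (x ^ 2) ≠ 1 :=
        ⟨l.comp Abelianization.of, hl⟩
      haveI : Finite (G →* ℂˣ) := Helper10.finite_hom_units (Q := G)
      obtain ⟨n, hn⟩ := IsPGroup.iff_card.mp hG
      have hord : orderOf lam₀ ∣ 2 ^ n := by
        rw [← hn]
        apply orderOf_dvd_of_pow_eq_one
        refine MonoidHom.ext fun g => ?_
        rw [hom_pow_apply, ← map_pow, pow_card_eq_one', map_one, MonoidHom.one_apply]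
      obtain ⟨k, -, hk⟩ := (Nat.dvd_prime_pow Nat.prime_two).1 hord
      have hsq0 : lam₀ ^ 2 ≠ 1 := by
        intro h
        apply hlam₀
        have h1 := congrArg (fun μ : G →* ℂˣ => μ x) h
        simp only [hom_pow_apply, MonoidHom.one_apply] at h1
        rw [map_pow]
        exact h1
      have hk2 : 2 ≤ k := by
        by_contra hlt
        push_neg at hlt
        apply hsq0
        apply orderOf_dvd_iff_pow_eq_one.1
        rw [hk]
        have hk1 : k ≤ 1 := by omega
        calc 2 ^ k ∣ 2 ^ 1 := pow_dvd_pow 2 hk1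
          _ = 2 := pow_one 2
      have hlam4 : ∀ g : G, (lam₀ ^ 2 ^ (k - 2)) g ^ 4 = 1 := by
        intro g
        rw [hom_pow_apply, ← pow_mul]
        have h1 : 2 ^ (k - 2) * 4 = 2 ^ k := by
          have h2 : 2 ^ k = 2 ^ (k - 2) * 2 ^ 2 := by
            rw [← pow_add]
            congr 1
            omega
          rw [h2]
          norm_num
        rw [h1, ← hom_pow_apply, ← hk, pow_orderOf_eq_one, MonoidHom.one_apply]
      have hlamsq : (lam₀ ^ 2 ^ (k - 2)) ^ 2 ≠ 1 := by
        intro h
        rw [← pow_mul] at h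
        have h1 : 2 ^ (k - 2) * 2 = 2 ^ (k - 1) := by
          have h2 : k - 1 = (k - 2) + 1 := by omega
          rw [h2, pow_succ]
        rw [h1] at h
        have h3 := orderOf_dvd_of_pow_eq_one h
        rw [hk] at h3
        have h4 := (Nat.pow_dvd_pow_iff_le_right (by norm_num : 1 < 2)).1 h3
        omega
      obtain ⟨x₁, hx₁⟩ : ∃ x₁ : G, (lam₀ ^ 2 ^ (k - 2)) (x₁ ^ 2) ≠ 1 := by
        by_contra hcon
        push_neg at hcon
        apply hlamsq
        refine MonoidHom.ext fun g => ?_
        rw [hom_pow_apply, ← map_pow, hcon g, MonoidHom.one_apply]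
      exact hN4 (four_dvd_sq_count hG hidx4 (lam₀ ^ 2 ^ (k - 2)) hlam4 x₁ hx₁)

end Cfsg.Agent.Helper24
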