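import Mathlib

set_option autoImplicit false

namespace Cfsg.Agent.Helper24

open scoped Pointwise

/-- An involution `d` normalizing a normal subgroup `N` of odd order normalizes some
Sylow `q`-subgroup of `N`. -/
theorem exists_inv_sylow {G : Type*} [Group G] [Finite G] (N : Subgroup G) [N.Normal]
    (hodd : Odd (Nat.card N)) (d : G) (hd : d * d = 1) (q : ℕ) [Fact q.Prime] :
    ∃ Q : Sylow q ↥N, ∀ y : ↥N, y ∈ Q → MulAut.conjNormal d y ∈ Q := by
  classical
  set τ : MulAut ↥N := MulAut.conjNormal d with hτ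
  have hτ2 : τ ^ 2 = 1 := by
    rw [hτ, ← map_pow, pow_two, hd, map_one]
  have hZ : IsPGroup 2 (Subgroup.zpowers τ) := by
    have h1 : orderOf τ ∣ 2 := orderOf_dvd_of_pow_eq_one hτ2
    have h2 : Nat.card (Subgroup.zpowers τ) = orderOf τ := Nat.card_zpowers τ
    rcases (Nat.dvd_prime Nat.prime_two).1 h1 with h | h
    · exact IsPGroup.of_card (n := 0) (by rw [h2, h]; rfl)
    · exact IsPGroup.of_card (n := 1) (by rw [h2, h]; rfl)
  haveI : Fact (Nat.Prime 2) := ⟨Nat.prime_two⟩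
  have hnd : ¬ 2 ∣ Nat.card (Sylow q ↥N) := by
    intro h2
    have h3 : Nat.card (Sylow q ↥N) ∣ Nat.card ↥N := by
      obtain Q : Sylow q ↥N := default
      exact (Sylow.card_dvd_index Q).trans (Subgroup.index_dvd_card _)
    exact (Nat.not_even_iff_odd.2 hodd) (even_iff_two_dvd.2 (h2.trans h3))
  obtain ⟨Q, hQ⟩ := hZ.nonempty_fixed_point_of_prime_not_dvd_card (Sylow q ↥N) hnd
  refine ⟨Q, fun y hy => ?_⟩
  have h1 : (⟨τ, Subgroup.mem_zpowers τ⟩ : Subgroup.zpowers τ) • Q = Q := hQ _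
  have h2 : τ • (Q : Subgroup ↥N) = Q := by
    have := congrArg Sylow.toSubgroup h1
    exact this
  have h3 : τ • y ∈ τ • (Q : Subgroup ↥N) := Subgroup.smul_mem_pointwise_smul y τ _ hy
  rw [h2] at h3
  exact h3

end Cfsg.Agent.Helper24
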