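import Mathlib
import Cfsg.Prelude.Def_JordanBlocks
import Cfsg.Prelude.Def_Classical
import Cfsg.Prelude.Def_ClassicalGeometry
import Cfsg.Agent.S2582
import Cfsg.Agent.S2585

set_option autoImplicit false

open Matrix

namespace Cfsg.Agent.Helper24

/-- Backward direction of the characteristic-two orthogonal Jordan-type criterion, from the
symplectic criterion and the fact that every symplectic matrix in characteristic two preserves
a quadratic form with the standard polar form. -/
theorem s2584_bwd {F : Type*} [Field F] [Fintype F] [CharP F 2] {m t : ℕ} (d : Fin t → ℕ)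
    (hd : ∀ k, 1 ≤ d k) (hsum : ∑ k, d k = 2 * m)
    (h : ∀ j : ℕ, Odd j → Even (Finset.univ.filter (fun k : Fin t => d k = j)).card) :
    ∃ Q : QuadraticForm F (Fin (2 * m) → F), (QuadraticMap.polarBilin Q).Nondegenerate ∧
      ∃ e : ((k : Fin t) × Fin (d k)) ≃ Fin (2 * m), ∃ A : ↥(Cfsg.isometryGroup F ⇑Q),
        IsConj (Matrix.reindex e e (Cfsg.jordanTypeMatrix d F))
          ((A : Matrix.GeneralLinearGroup (Fin (2 * m)) F) :
            Matrix (Fin (2 * m)) (Fin (2 * m)) F) := by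
  classical
  obtain ⟨e₀, B, hconj⟩ := (Cfsg.Agent.S2582.result (F := F) d hd hsum).mpr h
  obtain ⟨Q₀, hpol, hinv⟩ := Cfsg.Agent.S2585.result B
  obtain ⟨σ⟩ : Nonempty (Fin m ⊕ Fin m ≃ Fin (2 * m)) :=
    ⟨finSumFinEquiv.trans (finCongr (two_mul m).symm)⟩
  obtain ⟨L, hL⟩ : ∃ L : (Fin (2 * m) → F) →ₗ[F] (Fin m ⊕ Fin m → F), ∀ v, L v = v ∘ σ :=
    ⟨LinearMap.funLeft F F σ, fun v => rfl⟩
  have hJdet : (Matrix.J (Fin m) F).det ≠ 0 := by
    intro h0
    have h1 := Matrix.J_det_mul_J_det (Fin m) F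
    rw [h0, mul_zero] at h1
    exact zero_ne_one h1
  have hpolar : ∀ u v : Fin (2 * m) → F, QuadraticMap.polar ⇑(Q₀.comp L) u v
      = (L u) ⬝ᵥ (Matrix.J (Fin m) F *ᵥ (L v)) := by
    intro u v
    have h1 := hpol (L u) (L v)
    rw [Cfsg.sympForm] at h1
    rw [← h1]
    simp only [QuadraticMap.polar, QuadraticMap.comp_apply, map_add]
  have hright : ∀ v : Fin (2 * m) → F,
      (∀ u, QuadraticMap.polar ⇑(Q₀.comp L) u v = 0) → v = 0 := by
    intro v hv
    have h1 : Matrix.J (Fin m) F *ᵥ (L v) = 0 := by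
      funext i
      have h2 := hv ((Pi.single i (1 : F) : Fin m ⊕ Fin m → F) ∘ σ.symm)
      rw [hpolar] at h2
      have h3 : L ((Pi.single i (1 : F) : Fin m ⊕ Fin m → F) ∘ σ.symm) = Pi.single i (1 : F) := by
        rw [hL]
        funext x
        simp
      rw [h3, single_one_dotProduct] at h2
      exact h2
    have h4 : L v = 0 := Matrix.eq_zero_of_mulVec_eq_zero hJdet h1
    funext j
    have h5 := congrFun h4 (σ.symm j)
    rw [hL] at h5
    simpa using h5
  refine ⟨Q₀.comp L, ?_, e₀.trans σ, ?_⟩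
  · constructor
    · intro u hu
      apply hright u
      intro w
      rw [QuadraticMap.polar_comm]
      have := hu w
      rwa [QuadraticMap.polarBilin_apply_apply] at this
    · intro v hv
      apply hright v
      intro w
      have := hv w
      rwa [QuadraticMap.polarBilin_apply_apply] at this
  · have hdetB : IsUnit (Matrix.reindex σ σ (B : Matrix (Fin m ⊕ Fin m) (Fin m ⊕ Fin m) F)).det := by
      rw [Matrix.det_reindex_self]
      exact SymplecticGroup.symplectic_det B.2
    have hmem : Matrix.GeneralLinearGroup.mk''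
        (Matrix.reindex σ σ (B : Matrix (Fin m ⊕ Fin m) (Fin m ⊕ Fin m) F)) hdetB
          ∈ Cfsg.isometryGroup F ⇑(Q₀.comp L) := by
      intro u v
      show (Q₀.comp L) ((Matrix.reindex σ σ (B : Matrix (Fin m ⊕ Fin m) (Fin m ⊕ Fin m) F)) *ᵥ u)
        = (Q₀.comp L) u
      rw [QuadraticMap.comp_apply, QuadraticMap.comp_apply]
      have h6 : L ((Matrix.reindex σ σ (B : Matrix (Fin m ⊕ Fin m) (Fin m ⊕ Fin m) F)) *ᵥ u)
          = (B : Matrix (Fin m ⊕ Fin m) (Fin m ⊕ Fin m) F) *ᵥ (L u) := by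
        rw [hL, hL]
        funext x
        simp [Matrix.reindex_apply, Matrix.submatrix_mulVec_equiv]
      rw [h6, hinv]
    refine ⟨⟨_, hmem⟩, ?_⟩
    have h7 := MonoidHom.map_isConj
      ((Matrix.reindexAlgEquiv F F σ).toRingEquiv.toMonoidHom) hconj
    exact h7

end Cfsg.Agent.Helper24
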