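import Cfsg.Agent.Helper24.PermChar2
import Cfsg.Agent.Helper24.Schur
import Cfsg.Agent.Helper2.CharRep
import Cfsg.Prelude.Def_Perm

set_option autoImplicit false

namespace Cfsg.Agent.Helper24

open Cfsg

/-- The trace of an endomorphism of a coordinate space as the sum of its diagonal entries. -/
theorem trace_pi_eq {ι : Type*} [Fintype ι] [DecidableEq ι] (F : Module.End ℂ (ι → ℂ)) :
    LinearMap.trace ℂ (ι → ℂ) F = ∑ i : ι, F (Pi.single i 1) i := by
  rw [LinearMap.trace_eq_matrix_trace ℂ (Pi.basisFun ℂ ι), Matrix.trace]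
  refine Finset.sum_congr rfl fun i _ => ?_
  rw [Matrix.diag_apply, LinearMap.toMatrix_apply, Pi.basisFun_repr, Pi.basisFun_apply]

/-- Membership in the invariants of `linHom` as an intertwining condition. -/
theorem mem_linHom_inv {G V W : Type*} [Group G] [AddCommGroup V] [Module ℂ V]
    [AddCommGroup W] [Module ℂ W] (ρ : Representation ℂ G V) (σ : Representation ℂ G W)
    (f : V →ₗ[ℂ] W) :
    f ∈ (ρ.linHom σ).invariants ↔ ∀ (g : G) (v : V), f (ρ g v) = σ g (f v) := by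
  constructor
  · intro h
    exact ((Representation.mem_linHom_invariants_iff_isIntertwining f).mp h).isIntertwining
  · intro h
    exact (Representation.mem_linHom_invariants_iff_isIntertwining f).mpr ⟨h⟩

section MultFree

variable {G : Type*} [Group G] [Fintype G]

/-- The sum of the conjugates of a linear map is an intertwining map. -/
theorem avg_intertwine {X Y : Type*} [AddCommGroup X] [Module ℂ X] [AddCommGroup Y]
    [Module ℂ Y] (ρX : Representation ℂ G X) (ρY : Representation ℂ G Y) (L : X →ₗ[ℂ] Y)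
    (h : G) (x : X) :
    (∑ g : G, ρY g ∘ₗ L ∘ₗ ρX g⁻¹) (ρX h x) = ρY h ((∑ g : G, ρY g ∘ₗ L ∘ₗ ρX g⁻¹) x) := by
  rw [LinearMap.sum_apply, LinearMap.sum_apply, map_sum]
  refine Fintype.sum_equiv (Equiv.mulLeft h⁻¹) _ _ (fun g => ?_)
  show ρY g (L (ρX g⁻¹ (ρX h x))) = ρY h (ρY (h⁻¹ * g) (L (ρX (h⁻¹ * g)⁻¹ x)))
  rw [← Module.End.mul_apply, ← map_mul, ← Module.End.mul_apply (ρY h), ← map_mul,
    mul_inv_cancel_left, mul_inv_rev, inv_inv]

/-- The inner product of two characters is the dimension of the space of intertwining maps. -/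
theorem inner_eq_finrank_hom {V W : Type*} [AddCommGroup V] [Module ℂ V]
    [FiniteDimensional ℂ V] [AddCommGroup W] [Module ℂ W] [FiniteDimensional ℂ W]
    (ρ : Representation ℂ G V) (σ : Representation ℂ G W) :
    classInner ρ.character σ.character
      = (Module.finrank ℂ ((σ.linHom ρ).invariants) : ℂ) := by
  have hne : (Nat.card G : ℂ) ≠ 0 := by exact_mod_cast Nat.card_pos.ne'
  have : Invertible (Nat.card G : ℂ) := invertibleOfNonzero hne
  rw [← Representation.card_inv_mul_sum_char_eq_finrank]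
  unfold classInner
  congr 1
  refine Finset.sum_congr rfl fun g _ => ?_
  rw [Representation.char_linHom, ← char_inv (Helper2.isCharacter_of_rep σ) g, mul_comm]

set_option maxHeartbeats 1600000 in
/-- A finite-dimensional complex representation is multiplicity-free exactly when its
centraliser algebra is commutative. -/
theorem mult_free_iff_comm {V : Type*} [AddCommGroup V] [Module ℂ V] [FiniteDimensional ℂ V]
    (ρ : Representation ℂ G V) :
    (∀ χ : G → ℂ, IsIrrCharacter G χ →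
      classInner ρ.character χ = 0 ∨ classInner ρ.character χ = 1) ↔
    ∀ S T : V →ₗ[ℂ] V, S ∈ (ρ.linHom ρ).invariants → T ∈ (ρ.linHom ρ).invariants →
      S ∘ₗ T = T ∘ₗ S := by
  have hGne : (Nat.card G : ℂ) ≠ 0 := by exact_mod_cast Nat.card_pos.ne'
  constructor
  · intro hmf S T hS hT
    have hS' := (mem_linHom_inv ρ ρ S).mp hS
    have hT' := (mem_linHom_inv ρ ρ T).mp hT
    have hkey : ∀ (n : ℕ) (σ : Representation ℂ G (Fin n → ℂ)), σ.IsIrreducible →
        ∀ A : (Fin n → ℂ) →ₗ[ℂ] V, A ∈ (σ.linHom ρ).invariants →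
        ∀ w : Fin n → ℂ, S (T (A w)) = T (S (A w)) := by
      intro n σ hirr A hA w
      have hfin := inner_eq_finrank_hom ρ σ
      have h01 := hmf σ.character ⟨n, σ, hirr, rfl⟩
      have hle : Module.finrank ℂ ((σ.linHom ρ).invariants) ≤ 1 := by
        rcases h01 with h | h
        · rw [hfin] at h
          have h' : Module.finrank ℂ ((σ.linHom ρ).invariants) = 0 := by exact_mod_cast h
          omega
        · rw [hfin] at h
          have h' : Module.finrank ℂ ((σ.linHom ρ).invariants) = 1 := by exact_mod_cast h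
          omega
      obtain ⟨A₀, hA₀⟩ := finrank_le_one_iff.mp hle
      have hSA : ∀ B : (Fin n → ℂ) →ₗ[ℂ] V, B ∈ (σ.linHom ρ).invariants →
          ∀ R : V →ₗ[ℂ] V, (∀ (g : G) (v : V), R (ρ g v) = ρ g (R v)) →
          R ∘ₗ B ∈ (σ.linHom ρ).invariants := by
        intro B hB R hR
        rw [mem_linHom_inv] at hB ⊢
        intro g v
        show R (B (σ g v)) = ρ g (R (B v))
        rw [hB g v, hR g (B v)]
      obtain ⟨s, hs⟩ := hA₀ ⟨S ∘ₗ (A₀ : (Fin n → ℂ) →ₗ[ℂ] V), hSA _ A₀.2 S hS'⟩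
      obtain ⟨t, ht⟩ := hA₀ ⟨T ∘ₗ (A₀ : (Fin n → ℂ) →ₗ[ℂ] V), hSA _ A₀.2 T hT'⟩
      obtain ⟨c, hc⟩ := hA₀ ⟨A, hA⟩
      have hs' : ∀ x : Fin n → ℂ, S ((A₀ : (Fin n → ℂ) →ₗ[ℂ] V) x)
          = s • (A₀ : (Fin n → ℂ) →ₗ[ℂ] V) x := by
        intro x
        have h := congrArg
          (fun F : ↥((σ.linHom ρ).invariants) => (F : (Fin n → ℂ) →ₗ[ℂ] V) x) hs
        exact h.symm
      have ht' : ∀ x : Fin n → ℂ, T ((A₀ : (Fin n → ℂ) →ₗ[ℂ] V) x)
          = t • (A₀ : (Fin n → ℂ) →ₗ[ℂ] V) x := by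
        intro x
        have h := congrArg
          (fun F : ↥((σ.linHom ρ).invariants) => (F : (Fin n → ℂ) →ₗ[ℂ] V) x) ht
        exact h.symm
      have hA' : A w = c • (A₀ : (Fin n → ℂ) →ₗ[ℂ] V) w := by
        have h := congrArg
          (fun F : ↥((σ.linHom ρ).invariants) => (F : (Fin n → ℂ) →ₗ[ℂ] V) w) hc
        exact h.symm
      rw [hA', map_smul, map_smul, map_smul, map_smul, ht' w, hs' w, map_smul, map_smul, hs' w,
        ht' w, smul_comm s t]
    apply LinearMap.ext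
    intro v
    show S (T v) = T (S v)
    classical
    have := finite_irrCharacter (G := G)
    have := Fintype.ofFinite (IrrCharacter G)
    have hχ : ∀ χ : IrrCharacter G,
        S (T (∑ g : G, (χ : G → ℂ) g⁻¹ • ρ g v)) = T (S (∑ g : G, (χ : G → ℂ) g⁻¹ • ρ g v)) := by
      intro χ
      obtain ⟨n, σ, hirr, hσ⟩ := χ.2
      have hmem : ∀ i : Fin n,
          (∑ g : G, ρ g ∘ₗ ((LinearMap.proj i : (Fin n → ℂ) →ₗ[ℂ] ℂ).smulRight v) ∘ₗ σ g⁻¹)
            ∈ (σ.linHom ρ).invariants := by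
        intro i
        rw [mem_linHom_inv]
        intro h x
        exact avg_intertwine σ ρ _ h x
      have hsum : (∑ g : G, (χ : G → ℂ) g⁻¹ • ρ g v)
          = ∑ i : Fin n,
            (∑ g : G, ρ g ∘ₗ ((LinearMap.proj i : (Fin n → ℂ) →ₗ[ℂ] ℂ).smulRight v) ∘ₗ σ g⁻¹)
              (Pi.single i (1 : ℂ)) := by
        have h1 : ∀ i : Fin n,
            (∑ g : G, ρ g ∘ₗ ((LinearMap.proj i : (Fin n → ℂ) →ₗ[ℂ] ℂ).smulRight v) ∘ₗ σ g⁻¹)
              (Pi.single i (1 : ℂ))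
            = ∑ g : G, (σ g⁻¹ (Pi.single i (1 : ℂ))) i • ρ g v := by
          intro i
          rw [LinearMap.sum_apply]
          refine Finset.sum_congr rfl fun g _ => ?_
          show ρ g ((σ g⁻¹ (Pi.single i (1 : ℂ))) i • v) = _
          rw [map_smul]
        rw [Finset.sum_congr rfl (fun i _ => h1 i), Finset.sum_comm]
        refine Finset.sum_congr rfl fun g _ => ?_
        rw [← Finset.sum_smul, ← trace_pi_eq, ← hσ]
        rfl
      rw [hsum, map_sum, map_sum, map_sum, map_sum]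
      refine Finset.sum_congr rfl fun i _ => ?_
      exact hkey n σ hirr _ (hmem i) _
    have hreg : ∑ χ : IrrCharacter G, (χ : G → ℂ) 1 • ∑ g : G, (χ : G → ℂ) g⁻¹ • ρ g v
        = (Nat.card G : ℂ) • v := by
      have h1 : ∀ χ : IrrCharacter G, (χ : G → ℂ) 1 • ∑ g : G, (χ : G → ℂ) g⁻¹ • ρ g v
          = ∑ g : G, ((χ : G → ℂ) 1 * (χ : G → ℂ) g⁻¹) • ρ g v := by
        intro χ
        rw [Finset.smul_sum]
        refine Finset.sum_congr rfl fun g _ => ?_
        rw [smul_smul]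
      rw [Finset.sum_congr rfl (fun χ _ => h1 χ), Finset.sum_comm]
      have h2 : ∀ g : G, (∑ χ : IrrCharacter G, ((χ : G → ℂ) 1 * (χ : G → ℂ) g⁻¹) • ρ g v)
          = (if g⁻¹ = 1 then (Nat.card G : ℂ) else 0) • ρ g v := by
        intro g
        rw [← Finset.sum_smul, irr_regular_sum g⁻¹]
      rw [Finset.sum_congr rfl (fun g _ => h2 g), Finset.sum_eq_single (1 : G)]
      · rw [if_pos inv_one, map_one, Module.End.one_apply]
      · intro g _ hg
        rw [if_neg (fun h : g⁻¹ = 1 => hg (inv_eq_one.mp h)), zero_smul]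
      · intro h
        exact absurd (Finset.mem_univ _) h
    have hfinal : (Nat.card G : ℂ) • S (T v) = (Nat.card G : ℂ) • T (S v) := by
      rw [← map_smul, ← map_smul, ← map_smul, ← map_smul, ← hreg, map_sum, map_sum, map_sum,
        map_sum]
      refine Finset.sum_congr rfl fun χ _ => ?_
      rw [map_smul, map_smul, map_smul, map_smul, hχ χ]
    exact smul_right_injective V hGne hfinal
  · intro hcomm χ hχ
    obtain ⟨n, σ, hirr, rfl⟩ := hχ
    haveI := hirr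
    rw [inner_eq_finrank_hom ρ σ]
    by_contra hcon
    have hm2 : 2 ≤ Module.finrank ℂ ((σ.linHom ρ).invariants) := by
      by_contra hlt
      apply hcon
      have h01 : Module.finrank ℂ ((σ.linHom ρ).invariants) = 0 ∨
          Module.finrank ℂ ((σ.linHom ρ).invariants) = 1 := by omega
      rcases h01 with h | h
      · left
        rw [h]
        exact Nat.cast_zero
      · right
        rw [h]
        exact Nat.cast_one
    obtain ⟨A₁, hA₁⟩ := Module.finrank_pos_iff_exists_ne_zero.mp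
      (by omega : 0 < Module.finrank ℂ ((σ.linHom ρ).invariants))
    have hex : ∃ A₂ : ↥((σ.linHom ρ).invariants), ∀ c : ℂ, c • A₁ ≠ A₂ := by
      by_contra hno
      push Not at hno
      have h := finrank_le_one A₁ hno
      omega
    obtain ⟨A₂, hA₂⟩ := hex
    have h1 := (mem_linHom_inv σ ρ _).mp A₁.2
    have h2 := (mem_linHom_inv σ ρ _).mp A₂.2
    have hinj : LinearMap.ker (A₁ : (Fin n → ℂ) →ₗ[ℂ] V) = ⊥ := by
      rcases Representation.IsIrreducible.injective_or_eq_zero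
        ((A₁ : (Fin n → ℂ) →ₗ[ℂ] V).intertwiningMap_of_isIntertwiningMap σ ρ h1) with h | h
      · exact LinearMap.ker_eq_bot.mpr h
      · exfalso
        apply hA₁
        apply Subtype.ext
        have h' := congrArg Representation.IntertwiningMap.toLinearMap h
        exact h'
    obtain ⟨r, hr⟩ := LinearMap.exists_leftInverse_of_injective
      (A₁ : (Fin n → ℂ) →ₗ[ℂ] V) hinj
    obtain ⟨B, hB⟩ : ∃ B : V →ₗ[ℂ] (Fin n → ℂ),
        B = (Nat.card G : ℂ)⁻¹ • ∑ g : G, σ g ∘ₗ r ∘ₗ ρ g⁻¹ := ⟨_, rfl⟩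
    have hBint : ∀ (h : G) (x : V), B (ρ h x) = σ h (B x) := by
      intro h x
      rw [hB, LinearMap.smul_apply, LinearMap.smul_apply, avg_intertwine ρ σ r h x, map_smul]
    have hBA : ∀ w : Fin n → ℂ, B ((A₁ : (Fin n → ℂ) →ₗ[ℂ] V) w) = w := by
      intro w
      have h3 : ∀ g : G, (σ g ∘ₗ r ∘ₗ ρ g⁻¹) ((A₁ : (Fin n → ℂ) →ₗ[ℂ] V) w) = w := by
        intro g
        show σ g (r (ρ g⁻¹ ((A₁ : (Fin n → ℂ) →ₗ[ℂ] V) w))) = w
        rw [← h1 g⁻¹ w]
        have h4 : r ((A₁ : (Fin n → ℂ) →ₗ[ℂ] V) (σ g⁻¹ w)) = σ g⁻¹ w :=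
          congrArg (fun F : (Fin n → ℂ) →ₗ[ℂ] (Fin n → ℂ) => F (σ g⁻¹ w)) hr
        rw [h4, ← Module.End.mul_apply, ← map_mul, mul_inv_cancel, map_one,
          Module.End.one_apply]
      rw [hB, LinearMap.smul_apply, LinearMap.sum_apply, Finset.sum_congr rfl (fun g _ => h3 g),
        Finset.sum_const, Finset.card_univ, ← Nat.card_eq_fintype_card,
        ← Nat.cast_smul_eq_nsmul ℂ, inv_smul_smul₀ hGne]
    have hS : (A₁ : (Fin n → ℂ) →ₗ[ℂ] V) ∘ₗ B ∈ (ρ.linHom ρ).invariants := by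
      rw [mem_linHom_inv]
      intro g v
      show (A₁ : (Fin n → ℂ) →ₗ[ℂ] V) (B (ρ g v)) = ρ g ((A₁ : (Fin n → ℂ) →ₗ[ℂ] V) (B v))
      rw [hBint g v, h1 g (B v)]
    have hT : (A₂ : (Fin n → ℂ) →ₗ[ℂ] V) ∘ₗ B ∈ (ρ.linHom ρ).invariants := by
      rw [mem_linHom_inv]
      intro g v
      show (A₂ : (Fin n → ℂ) →ₗ[ℂ] V) (B (ρ g v)) = ρ g ((A₂ : (Fin n → ℂ) →ₗ[ℂ] V) (B v))
      rw [hBint g v, h2 g (B v)]
    have hc := hcomm _ _ hS hT
    have hBA₂ : ∀ (g : G) (w : Fin n → ℂ),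
        (B ∘ₗ (A₂ : (Fin n → ℂ) →ₗ[ℂ] V)) (σ g w)
          = σ g ((B ∘ₗ (A₂ : (Fin n → ℂ) →ₗ[ℂ] V)) w) := by
      intro g w
      show B ((A₂ : (Fin n → ℂ) →ₗ[ℂ] V) (σ g w)) = σ g (B ((A₂ : (Fin n → ℂ) →ₗ[ℂ] V) w))
      rw [h2 g w, hBint g _]
    obtain ⟨lam, hlam⟩ := schur_scalar σ
      ((B ∘ₗ (A₂ : (Fin n → ℂ) →ₗ[ℂ] V)).intertwiningMap_of_isIntertwiningMap σ σ hBA₂)
    have hlam' : ∀ w : Fin n → ℂ, B ((A₂ : (Fin n → ℂ) →ₗ[ℂ] V) w) = lam • w := by
      intro w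
      have h := congrArg (fun F : (Fin n → ℂ) →ₗ[ℂ] (Fin n → ℂ) => F w) hlam
      exact h
    apply hA₂ lam
    apply Subtype.ext
    apply LinearMap.ext
    intro w
    have h5 := congrArg (fun F : V →ₗ[ℂ] V => F ((A₁ : (Fin n → ℂ) →ₗ[ℂ] V) w)) hc
    have h6 : (A₁ : (Fin n → ℂ) →ₗ[ℂ] V) (B ((A₂ : (Fin n → ℂ) →ₗ[ℂ] V)
          (B ((A₁ : (Fin n → ℂ) →ₗ[ℂ] V) w))))
        = (A₂ : (Fin n → ℂ) →ₗ[ℂ] V) (B ((A₁ : (Fin n → ℂ) →ₗ[ℂ] V)
          (B ((A₁ : (Fin n → ℂ) →ₗ[ℂ] V) w)))) := h5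
    rw [hBA w, hlam' w, hBA w, map_smul] at h6
    exact h6

end MultFree

section PermRepChar

variable {G : Type*} [Group G] [Fintype G] {Ω : Type*} [Fintype Ω] [MulAction G Ω]

open scoped Classical in
/-- The character of the permutation representation counts fixed points. -/
theorem permRep_character (g : G) :
    (permRep ℂ G Ω).character g = (Nat.card (MulAction.fixedBy Ω g) : ℂ) := by
  rw [perm_fix_sum g]
  show LinearMap.trace ℂ (Ω → ℂ) (permRep ℂ G Ω g) = _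
  rw [trace_pi_eq]
  refine Finset.sum_congr rfl fun ω _ => ?_
  show (Pi.single ω (1 : ℂ) : Ω → ℂ) (g⁻¹ • ω) = _
  rw [Pi.single_apply]
  have hiff : g⁻¹ • ω = ω ↔ g • ω = ω := by
    rw [inv_smul_eq_iff]
    exact eq_comm
  by_cases h : g • ω = ω
  · rw [if_pos (hiff.mpr h), if_pos h]
  · rw [if_neg (fun h' : g⁻¹ • ω = ω => h (hiff.mp h')), if_neg h]

end PermRepChar

end Cfsg.Agent.Helper24
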