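import Cfsg.Agent.Helper24.PGroupBasic
import Cfsg.Agent.S4584

set_option autoImplicit false

namespace Cfsg.Agent.Helper24

open scoped commutatorElement

theorem lcs_eq_bot_of_succ_eq {G : Type*} [Group G] [Group.IsNilpotent G] (n : ℕ)
    (h : (⊤ : Subgroup G).lowerCentralSeries (n + 1) = (⊤ : Subgroup G).lowerCentralSeries n) :
    (⊤ : Subgroup G).lowerCentralSeries n = ⊥ := by
  have h1 : ∀ m, (⊤ : Subgroup G).lowerCentralSeries (n + m)
      = (⊤ : Subgroup G).lowerCentralSeries n := by
    intro m
    induction m with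
    | zero => rfl
    | succ m ih =>
      rw [← add_assoc, Subgroup.lowerCentralSeries_succ, ih, ← Subgroup.lowerCentralSeries_succ, h]
  have h3 : (⊤ : Subgroup G).lowerCentralSeries (n + Group.nilpotencyClass G) = ⊥ := by
    rw [Subgroup.lowerCentralSeries_eq_bot_iff_nilpotencyClass_le]; omega
  rw [← h1 (Group.nilpotencyClass G), h3]

theorem commutator_eq_bot_of_index_prime {G : Type*} [Group G] [Group.IsNilpotent G] {p : ℕ}
    (hp : p.Prime) (h : (commutator G).index = p) : commutator G = ⊥ := by
  obtain ⟨g, hg⟩ : ∃ g : G, g ∉ commutator G := by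
    by_contra hcon
    push Not at hcon
    have : commutator G = ⊤ := by
      rw [eq_top_iff]; intro a _; exact hcon a
    rw [this, Subgroup.index_top] at h
    exact hp.one_lt.ne h
  have hcl := closure_insert_eq_top (commutator G) hp h hg
  have hg1 : (⊤ : Subgroup G).lowerCentralSeries 1 = commutator G := rfl
  have hle : commutator G ≤ (⊤ : Subgroup G).lowerCentralSeries 2 := by
    apply commutator_le_of_generators _ _ hcl
    have hmem : ∀ s ∈ commutator G, ∀ t : G,
        s * t * s⁻¹ * t⁻¹ ∈ (⊤ : Subgroup G).lowerCentralSeries 2 := by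
      intro s hs t
      rw [← commutatorElement_def]
      exact Subgroup.commutator_mem_commutator (H₁ := (⊤ : Subgroup G).lowerCentralSeries 1)
        hs (Subgroup.mem_top t)
    intro s hs t ht
    rcases hs with rfl | hs
    · rcases ht with rfl | ht
      · simp
      · have h4 := Subgroup.inv_mem _ (hmem t ht s)
        have h5 : (t * s * t⁻¹ * s⁻¹)⁻¹ = s * t * s⁻¹ * t⁻¹ := by group
        rwa [h5] at h4
    · exact hmem s hs t
  have heq : (⊤ : Subgroup G).lowerCentralSeries (1 + 1)
      = (⊤ : Subgroup G).lowerCentralSeries 1 :=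
    le_antisymm (Subgroup.lowerCentralSeries_antitone _ (Nat.le_succ 1)) hle
  exact lcs_eq_bot_of_succ_eq 1 heq

theorem p4_index_commutator_iff_class {P : Type*} [Group P] [Finite P] (p : ℕ) [Fact p.Prime]
    (hP : Nat.card P = p ^ 4) :
    (commutator P).index = p ^ 2 ↔ Group.nilpotencyClass P = 3 := by
  classical
  have hp : p.Prime := Fact.out
  have hPg : IsPGroup p P := IsPGroup.of_card hP
  have hnil : Group.IsNilpotent P := hPg.isNilpotent
  have hg1 : (⊤ : Subgroup P).lowerCentralSeries 1 = commutator P := rfl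
  have hpp : p < p ^ 2 := by nlinarith [hp.one_lt]
  have hp1 : 1 < p := hp.one_lt
  have hcardpow : ∀ H : Subgroup P, ∃ k ≤ 4, Nat.card H = p ^ k := fun H =>
    (Nat.dvd_prime_pow hp).mp (hP ▸ Subgroup.card_subgroup_dvd_card H)
  have hstrict : ∀ H K : Subgroup P, H ≤ K → H ≠ K → Nat.card H < Nat.card K := by
    intro H K hle hne
    by_contra hcon
    push Not at hcon
    exact hne (Subgroup.eq_of_le_of_card_ge hle hcon)
  have hcm := Subgroup.card_mul_index (commutator P)
  rw [hP] at hcm
  constructor
  · intro h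
    have hc2 : Nat.card (commutator P) = p ^ 2 :=
      Nat.eq_of_mul_eq_mul_right (pow_pos hp.pos 2) (by rw [h] at hcm; rw [hcm]; ring)
    have hγ2 : (⊤ : Subgroup P).lowerCentralSeries 2 ≠ ⊥ := by
      intro hbot
      have hle : commutator P ≤ Subgroup.center P := by
        have h1 : ⁅commutator P, (⊤ : Subgroup P)⁆ = ⊥ := hbot
        rw [Subgroup.commutator_eq_bot_iff_le_centralizer] at h1
        rwa [Subgroup.coe_top, Subgroup.centralizer_univ] at h1
      obtain ⟨k, hk, hk'⟩ := hcardpow (Subgroup.center P)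
      have hk2 : 2 ≤ k := by
        have h1 := Subgroup.card_le_of_le hle
        rw [hc2, hk'] at h1
        exact (Nat.pow_le_pow_iff_right hp.one_lt).mp h1
      have hZi := Subgroup.card_mul_index (Subgroup.center P)
      rw [hP, hk'] at hZi
      have hk234 : k = 2 ∨ k = 3 ∨ k = 4 := by omega
      rcases hk234 with rfl | rfl | rfl
      · have hidx : (Subgroup.center P).index = p ^ 2 :=
          Nat.eq_of_mul_eq_mul_left (pow_pos hp.pos 2) (by rw [hZi]; ring)
        have h1 := (Cfsg.Agent.S4584.result p hP).mpr hidx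
        rw [hc2] at h1
        omega
      · have hidx : (Subgroup.center P).index = p :=
          Nat.eq_of_mul_eq_mul_left (pow_pos hp.pos 3) (by rw [hZi]; ring)
        have hq : Nat.card (P ⧸ Subgroup.center P) = p := hidx
        have hcyc : IsCyclic (P ⧸ Subgroup.center P) := isCyclic_of_prime_card hq
        have hcomm := (MonoidHom.isMulCommutative_of_isCyclic_of_ker_le_center
          (QuotientGroup.mk' (Subgroup.center P)) (by rw [QuotientGroup.ker_mk'])).is_comm.comm
        have htop : Subgroup.center P = ⊤ := by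
          rw [eq_top_iff]
          intro a _
          rw [Subgroup.mem_center_iff]
          intro b
          exact hcomm b a
        rw [htop, Subgroup.index_top] at hidx
        exact hp.one_lt.ne hidx
      · have htop : Subgroup.center P = ⊤ := by
          rw [← Subgroup.card_eq_iff_eq_top, hk', hP]
        have hbot' : commutator P = ⊥ := by
          rw [commutator_def, Subgroup.commutator_eq_bot_iff_le_centralizer, Subgroup.coe_top,
            Subgroup.centralizer_univ, htop]
        rw [hbot', Subgroup.card_bot] at hc2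
        omega
    have hγ21 : (⊤ : Subgroup P).lowerCentralSeries 2 ≠ (⊤ : Subgroup P).lowerCentralSeries 1 := by
      intro heq
      have h1 := lcs_eq_bot_of_succ_eq 1 heq
      rw [hg1] at h1
      rw [h1, Subgroup.card_bot] at hc2
      omega
    have hc2' : Nat.card ((⊤ : Subgroup P).lowerCentralSeries 2) = p := by
      obtain ⟨k, hk, hk'⟩ := hcardpow ((⊤ : Subgroup P).lowerCentralSeries 2)
      have h1 := hstrict _ _ (Subgroup.lowerCentralSeries_antitone _ (Nat.le_succ 1)) hγ21
      rw [hg1, hc2, hk'] at h1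
      have hk2 : k < 2 := (Nat.pow_lt_pow_iff_right hp.one_lt).mp h1
      have hk0 : k ≠ 0 := by
        rintro rfl
        rw [pow_zero] at hk'
        exact hγ2 (Subgroup.eq_bot_of_card_eq _ hk')
      have hk1 : k = 1 := by omega
      rw [hk', hk1, pow_one]
    have hγ3 : (⊤ : Subgroup P).lowerCentralSeries 3 = ⊥ := by
      have hne : (⊤ : Subgroup P).lowerCentralSeries 3 ≠ (⊤ : Subgroup P).lowerCentralSeries 2 :=
        fun heq => hγ2 (lcs_eq_bot_of_succ_eq 2 heq)
      have h1 := hstrict _ _ (Subgroup.lowerCentralSeries_antitone _ (Nat.le_succ 2)) hne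
      rw [hc2'] at h1
      obtain ⟨k, hk, hk'⟩ := hcardpow ((⊤ : Subgroup P).lowerCentralSeries 3)
      rw [hk'] at h1
      have hk0 : k = 0 := by
        by_contra hk0
        have h2 : p ^ 1 ≤ p ^ k := Nat.pow_le_pow_right hp.pos (by omega)
        rw [pow_one] at h2
        omega
      rw [hk0, pow_zero] at hk'
      exact Subgroup.eq_bot_of_card_eq _ hk'
    have hle3 : Group.nilpotencyClass P ≤ 3 :=
      Subgroup.lowerCentralSeries_eq_bot_iff_nilpotencyClass_le.mp hγ3
    have hnle2 : ¬ Group.nilpotencyClass P ≤ 2 := fun h2 =>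
      hγ2 (Subgroup.lowerCentralSeries_eq_bot_iff_nilpotencyClass_le.mpr h2)
    omega
  · intro h
    have hγ2 : (⊤ : Subgroup P).lowerCentralSeries 2 ≠ ⊥ := by
      intro hbot
      have h1 := Subgroup.lowerCentralSeries_eq_bot_iff_nilpotencyClass_le.mp hbot
      omega
    have hγ1 : commutator P ≠ ⊥ := by
      intro hbot
      apply hγ2
      rw [eq_bot_iff, ← hbot, ← hg1]
      exact Subgroup.lowerCentralSeries_antitone _ (Nat.le_succ 1)
    have hγ21 : (⊤ : Subgroup P).lowerCentralSeries 2 ≠ (⊤ : Subgroup P).lowerCentralSeries 1 :=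
      fun heq => hγ1 (hg1 ▸ lcs_eq_bot_of_succ_eq 1 heq)
    have h1 := hstrict _ _ (Subgroup.lowerCentralSeries_antitone _ (Nat.le_succ 1)) hγ21
    rw [hg1] at h1
    obtain ⟨k, hk, hk'⟩ := hcardpow (commutator P)
    obtain ⟨k2, hk2, hk2'⟩ := hcardpow ((⊤ : Subgroup P).lowerCentralSeries 2)
    have hk20 : k2 ≠ 0 := by
      rintro rfl
      rw [pow_zero] at hk2'
      exact hγ2 (Subgroup.eq_bot_of_card_eq _ hk2')
    rw [hk', hk2'] at h1
    have hkk : k2 < k := (Nat.pow_lt_pow_iff_right hp.one_lt).mp h1
    have hk4 : k ≠ 4 := by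
      rintro rfl
      have htop : commutator P = ⊤ := by
        rw [← Subgroup.card_eq_iff_eq_top, hk', hP]
      have heq : (⊤ : Subgroup P).lowerCentralSeries (0 + 1)
          = (⊤ : Subgroup P).lowerCentralSeries 0 := by
        rw [zero_add, hg1, htop]; rfl
      have h2 := lcs_eq_bot_of_succ_eq 0 heq
      apply hγ1
      rw [htop]
      exact h2
    have hk3 : k ≠ 3 := by
      rintro rfl
      have hidx : (commutator P).index = p := by
        rw [hk'] at hcm
        exact Nat.eq_of_mul_eq_mul_left (pow_pos hp.pos 3) (by rw [hcm]; ring)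
      exact hγ1 (commutator_eq_bot_of_index_prime hp hidx)
    have hk2 : k = 2 := by omega
    rw [hk', hk2] at hcm
    exact Nat.eq_of_mul_eq_mul_left (pow_pos hp.pos 2) (by rw [hcm]; ring)

end Cfsg.Agent.Helper24
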