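import Cfsg.Agent.Helper2.CharReg
import Cfsg.Agent.Helper2.CharGalois
import Cfsg.Agent.Helper2.CharInner
import Cfsg.Agent.Helper2.CharLinear
import Cfsg.Agent.Helper24.CharBasic

set_option autoImplicit false

namespace Cfsg.Agent.Helper24

open Cfsg Polynomial

/-- The trace of an endomorphism annihilated by a monic integer polynomial is an algebraic
integer. -/
theorem trace_isIntegral_of_aeval {V : Type*} [AddCommGroup V] [Module ℂ V]
    [FiniteDimensional ℂ V] (f : Module.End ℂ V) (p : ℤ[X]) (hp : p.Monic)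
    (h : aeval f p = 0) : IsIntegral ℤ (LinearMap.trace ℂ V f) := by
  rw [Module.End.trace_eq_sum_roots_charpoly_of_splits (IsAlgClosed.splits f.charpoly)]
  refine IsIntegral.multiset_sum fun μ hμ => ?_
  have hroot : f.charpoly.IsRoot μ :=
    (Polynomial.mem_roots (LinearMap.charpoly_monic f).ne_zero).mp hμ
  have hev : f.HasEigenvalue μ := (Module.End.hasEigenvalue_iff_isRoot_charpoly f μ).mpr hroot
  obtain ⟨x, hx⟩ := hev.exists_hasEigenvector
  have h1 : aeval f (p.map (algebraMap ℤ ℂ)) x = (p.map (algebraMap ℤ ℂ)).eval μ • x :=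
    Module.End.aeval_apply_of_hasEigenvector hx
  rw [Polynomial.aeval_map_algebraMap, h, LinearMap.zero_apply] at h1
  have h2 : (p.map (algebraMap ℤ ℂ)).eval μ = 0 := by
    rcases smul_eq_zero.mp h1.symm with h3 | h3
    · exact h3
    · exact absurd h3 hx.2
  refine ⟨p, hp, ?_⟩
  rw [← Polynomial.eval_map]
  exact h2

open scoped Classical in
/-- If a family `F` of endomorphisms intertwines an integer matrix `A` with right
multiplication by `N`, then `F ω * q(N) = 0` for the characteristic polynomial `q` of `A`. -/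
theorem intertwine_charpoly {Ω : Type*} [Fintype Ω] {V : Type*} [AddCommGroup V] [Module ℂ V]
    (A : Matrix Ω Ω ℤ) (F : Ω → Module.End ℂ V) (N : Module.End ℂ V)
    (h : ∀ ω, ∑ ω', A ω' ω • F ω' = F ω * N) (ω : Ω) :
    F ω * aeval N A.charpoly = 0 := by
  have hΨ : ∀ w : Ω → ℤ, ∑ ω', (A.mulVec w) ω' • F ω' = (∑ ω', w ω' • F ω') * N := by
    intro w
    rw [Finset.sum_mul]
    have h1 : ∀ ω' : Ω, (A.mulVec w) ω' • F ω' = ∑ j : Ω, (A ω' j * w j) • F ω' := by
      intro ω'
      show (∑ j : Ω, A ω' j * w j) • F ω' = _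
      rw [Finset.sum_smul]
    rw [Finset.sum_congr rfl (fun ω' _ => h1 ω'), Finset.sum_comm]
    refine Finset.sum_congr rfl fun j _ => ?_
    rw [smul_mul_assoc, ← h j, Finset.smul_sum]
    refine Finset.sum_congr rfl fun ω' _ => ?_
    rw [smul_smul, mul_comm]
  have hpow : ∀ (k : ℕ) (w : Ω → ℤ),
      ∑ ω', ((A ^ k).mulVec w) ω' • F ω' = (∑ ω', w ω' • F ω') * N ^ k := by
    intro k
    induction k with
    | zero =>
      intro w
      rw [pow_zero, pow_zero, Matrix.one_mulVec, mul_one]
    | succ k ih =>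
      intro w
      rw [pow_succ A k, ← Matrix.mulVec_mulVec, ih, hΨ, mul_assoc, ← pow_succ']
  have hpoly : ∀ (q : ℤ[X]) (w : Ω → ℤ),
      ∑ ω', ((aeval A q).mulVec w) ω' • F ω' = (∑ ω', w ω' • F ω') * aeval N q := by
    intro q
    induction q using Polynomial.induction_on' with
    | add p q hp hq =>
      intro w
      rw [map_add, map_add, Matrix.add_mulVec, mul_add, ← hp w, ← hq w,
        ← Finset.sum_add_distrib]
      refine Finset.sum_congr rfl fun ω' _ => ?_
      rw [Pi.add_apply, add_smul]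
    | monomial n c =>
      intro w
      rw [aeval_monomial, aeval_monomial, ← Algebra.smul_def, ← Algebra.smul_def,
        Matrix.smul_mulVec, mul_smul_comm, ← hpow n w, Finset.smul_sum]
      refine Finset.sum_congr rfl fun ω' _ => ?_
      rw [Pi.smul_apply, smul_assoc]
  have h0 := hpoly A.charpoly (Pi.single ω 1)
  rw [Matrix.aeval_self_charpoly, Matrix.zero_mulVec] at h0
  simp only [Pi.zero_apply, zero_smul, Finset.sum_const_zero] at h0
  have h1 : ∑ ω', (Pi.single ω (1 : ℤ) : Ω → ℤ) ω' • F ω' = F ω := by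
    rw [Finset.sum_eq_single ω]
    · rw [Pi.single_eq_same, one_smul]
    · intro b _ hb
      rw [Pi.single_eq_of_ne hb, zero_smul]
    · intro hh
      exact absurd (Finset.mem_univ ω) hh
  rw [h1] at h0
  exact h0.symm

section PermChar

variable {G : Type*} [Group G] [Fintype G] {Ω : Type*} [Fintype Ω] [MulAction G Ω]

/-- `g` lies in the double coset of the point stabiliser of `a` attached to the suborbit of
`b`: `g • a` is in the orbit of `b` under the stabiliser of `a`. -/
def dcMem (a b : Ω) (g : G) : Prop := ∃ h : G, h • a = a ∧ h • b = g • a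

theorem dcMem_mul_left {a b : Ω} {k : G} (hk : k • a = a) (z : G) :
    dcMem a b (k * z) ↔ dcMem a b z := by
  constructor
  · rintro ⟨h, h1, h2⟩
    refine ⟨k⁻¹ * h, ?_, ?_⟩
    · rw [mul_smul k⁻¹ h a, h1, inv_smul_eq_iff, hk]
    · rw [mul_smul k⁻¹ h b, h2, mul_smul k z a, inv_smul_smul]
  · rintro ⟨h, h1, h2⟩
    exact ⟨k * h, by rw [mul_smul k h a, h1, hk], by rw [mul_smul k h b, h2, mul_smul k z a]⟩

theorem dcMem_conj {a b : Ω} (u g : G) :
    (∃ g₁ : G, g₁ • a = u • a ∧ g₁ • b = g • a) ↔ dcMem a b (u⁻¹ * g) := by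
  constructor
  · rintro ⟨g₁, h1, h2⟩
    refine ⟨u⁻¹ * g₁, ?_, ?_⟩
    · rw [mul_smul u⁻¹ g₁ a, h1, inv_smul_smul]
    · rw [mul_smul u⁻¹ g₁ b, h2, mul_smul u⁻¹ g a]
  · rintro ⟨h, h1, h2⟩
    refine ⟨u * h, ?_, ?_⟩
    · rw [mul_smul u h a, h1]
    · rw [mul_smul u h b, h2, mul_smul u⁻¹ g a, smul_inv_smul]

open scoped Classical in
/-- If the character sums to zero over a point stabiliser, the stabiliser sum of the
representation vanishes. -/
theorem fixed_sum_eq_zero {V : Type*} [AddCommGroup V] [Module ℂ V] [FiniteDimensional ℂ V]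
    (ρ : Representation ℂ G V) (a : Ω)
    (h0 : (∑ g : G, if g • a = a then ρ.character g else 0) = 0) :
    (∑ g : G, if g • a = a then (ρ g : Module.End ℂ V) else 0) = 0 := by
  obtain ⟨H, hH⟩ : ∃ H : Subgroup G, H = MulAction.stabilizer G a := ⟨_, rfl⟩
  have hmem : ∀ g : G, g ∈ H ↔ g • a = a := by
    intro g
    rw [hH]
    exact MulAction.mem_stabilizer_iff
  obtain ⟨ρH, hρH⟩ : ∃ ρH : Representation ℂ H V, ρH = ρ.comp H.subtype := ⟨_, rfl⟩
  have : Invertible (Nat.card H : ℂ) :=
    invertibleOfNonzero (by exact_mod_cast Nat.card_pos.ne')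
  have hfin := Representation.card_inv_mul_sum_char_eq_finrank (ρ := ρH)
  have hsum : ∑ h : H, ρH.character h = ∑ g : G, if g • a = a then ρ.character g else 0 := by
    rw [← Finset.sum_filter]
    have h1 : ∑ g ∈ Finset.univ.filter (fun g : G => g • a = a), ρ.character g
        = ∑ h : H, ρ.character (h : G) :=
      Finset.sum_subtype _ (by intro g; simp [hmem]) _
    rw [h1, hρH]
    exact Fintype.sum_equiv (Equiv.refl _) _ _ (fun _ => rfl)
  rw [hsum, h0, mul_zero] at hfin
  have hfr : Module.finrank ℂ (Representation.invariants ρH) = 0 := by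
    exact_mod_cast hfin.symm
  have hbot : Representation.invariants ρH = ⊥ := Submodule.finrank_eq_zero.mp hfr
  apply LinearMap.ext
  intro v
  have hinv : (∑ g : G, if g • a = a then (ρ g : Module.End ℂ V) else 0) v
      ∈ Representation.invariants ρH := by
    rw [Representation.mem_invariants]
    intro k
    have hk : (k : G) • a = a := (hmem _).mp k.2
    rw [hρH]
    show ρ (k : G) ((∑ g : G, if g • a = a then (ρ g : Module.End ℂ V) else 0) v) = _
    rw [← Module.End.mul_apply, Finset.mul_sum]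
    congr 1
    refine Fintype.sum_equiv (Equiv.mulLeft (k : G)) _ _ (fun y => ?_)
    show ρ (k : G) * (if y • a = a then ρ y else 0)
      = if ((k : G) * y) • a = a then ρ ((k : G) * y) else 0
    by_cases hy : y • a = a
    · rw [if_pos hy, if_pos (by rw [mul_smul, hy, hk]), map_mul]
    · rw [if_neg hy, if_neg (fun h => hy (by
        rw [mul_smul] at h
        exact smul_left_cancel (k : G) (h.trans hk.symm))), mul_zero]
  rw [hbot, Submodule.mem_bot] at hinv
  rw [hinv, LinearMap.zero_apply]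

open scoped Classical in
/-- The double-coset character sum divided by the stabiliser order is an algebraic integer,
and vanishes when the character has no fixed vectors under the stabiliser. -/
theorem perm_rep_main [MulAction.IsPretransitive G Ω] {V : Type*} [AddCommGroup V]
    [Module ℂ V] [FiniteDimensional ℂ V] (ρ : Representation ℂ G V) (a b : Ω) :
    IsIntegral ℤ (((Finset.univ.filter (fun g : G => g • a = a)).card : ℂ)⁻¹ *
        ∑ g : G, if dcMem a b g then ρ.character g else 0) ∧
    ((∑ g : G, if g • a = a then ρ.character g else 0) = 0 →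
      (∑ g : G, if dcMem a b g then ρ.character g else 0) = 0) := by
  obtain ⟨S, hS⟩ : ∃ S : Module.End ℂ V, S = ∑ g : G, if dcMem a b g then ρ g else 0 :=
    ⟨_, rfl⟩
  obtain ⟨E, hE⟩ : ∃ E : Module.End ℂ V, E = ∑ g : G, if g • a = a then ρ g else 0 :=
    ⟨_, rfl⟩
  obtain ⟨hc, hhc⟩ : ∃ hc : ℕ, hc = (Finset.univ.filter (fun g : G => g • a = a)).card :=
    ⟨_, rfl⟩
  have hcpos : 0 < hc := by
    rw [hhc]
    exact Finset.card_pos.mpr ⟨1, by simp⟩
  have hcne : (hc : ℂ) ≠ 0 := by exact_mod_cast hcpos.ne'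
  have hES : E * S = (hc : ℂ) • S := by
    rw [hE, Finset.sum_mul]
    have h1 : ∀ g : G, (if g • a = a then (ρ g : Module.End ℂ V) else 0) * S
        = if g • a = a then S else 0 := by
      intro g
      by_cases hg : g • a = a
      · rw [if_pos hg, if_pos hg, hS, Finset.mul_sum]
        refine Fintype.sum_equiv (Equiv.mulLeft g) _ _ (fun y => ?_)
        show ρ g * (if dcMem a b y then ρ y else 0)
          = if dcMem a b (g * y) then ρ (g * y) else 0
        by_cases hy : dcMem a b y
        · rw [if_pos hy, if_pos ((dcMem_mul_left hg y).mpr hy), map_mul]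
        · rw [if_neg hy, if_neg (fun h => hy ((dcMem_mul_left hg y).mp h)), mul_zero]
      · rw [if_neg hg, if_neg hg, zero_mul]
    rw [Finset.sum_congr rfl (fun g _ => h1 g), ← Finset.sum_filter, Finset.sum_const, ← hhc,
      Nat.cast_smul_eq_nsmul]
  obtain ⟨N, hN⟩ : ∃ N : Module.End ℂ V, N = (hc : ℂ)⁻¹ • S := ⟨_, rfl⟩
  have hEN : E * N = S := by
    rw [hN, mul_smul_comm, hES, smul_smul, inv_mul_cancel₀ hcne, one_smul]
  obtain ⟨A, hA⟩ : ∃ A : Matrix Ω Ω ℤ,
      A = fun ω' ω => if ∃ g : G, g • a = ω ∧ g • b = ω' then 1 else 0 := ⟨_, rfl⟩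
  obtain ⟨F, hF⟩ : ∃ F : Ω → Module.End ℂ V,
      F = fun ω => ∑ g : G, if g • a = ω then ρ g else 0 := ⟨_, rfl⟩
  have hFa : F a = E := by rw [hF, hE]
  have hFu : ∀ u : G, F (u • a) = ρ u * E := by
    intro u
    rw [hF, hE, Finset.mul_sum]
    show (∑ g : G, if g • a = u • a then ρ g else 0) = _
    refine (Fintype.sum_equiv (Equiv.mulLeft u) _ _ (fun y => ?_)).symm
    show ρ u * (if y • a = a then ρ y else 0)
      = if (u * y) • a = u • a then ρ (u * y) else 0
    by_cases hy : y • a = a
    · rw [if_pos hy, if_pos (by rw [mul_smul, hy]), map_mul]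
    · rw [if_neg hy, if_neg (fun h => hy (by
        rw [mul_smul] at h
        exact smul_left_cancel u h)), mul_zero]
  have hrel : ∀ ω : Ω, ∑ ω' : Ω, A ω' ω • F ω' = F ω * N := by
    intro ω
    obtain ⟨u, rfl⟩ := MulAction.exists_smul_eq G a ω
    rw [hFu u, mul_assoc, hEN]
    have h1 : ∀ ω' : Ω, A ω' (u • a) • F ω'
        = ∑ g : G, if g • a = ω' then A ω' (u • a) • ρ g else 0 := by
      intro ω'
      rw [hF]
      show A ω' (u • a) • (∑ g : G, if g • a = ω' then ρ g else 0) = _
      rw [Finset.smul_sum]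
      refine Finset.sum_congr rfl fun g _ => ?_
      rw [smul_ite, smul_zero]
    rw [Finset.sum_congr rfl (fun ω' _ => h1 ω'), Finset.sum_comm]
    have h2 : ∀ g : G, (∑ ω' : Ω, if g • a = ω' then A ω' (u • a) • ρ g else 0)
        = if dcMem a b (u⁻¹ * g) then ρ g else 0 := by
      intro g
      rw [Finset.sum_ite_eq Finset.univ (g • a) (fun ω' => A ω' (u • a) • ρ g),
        if_pos (Finset.mem_univ _), hA]
      show (if ∃ g₁ : G, g₁ • a = u • a ∧ g₁ • b = g • a then (1 : ℤ) else 0) • ρ g = _
      by_cases hd : dcMem a b (u⁻¹ * g)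
      · rw [if_pos hd, if_pos ((dcMem_conj u g).mpr hd), one_smul]
      · rw [if_neg hd, if_neg (fun h => hd ((dcMem_conj u g).mp h)), zero_smul]
    rw [Finset.sum_congr rfl (fun g _ => h2 g), hS, Finset.mul_sum]
    refine (Fintype.sum_equiv (Equiv.mulLeft u) _ _ (fun y => ?_)).symm
    show ρ u * (if dcMem a b y then ρ y else 0)
      = if dcMem a b (u⁻¹ * (u * y)) then ρ (u * y) else 0
    rw [inv_mul_cancel_left]
    by_cases hy : dcMem a b y
    · rw [if_pos hy, if_pos hy, map_mul]
    · rw [if_neg hy, if_neg hy, mul_zero]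
  have hq := intertwine_charpoly A F N hrel a
  rw [hFa] at hq
  have hcomm : N * aeval N A.charpoly = aeval N A.charpoly * N := by
    have h1 : aeval N (X * A.charpoly) = N * aeval N A.charpoly := by rw [map_mul, aeval_X]
    have h2 : aeval N (A.charpoly * X) = aeval N A.charpoly * N := by rw [map_mul, aeval_X]
    rw [← h1, ← h2, mul_comm]
  have hNE : N = (hc : ℂ)⁻¹ • (E * N) := by rw [hEN, hN]
  have hzero : N * aeval N A.charpoly = 0 := by
    calc N * aeval N A.charpoly
        = ((hc : ℂ)⁻¹ • (E * N)) * aeval N A.charpoly := by rw [← hNE]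
      _ = (hc : ℂ)⁻¹ • (E * (N * aeval N A.charpoly)) := by rw [smul_mul_assoc, mul_assoc]
      _ = (hc : ℂ)⁻¹ • ((E * aeval N A.charpoly) * N) := by rw [hcomm, mul_assoc]
      _ = 0 := by rw [hq, zero_mul, smul_zero]
  have hint : IsIntegral ℤ (LinearMap.trace ℂ V N) :=
    trace_isIntegral_of_aeval N (X * A.charpoly)
      (Polynomial.Monic.mul monic_X (Matrix.charpoly_monic A))
      (by rw [map_mul, aeval_X]; exact hzero)
  have htrS : LinearMap.trace ℂ V S = ∑ g : G, if dcMem a b g then ρ.character g else 0 := by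
    rw [hS, map_sum]
    refine Finset.sum_congr rfl fun g _ => ?_
    by_cases hg : dcMem a b g
    · rw [if_pos hg, if_pos hg]
      rfl
    · rw [if_neg hg, if_neg hg, map_zero]
  have htrN : LinearMap.trace ℂ V N
      = (hc : ℂ)⁻¹ * ∑ g : G, if dcMem a b g then ρ.character g else 0 := by
    rw [hN, map_smul, htrS, smul_eq_mul]
  refine ⟨by rw [← hhc, ← htrN]; exact hint, ?_⟩
  intro h0
  rw [← htrS]
  have hE0 : E = 0 := by
    rw [hE]
    exact fixed_sum_eq_zero ρ a h0
  rw [← hEN, hE0, zero_mul, map_zero]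

open scoped Classical in
/-- The double coset has `|H| · (subdegree)` elements. -/
theorem perm_dc_card [MulAction.IsPretransitive G Ω] (a b : Ω) :
    (Finset.univ.filter (fun g : G => dcMem a b g)).card
      = (Finset.univ.filter (fun g : G => g • a = a)).card
        * Nat.card (MulAction.orbit (MulAction.stabilizer G a) b) := by
  obtain ⟨O, hO⟩ : ∃ O : Finset Ω,
      O = Finset.univ.filter (fun ω => ∃ h : G, h • a = a ∧ h • b = ω) := ⟨_, rfl⟩
  have hOcard : Nat.card (MulAction.orbit (MulAction.stabilizer G a) b) = O.card := by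
    rw [Nat.card_coe_set_eq, ← Set.ncard_coe_finset O]
    congr 1
    ext ω
    rw [hO]
    simp only [Finset.coe_filter, Finset.mem_univ, true_and, Set.mem_ofPred_eq]
    constructor
    · rintro ⟨⟨h, hh⟩, rfl⟩
      exact ⟨h, MulAction.mem_stabilizer_iff.mp hh, rfl⟩
    · rintro ⟨h, h1, rfl⟩
      exact ⟨⟨h, MulAction.mem_stabilizer_iff.mpr h1⟩, rfl⟩
  rw [hOcard]
  have hmaps : ((Finset.univ.filter (fun g : G => dcMem a b g) : Finset G) : Set G).MapsTo
      (fun g : G => g • a) O := by
    intro g hg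
    rw [hO]
    simp only [Finset.coe_filter, Finset.mem_univ, true_and, Set.mem_ofPred_eq] at hg ⊢
    exact hg
  rw [Finset.card_eq_sum_card_fiberwise hmaps]
  have hfib : ∀ ω ∈ O, ((Finset.univ.filter (fun g : G => dcMem a b g)).filter
      (fun g => g • a = ω)).card = (Finset.univ.filter (fun g : G => g • a = a)).card := by
    intro ω hω
    obtain ⟨u, rfl⟩ := MulAction.exists_smul_eq G a ω
    symm
    refine Finset.card_bij (fun g _ => u * g) ?_ ?_ ?_
    · intro g hg
      simp only [Finset.mem_filter, Finset.mem_univ, true_and] at hg ⊢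
      have h1 : (u * g) • a = u • a := by rw [mul_smul, hg]
      refine ⟨?_, h1⟩
      rw [hO] at hω
      simp only [Finset.mem_filter, Finset.mem_univ, true_and] at hω
      obtain ⟨h, hh1, hh2⟩ := hω
      exact ⟨h, hh1, by rw [hh2, h1]⟩
    · intro g₁ _ g₂ _ h
      exact mul_left_cancel h
    · intro g hg
      simp only [Finset.mem_filter, Finset.mem_univ, true_and] at hg
      refine ⟨u⁻¹ * g, ?_, by rw [mul_inv_cancel_left]⟩
      simp only [Finset.mem_filter, Finset.mem_univ, true_and]
      rw [mul_smul, hg.2, inv_smul_smul]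
  rw [Finset.sum_congr rfl hfib, Finset.sum_const, smul_eq_mul, mul_comm]

open scoped Classical in
/-- If `χ` is not a constituent of the permutation character, it sums to zero over a point
stabiliser. -/
theorem perm_inner_zero [MulAction.IsPretransitive G Ω] {χ : G → ℂ}
    (hcf : IsClassFunction G χ) (a : Ω)
    (h : classInner (fun g : G => (Nat.card (MulAction.fixedBy Ω g) : ℂ)) χ = 0) :
    (∑ g : G, if g • a = a then χ g else 0) = 0 := by
  have hπ : ∀ g : G, (Nat.card (MulAction.fixedBy Ω g) : ℂ)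
      = ∑ ω : Ω, if g • ω = ω then (1 : ℂ) else 0 := by
    intro g
    rw [Nat.card_coe_set_eq]
    have h1 : MulAction.fixedBy Ω g = ↑(Finset.univ.filter (fun ω : Ω => g • ω = ω)) := by
      ext ω
      simp [MulAction.mem_fixedBy]
    rw [h1, Set.ncard_coe_finset, Finset.card_filter]
    push_cast
    rfl
  unfold classInner at h
  have hGne : (Nat.card G : ℂ) ≠ 0 := by exact_mod_cast Nat.card_pos.ne'
  have h1 := (mul_eq_zero.mp h).resolve_left (inv_ne_zero hGne)
  have h2 : ∑ g : G, (Nat.card (MulAction.fixedBy Ω g) : ℂ) * (starRingEnd ℂ) (χ g)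
      = (Fintype.card Ω : ℂ) * (starRingEnd ℂ) (∑ g : G, if g • a = a then χ g else 0) := by
    have h3 : ∀ g : G, (Nat.card (MulAction.fixedBy Ω g) : ℂ) * (starRingEnd ℂ) (χ g)
        = ∑ ω : Ω, if g • ω = ω then (starRingEnd ℂ) (χ g) else 0 := by
      intro g
      rw [hπ g, Finset.sum_mul]
      refine Finset.sum_congr rfl fun ω _ => ?_
      rw [ite_mul, one_mul, zero_mul]
    rw [Finset.sum_congr rfl (fun g _ => h3 g), Finset.sum_comm]
    have h4 : ∀ ω : Ω, (∑ g : G, if g • ω = ω then (starRingEnd ℂ) (χ g) else 0)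
        = (starRingEnd ℂ) (∑ g : G, if g • a = a then χ g else 0) := by
      intro ω
      obtain ⟨u, rfl⟩ := MulAction.exists_smul_eq G a ω
      rw [map_sum]
      refine (Fintype.sum_equiv (MulAut.conj u).toEquiv _ _ (fun y => ?_)).symm
      show (starRingEnd ℂ) (if y • a = a then χ y else 0)
        = if (u * y * u⁻¹) • u • a = u • a then (starRingEnd ℂ) (χ (u * y * u⁻¹)) else 0
      have hiff : (u * y * u⁻¹) • u • a = u • a ↔ y • a = a := by
        rw [← mul_smul, inv_mul_cancel_right, mul_smul]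
        exact ⟨fun h => smul_left_cancel u h, fun h => by rw [h]⟩
      by_cases hy : y • a = a
      · rw [if_pos hy, if_pos (hiff.mpr hy), hcf y u]
      · rw [if_neg hy, if_neg (fun h => hy (hiff.mp h)), map_zero]
    rw [Finset.sum_congr rfl (fun ω _ => h4 ω), Finset.sum_const, Finset.card_univ,
      nsmul_eq_mul]
  rw [h2] at h1
  have hΩ : (Fintype.card Ω : ℂ) ≠ 0 := by
    exact_mod_cast (Fintype.card_pos_iff.mpr ⟨a⟩).ne'
  have h5 := (mul_eq_zero.mp h1).resolve_left hΩ
  exact (map_eq_zero (starRingEnd ℂ)).mp h5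

end PermChar

end Cfsg.Agent.Helper24
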