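import Cfsg.Agent.Helper24.PermSubdeg
import Cfsg.Agent.Helper24.CharInv
import Cfsg.Agent.Helper24.CharValues

set_option autoImplicit false

namespace Cfsg.Agent.Helper24

open Cfsg

/-- Column orthogonality against the identity: `∑ χ(1) χ(g)` is `|G|` at `1` and `0`
elsewhere. -/
theorem irr_regular_sum {G : Type*} [Group G] [Fintype G] [Fintype (IrrCharacter G)]
    [DecidableEq G] (g : G) :
    ∑ χ : IrrCharacter G, (χ : G → ℂ) 1 * (χ : G → ℂ) g
      = if g = 1 then (Nat.card G : ℂ) else 0 := by
  rw [← Helper2.regular_char g, Helper2.regular_char_eq_sum, Finset.sum_apply]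
  refine Finset.sum_congr rfl fun χ _ => ?_
  rw [Pi.smul_apply, smul_eq_mul]

section PermChar2

variable {G : Type*} [Group G] [Fintype G] {Ω : Type*} [Fintype Ω] [MulAction G Ω]

open scoped Classical in
theorem perm_fix_sum (g : G) : (Nat.card (MulAction.fixedBy Ω g) : ℂ)
    = ∑ ω : Ω, if g • ω = ω then (1 : ℂ) else 0 := by
  rw [Nat.card_coe_set_eq]
  have h1 : MulAction.fixedBy Ω g = ↑(Finset.univ.filter (fun ω : Ω => g • ω = ω)) := by
    ext ω
    simp [MulAction.mem_fixedBy]
  rw [h1, Set.ncard_coe_finset, Finset.card_filter]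
  push_cast
  rfl

open scoped Classical in
theorem perm_hc (a : Ω) : (Finset.univ.filter (fun g : G => g • a = a)).card
    = Nat.card (MulAction.stabilizer G a) := by
  rw [Nat.card_eq_fintype_card]
  exact (Fintype.card_of_subtype _ (fun g => by simp [MulAction.mem_stabilizer_iff])).symm

open scoped Classical in
theorem perm_sum_stab (a : Ω) (φ : G → ℂ) :
    (∑ g : G, if g • a = a then φ g else 0) = ∑ h : MulAction.stabilizer G a, φ (h : G) := by
  rw [← Finset.sum_filter]
  exact Finset.sum_subtype _ (fun g => by simp [MulAction.mem_stabilizer_iff]) _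

open scoped Classical in
theorem perm_fiber_card (a : Ω) (u : G) :
    (Finset.univ.filter (fun g : G => g • a = u • a)).card
      = (Finset.univ.filter (fun g : G => g • a = a)).card := by
  symm
  refine Finset.card_bij (fun g _ => u * g) ?_ ?_ ?_
  · intro g hg
    simp only [Finset.mem_filter, Finset.mem_univ, true_and] at hg ⊢
    rw [mul_smul, hg]
  · intro g₁ _ g₂ _ h
    exact mul_left_cancel h
  · intro g hg
    simp only [Finset.mem_filter, Finset.mem_univ, true_and] at hg
    refine ⟨u⁻¹ * g, ?_, by rw [mul_inv_cancel_left]⟩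
    simp only [Finset.mem_filter, Finset.mem_univ, true_and]
    rw [mul_smul, hg, inv_smul_smul]

open scoped Classical in
theorem perm_card_group [MulAction.IsPretransitive G Ω] (a : Ω) :
    Nat.card G = Fintype.card Ω * Nat.card (MulAction.stabilizer G a) := by
  have hmaps : ((Finset.univ : Finset G) : Set G).MapsTo (fun g : G => g • a)
      (Finset.univ : Finset Ω) := by
    intro g _
    simp
  rw [Nat.card_eq_fintype_card, ← Finset.card_univ, Finset.card_eq_sum_card_fiberwise hmaps]
  have hfib : ∀ ω ∈ (Finset.univ : Finset Ω),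
      ((Finset.univ : Finset G).filter (fun g => g • a = ω)).card
        = (Finset.univ.filter (fun g : G => g • a = a)).card := by
    intro ω _
    obtain ⟨u, rfl⟩ := MulAction.exists_smul_eq G a ω
    exact perm_fiber_card a u
  rw [Finset.sum_congr rfl hfib, Finset.sum_const, smul_eq_mul, Finset.card_univ, perm_hc a]

open scoped Classical in
theorem perm_inner_formula [MulAction.IsPretransitive G Ω] {χ : G → ℂ}
    (hcf : IsClassFunction G χ) (a : Ω) :
    classInner (fun g : G => (Nat.card (MulAction.fixedBy Ω g) : ℂ)) χ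
      = (Nat.card G : ℂ)⁻¹ * ((Fintype.card Ω : ℂ)
        * (starRingEnd ℂ) (∑ g : G, if g • a = a then χ g else 0)) := by
  unfold classInner
  congr 1
  have h3 : ∀ g : G, (Nat.card (MulAction.fixedBy Ω g) : ℂ) * (starRingEnd ℂ) (χ g)
      = ∑ ω : Ω, if g • ω = ω then (starRingEnd ℂ) (χ g) else 0 := by
    intro g
    rw [perm_fix_sum g, Finset.sum_mul]
    refine Finset.sum_congr rfl fun ω _ => ?_
    rw [ite_mul, one_mul, zero_mul]
  rw [Finset.sum_congr rfl (fun g _ => h3 g), Finset.sum_comm]
  have h4 : ∀ ω : Ω, (∑ g : G, if g • ω = ω then (starRingEnd ℂ) (χ g) else 0)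
      = (starRingEnd ℂ) (∑ g : G, if g • a = a then χ g else 0) := by
    intro ω
    obtain ⟨u, rfl⟩ := MulAction.exists_smul_eq G a ω
    rw [map_sum]
    refine (Fintype.sum_equiv (MulAut.conj u).toEquiv _ _ (fun y => ?_)).symm
    show (starRingEnd ℂ) (if y • a = a then χ y else 0)
      = if (u * y * u⁻¹) • u • a = u • a then (starRingEnd ℂ) (χ (u * y * u⁻¹)) else 0
    have hiff : (u * y * u⁻¹) • u • a = u • a ↔ y • a = a := by
      rw [← mul_smul, inv_mul_cancel_right, mul_smul]
      exact ⟨fun h => smul_left_cancel u h, fun h => by rw [h]⟩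
    by_cases hy : y • a = a
    · rw [if_pos hy, if_pos (hiff.mpr hy), hcf y u]
    · rw [if_neg hy, if_neg (fun h => hy (hiff.mp h)), map_zero]
  rw [Finset.sum_congr rfl (fun ω _ => h4 ω), Finset.sum_const, Finset.card_univ,
    nsmul_eq_mul]

open scoped Classical in
theorem perm_isClassFunction :
    IsClassFunction G (fun g : G => (Nat.card (MulAction.fixedBy Ω g) : ℂ)) := by
  intro g h
  show (Nat.card (MulAction.fixedBy Ω (h * g * h⁻¹)) : ℂ)
    = (Nat.card (MulAction.fixedBy Ω g) : ℂ)
  rw [perm_fix_sum, perm_fix_sum]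
  refine (Fintype.sum_equiv (MulAction.toPerm h) _ _ (fun ω => ?_)).symm
  show (if g • ω = ω then (1 : ℂ) else 0) = if (h * g * h⁻¹) • h • ω = h • ω then 1 else 0
  have hiff : (h * g * h⁻¹) • h • ω = h • ω ↔ g • ω = ω := by
    rw [← mul_smul, inv_mul_cancel_right, mul_smul]
    exact ⟨fun hh => smul_left_cancel h hh, fun hh => by rw [hh]⟩
  by_cases hy : g • ω = ω
  · rw [if_pos hy, if_pos (hiff.mpr hy)]
  · rw [if_neg hy, if_neg (fun hh => hy (hiff.mp hh))]

open scoped Classical in
theorem perm_stab_sum_nat {V : Type*} [AddCommGroup V] [Module ℂ V] [FiniteDimensional ℂ V]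
    (ρ : Representation ℂ G V) (a : Ω) :
    ∃ m : ℕ, (∑ g : G, if g • a = a then ρ.character g else 0)
      = (Nat.card (MulAction.stabilizer G a) : ℂ) * m := by
  have hne : (Nat.card (MulAction.stabilizer G a) : ℂ) ≠ 0 := by
    exact_mod_cast Nat.card_pos.ne'
  have : Invertible (Nat.card (MulAction.stabilizer G a) : ℂ) := invertibleOfNonzero hne
  obtain ⟨ρH, hρH⟩ : ∃ ρH : Representation ℂ (MulAction.stabilizer G a) V,
      ρH = ρ.comp (MulAction.stabilizer G a).subtype := ⟨_, rfl⟩
  have hfin := Representation.card_inv_mul_sum_char_eq_finrank (ρ := ρH)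
  refine ⟨Module.finrank ℂ (Representation.invariants ρH), ?_⟩
  rw [← hfin, ← mul_assoc, mul_inv_cancel₀ hne, one_mul, perm_sum_stab, hρH]
  exact Fintype.sum_equiv (Equiv.refl _) _ _ (fun _ => rfl)

open scoped Classical in
theorem perm_inner_nat [MulAction.IsPretransitive G Ω] (a : Ω) {χ : G → ℂ}
    (hχ : IsCharacter G χ) :
    ∃ m : ℕ, classInner (fun g : G => (Nat.card (MulAction.fixedBy Ω g) : ℂ)) χ = m ∧
      (∑ g : G, if g • a = a then χ g else 0)
        = (Nat.card (MulAction.stabilizer G a) : ℂ) * m := by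
  have hcf := Helper2.IsCharacter.isClassFunction hχ
  obtain ⟨d, ρ, rfl⟩ := hχ
  obtain ⟨m, hm⟩ := perm_stab_sum_nat ρ a
  refine ⟨m, ?_, hm⟩
  rw [perm_inner_formula hcf a, hm, map_mul, map_natCast, map_natCast, perm_card_group a,
    Nat.cast_mul]
  have hne : (Nat.card (MulAction.stabilizer G a) : ℂ) ≠ 0 := by
    exact_mod_cast Nat.card_pos.ne'
  have hΩ : (Fintype.card Ω : ℂ) ≠ 0 := by
    exact_mod_cast (Fintype.card_pos_iff.mpr ⟨a⟩).ne'
  field_simp

open scoped Classical in
theorem perm_burnside (a : Ω) :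
    (∑ h : MulAction.stabilizer G a, (Nat.card (MulAction.fixedBy Ω (h : G)) : ℂ))
      = (Nat.card (MulAction.orbitRel.Quotient (MulAction.stabilizer G a) Ω) : ℂ)
        * (Nat.card (MulAction.stabilizer G a) : ℂ) := by
  have := Fintype.ofFinite (MulAction.orbitRel.Quotient (MulAction.stabilizer G a) Ω)
  have hb := MulAction.sum_card_fixedBy_eq_card_orbits_mul_card_group
    (MulAction.stabilizer G a) Ω
  simp only [Fintype.card_eq_nat_card] at hb
  have h2 := congrArg (Nat.cast : ℕ → ℂ) hb
  rw [Nat.cast_sum, Nat.cast_mul] at h2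
  exact h2

open scoped Classical in
theorem perm_stab_card (a ω : Ω) :
    (∑ h : MulAction.stabilizer G a, if (h : G) • ω = ω then (1 : ℂ) else 0)
      = (Nat.card (MulAction.stabilizer (MulAction.stabilizer G a) ω) : ℂ) := by
  rw [← Finset.sum_filter, Finset.sum_const, nsmul_eq_mul, mul_one, Nat.card_eq_fintype_card]
  congr 1
  exact (Fintype.card_of_subtype _ (fun h => ⟨fun hh => (Finset.mem_filter.mp hh).2,
    fun hh => Finset.mem_filter.mpr ⟨Finset.mem_univ _, hh⟩⟩)).symm

theorem perm_orbit_stab (a ω : Ω) :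
    Nat.card (MulAction.stabilizer (MulAction.stabilizer G a) ω)
      * Nat.card (MulAction.orbit (MulAction.stabilizer G a) ω)
      = Nat.card (MulAction.stabilizer G a) := by
  rw [Nat.card_coe_set_eq (MulAction.orbit (MulAction.stabilizer G a) ω),
    ← MulAction.index_stabilizer]
  exact Subgroup.card_mul_index _

theorem perm_orbit_pos (a ω : Ω) :
    0 < Nat.card (MulAction.orbit (MulAction.stabilizer G a) ω) := by
  have : Nonempty (MulAction.orbit (MulAction.stabilizer G a) ω) :=
    ⟨⟨ω, MulAction.mem_orbit_self ω⟩⟩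
  exact Nat.card_pos

end PermChar2

end Cfsg.Agent.Helper24
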