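import Cfsg.Agent.Helper24.SLPerm

set_option autoImplicit false

namespace Cfsg.Agent.Helper24

open Cfsg

section PermDecomp

variable {G : Type*} [Group G] [Fintype G] {Ω : Type*} [Fintype Ω] [MulAction G Ω]

/-- Gelfand's trick gives a multiplicity-free permutation character. -/
theorem perm_mf_of_swap (θ : Ω → Ω) (hθ : Function.Bijective θ)
    (hsw : ∀ x y : Ω, ∃ g : G, g • x = θ y ∧ g • y = θ x) :
    ∀ χ : G → ℂ, IsIrrCharacter G χ →
      classInner (fun g : G => (Nat.card (MulAction.fixedBy Ω g) : ℂ)) χ = 0 ∨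
      classInner (fun g : G => (Nat.card (MulAction.fixedBy Ω g) : ℂ)) χ = 1 := by
  have hchar : (fun g : G => (Nat.card (MulAction.fixedBy Ω g) : ℂ))
      = (permRep ℂ G Ω).character := by
    funext g
    exact (permRep_character g).symm
  rw [hchar]
  exact (mult_free_iff_comm (permRep ℂ G Ω)).mpr
    (fun S T hS hT => gelfand_comm θ hθ hsw S T hS hT)

/-- A multiplicity-free transitive permutation character of rank `r` is the principal
character plus `r - 1` pairwise distinct irreducible characters. -/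
theorem perm_multfree_decomp [MulAction.IsPretransitive G Ω] (a : Ω) (r : ℕ)
    (hr : Nat.card (MulAction.orbitRel.Quotient (MulAction.stabilizer G a) Ω) = r)
    (hmf : ∀ χ : G → ℂ, IsIrrCharacter G χ →
      classInner (fun g : G => (Nat.card (MulAction.fixedBy Ω g) : ℂ)) χ = 0 ∨
      classInner (fun g : G => (Nat.card (MulAction.fixedBy Ω g) : ℂ)) χ = 1) :
    ∃ χ : Fin (r - 1) → (G → ℂ), (∀ i, IsIrrCharacter G (χ i)) ∧ Function.Injective χ ∧
      ∀ g : G, (Nat.card (MulAction.fixedBy Ω g) : ℂ) = 1 + ∑ i, χ i g := by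
  classical
  haveI : Fintype (IrrCharacter G) := @Fintype.ofFinite _ finite_irrCharacter
  obtain ⟨m, hm1, hm2, -, hm4, -⟩ := perm_data (G := G) (Ω := Ω) a
  rw [hr] at hm4
  have hm01 : ∀ χ : IrrCharacter G, m χ = 0 ∨ m χ = 1 := by
    intro χ
    have h1 := hm1 χ
    rcases hmf χ χ.2 with h | h
    · left
      rw [h] at h1
      exact_mod_cast h1.symm
    · right
      rw [h] at h1
      exact_mod_cast h1.symm
  obtain ⟨χ₁, hχ₁def⟩ : ∃ χ₁ : IrrCharacter G,
      χ₁ = ⟨fun _ => 1, Helper2.isIrrCharacter_one_fun⟩ := ⟨_, rfl⟩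
  have hχ₁v : (χ₁ : G → ℂ) = fun _ => 1 := by rw [hχ₁def]
  have hχ₁ : m χ₁ = 1 := hm2 χ₁ hχ₁v
  obtain ⟨S, hSdef⟩ : ∃ S : Finset (IrrCharacter G),
      S = Finset.univ.filter (fun χ : IrrCharacter G => m χ = 1) := ⟨_, rfl⟩
  have hχ₁S : χ₁ ∈ S := by
    rw [hSdef]
    exact Finset.mem_filter.mpr ⟨Finset.mem_univ _, hχ₁⟩
  have hScard : S.card = r := by
    rw [hSdef, Finset.card_filter, ← hm4]
    refine Finset.sum_congr rfl fun χ _ => ?_
    rcases hm01 χ with h | h <;> simp [h]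
  have hEcard : (S.erase χ₁).card = r - 1 := by
    rw [Finset.card_erase_of_mem hχ₁S, hScard]
  obtain ⟨e⟩ : Nonempty (Fin (r - 1) ≃ (S.erase χ₁ : Finset (IrrCharacter G))) :=
    ⟨(Finset.equivFinOfCardEq hEcard).symm⟩
  refine ⟨fun i => ((e i : IrrCharacter G) : G → ℂ), fun i => (e i).1.2, ?_, ?_⟩
  · intro i j hij
    exact e.injective (Subtype.ext (Subtype.ext hij))
  · intro g
    have hexp : (Nat.card (MulAction.fixedBy Ω g) : ℂ)
        = ∑ χ : IrrCharacter G,
          (classInner (fun g : G => (Nat.card (MulAction.fixedBy Ω g) : ℂ)) (χ : G → ℂ)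
            • (χ : G → ℂ)) g := by
      have h0 := congrFun
        (Helper2.class_fn_expansion (perm_isClassFunction (G := G) (Ω := Ω))) g
      rw [Finset.sum_apply] at h0
      exact h0
    have hsum1 : ∑ χ : IrrCharacter G,
          (classInner (fun g : G => (Nat.card (MulAction.fixedBy Ω g) : ℂ)) (χ : G → ℂ)
            • (χ : G → ℂ)) g
        = ∑ χ ∈ S, (χ : G → ℂ) g := by
      rw [hSdef, Finset.sum_filter]
      refine Finset.sum_congr rfl fun χ _ => ?_
      rw [Pi.smul_apply, smul_eq_mul, hm1 χ]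
      rcases hm01 χ with h | h <;> simp [h]
    have hsplit : ∑ χ ∈ S, (χ : G → ℂ) g
        = 1 + ∑ χ ∈ S.erase χ₁, (χ : G → ℂ) g := by
      have h0 := (Finset.add_sum_erase S (fun χ : IrrCharacter G => (χ : G → ℂ) g) hχ₁S).symm
      have h1 : (χ₁ : G → ℂ) g = 1 := by rw [hχ₁v]
      exact h0.trans
        (congrArg (fun t : ℂ => t + ∑ χ ∈ S.erase χ₁, (χ : G → ℂ) g) h1)
    have hre : ∑ χ ∈ S.erase χ₁, (χ : G → ℂ) g
        = ∑ i, ((e i : IrrCharacter G) : G → ℂ) g :=
      (Finset.sum_coe_sort (S.erase χ₁) (fun χ : IrrCharacter G => (χ : G → ℂ) g)).symm.trans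
        (Equiv.sum_comp e (fun x : (S.erase χ₁ : Finset (IrrCharacter G)) =>
          ((x : IrrCharacter G) : G → ℂ) g)).symm
    exact hexp.trans (hsum1.trans (hsplit.trans (congrArg (fun t : ℂ => 1 + t) hre)))

end PermDecomp

end Cfsg.Agent.Helper24
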