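import Cfsg.Agent.Helper24.PermChar2

set_option autoImplicit false

namespace Cfsg.Agent.Helper24

open Cfsg

section PermMultFree

variable {G : Type*} [Group G] [Fintype G] {Ω : Type*} [Fintype Ω] [MulAction G Ω]

set_option maxHeartbeats 800000 in
open scoped Classical in
/-- The multiplicities of the permutation character of a transitive group, with the degree
count, the rank formula and the orbit-reciprocal formula. -/
theorem perm_data [MulAction.IsPretransitive G Ω] [Fintype (IrrCharacter G)] (a : Ω) :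
    ∃ m : IrrCharacter G → ℕ,
      (∀ χ : IrrCharacter G,
        classInner (fun g : G => (Nat.card (MulAction.fixedBy Ω g) : ℂ)) (χ : G → ℂ) = m χ) ∧
      (∀ χ : IrrCharacter G, (χ : G → ℂ) = (fun _ => 1) → m χ = 1) ∧
      (∑ χ : IrrCharacter G, charDegree (χ : G → ℂ) * m χ = Fintype.card Ω) ∧
      (∑ χ : IrrCharacter G, (m χ) ^ 2
        = Nat.card (MulAction.orbitRel.Quotient (MulAction.stabilizer G a) Ω)) ∧
      (∑ χ : IrrCharacter G, ((m χ : ℚ)) ^ 2
        = ∑ ω : Ω, ((Nat.card (MulAction.orbit (MulAction.stabilizer G a) ω) : ℚ))⁻¹) := by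
  have hHne : (Nat.card (MulAction.stabilizer G a) : ℂ) ≠ 0 := by
    exact_mod_cast Nat.card_pos.ne'
  have hex : ∀ χ : IrrCharacter G, ∃ m : ℕ,
      classInner (fun g : G => (Nat.card (MulAction.fixedBy Ω g) : ℂ)) (χ : G → ℂ) = m ∧
      (∑ g : G, if g • a = a then (χ : G → ℂ) g else 0)
        = (Nat.card (MulAction.stabilizer G a) : ℂ) * m :=
    fun χ => perm_inner_nat a (isCharacter_of_irr χ.2)
  choose m hm1 hm2 using hex
  -- the stabiliser sum of the permutation character
  have hP : ∑ χ : IrrCharacter G, (m χ : ℂ)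
      * (∑ g : G, if g • a = a then (χ : G → ℂ) g else 0)
      = ∑ g : G, if g • a = a then (Nat.card (MulAction.fixedBy Ω g) : ℂ) else 0 := by
    have hexp := Helper2.class_fn_expansion (perm_isClassFunction (G := G) (Ω := Ω))
    have h1 : ∀ χ : IrrCharacter G, (m χ : ℂ)
        * (∑ g : G, if g • a = a then (χ : G → ℂ) g else 0)
        = ∑ g : G, if g • a = a then (m χ : ℂ) * (χ : G → ℂ) g else 0 := by
      intro χ
      rw [Finset.mul_sum]
      refine Finset.sum_congr rfl fun g _ => ?_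
      rw [mul_ite, mul_zero]
    rw [Finset.sum_congr rfl (fun χ _ => h1 χ), Finset.sum_comm]
    refine Finset.sum_congr rfl fun g _ => ?_
    by_cases hga : g • a = a
    · simp only [if_pos hga]
      have h2 : (Nat.card (MulAction.fixedBy Ω g) : ℂ)
          = ∑ χ : IrrCharacter G,
            (classInner (fun g : G => (Nat.card (MulAction.fixedBy Ω g) : ℂ)) (χ : G → ℂ)
              • (χ : G → ℂ)) g := by
        have h3 := congrFun hexp g
        rw [Finset.sum_apply] at h3
        exact h3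
      rw [h2]
      refine Finset.sum_congr rfl fun χ _ => ?_
      rw [Pi.smul_apply, smul_eq_mul, hm1 χ]
    · simp only [if_neg hga, Finset.sum_const_zero]
  have hPval : (∑ g : G, if g • a = a then (Nat.card (MulAction.fixedBy Ω g) : ℂ) else 0)
      = (Nat.card (MulAction.stabilizer G a) : ℂ)
        * ∑ χ : IrrCharacter G, ((m χ : ℂ)) ^ 2 := by
    rw [← hP, Finset.mul_sum]
    refine Finset.sum_congr rfl fun χ _ => ?_
    rw [hm2 χ]
    ring
  refine ⟨m, hm1, ?_, ?_, ?_, ?_⟩
  · intro χ hχ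
    have h := hm2 χ
    rw [hχ] at h
    have h2 : (∑ g : G, if g • a = a then (1 : ℂ) else 0)
        = (Nat.card (MulAction.stabilizer G a) : ℂ) := by
      rw [← Finset.sum_filter, Finset.sum_const, nsmul_eq_mul, mul_one, perm_hc a]
    have h3 : (Nat.card (MulAction.stabilizer G a) : ℂ) * 1
        = (Nat.card (MulAction.stabilizer G a) : ℂ) * (m χ : ℂ) := by
      rw [mul_one]
      exact h2.symm.trans h
    have h4 := mul_left_cancel₀ hHne h3
    exact_mod_cast h4.symm
  · have hreg : ∑ χ : IrrCharacter G, (χ : G → ℂ) 1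
        * (∑ g : G, if g • a = a then (χ : G → ℂ) g else 0) = (Nat.card G : ℂ) := by
      have h1 : ∀ χ : IrrCharacter G, (χ : G → ℂ) 1
          * (∑ g : G, if g • a = a then (χ : G → ℂ) g else 0)
          = ∑ g : G, if g • a = a then (χ : G → ℂ) 1 * (χ : G → ℂ) g else 0 := by
        intro χ
        rw [Finset.mul_sum]
        refine Finset.sum_congr rfl fun g _ => ?_
        rw [mul_ite, mul_zero]
      rw [Finset.sum_congr rfl (fun χ _ => h1 χ), Finset.sum_comm,
        Finset.sum_eq_single (1 : G)]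
      · simp only [if_pos (one_smul G a)]
        rw [irr_regular_sum (1 : G), if_pos rfl]
      · intro g _ hg
        by_cases hga : g • a = a
        · simp only [if_pos hga]
          rw [irr_regular_sum g, if_neg hg]
        · simp only [if_neg hga, Finset.sum_const_zero]
      · intro h
        exact absurd (Finset.mem_univ _) h
    have h5 : ∑ χ : IrrCharacter G, (χ : G → ℂ) 1
        * (∑ g : G, if g • a = a then (χ : G → ℂ) g else 0)
        = (Nat.card (MulAction.stabilizer G a) : ℂ)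
          * ((∑ χ : IrrCharacter G, charDegree (χ : G → ℂ) * m χ : ℕ) : ℂ) := by
      push_cast
      rw [Finset.mul_sum]
      refine Finset.sum_congr rfl fun χ _ => ?_
      rw [hm2 χ, charDegree_spec (isCharacter_of_irr χ.2)]
      ring
    rw [hreg, perm_card_group a, Nat.cast_mul, mul_comm] at h5
    have h7 := mul_left_cancel₀ hHne h5
    exact_mod_cast h7.symm
  · have h1 := perm_sum_stab a (fun g : G => (Nat.card (MulAction.fixedBy Ω g) : ℂ))
    rw [hPval, perm_burnside a, mul_comm] at h1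
    have h2 : (∑ χ : IrrCharacter G, ((m χ : ℂ)) ^ 2)
        = (Nat.card (MulAction.orbitRel.Quotient (MulAction.stabilizer G a) Ω) : ℂ) :=
      mul_right_cancel₀ hHne h1
    exact_mod_cast h2
  · have h1 := perm_sum_stab a (fun g : G => (Nat.card (MulAction.fixedBy Ω g) : ℂ))
    rw [hPval] at h1
    have h2 : (∑ h : MulAction.stabilizer G a, (Nat.card (MulAction.fixedBy Ω (h : G)) : ℂ))
        = (Nat.card (MulAction.stabilizer G a) : ℂ)
          * ∑ ω : Ω, ((Nat.card (MulAction.orbit (MulAction.stabilizer G a) ω) : ℂ))⁻¹ := by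
      have h3 : ∀ h : MulAction.stabilizer G a, (Nat.card (MulAction.fixedBy Ω (h : G)) : ℂ)
          = ∑ ω : Ω, if (h : G) • ω = ω then (1 : ℂ) else 0 := fun h => perm_fix_sum (h : G)
      rw [Finset.sum_congr rfl (fun h _ => h3 h), Finset.sum_comm, Finset.mul_sum]
      refine Finset.sum_congr rfl fun ω _ => ?_
      rw [perm_stab_card a ω]
      have h4 := perm_orbit_stab (G := G) a ω
      have hn : (Nat.card (MulAction.orbit (MulAction.stabilizer G a) ω) : ℂ) ≠ 0 := by
        exact_mod_cast (perm_orbit_pos (G := G) a ω).ne'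
      rw [← h4, Nat.cast_mul, mul_assoc, mul_inv_cancel₀ hn, mul_one]
    rw [h2] at h1
    have h5 : (∑ χ : IrrCharacter G, ((m χ : ℂ)) ^ 2)
        = ∑ ω : Ω, ((Nat.card (MulAction.orbit (MulAction.stabilizer G a) ω) : ℂ))⁻¹ :=
      mul_left_cancel₀ hHne h1
    apply (Rat.cast_injective (α := ℂ))
    push_cast
    exact h5

set_option maxHeartbeats 800000 in
/-- If all non-principal constituents of the permutation character of a transitive group have
the same degree `f`, the character is multiplicity-free and all non-trivial subdegrees are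
`f`. -/
theorem perm_same_degree [MulAction.IsPretransitive G Ω] (a : Ω) (f : ℕ)
    (hf : ∀ χ : G → ℂ, IsIrrCharacter G χ → χ ≠ (fun _ => 1) →
      classInner (fun g : G => (Nat.card (MulAction.fixedBy Ω g) : ℂ)) χ ≠ 0 → χ 1 = f) :
    (∀ χ : G → ℂ, IsIrrCharacter G χ →
      classInner (fun g : G => (Nat.card (MulAction.fixedBy Ω g) : ℂ)) χ = 0 ∨
      classInner (fun g : G => (Nat.card (MulAction.fixedBy Ω g) : ℂ)) χ = 1) ∧
    ∀ b : Ω, b ≠ a → Nat.card (MulAction.orbit (MulAction.stabilizer G a) b) = f := by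
  classical
  have := finite_irrCharacter (G := G)
  have := Fintype.ofFinite (IrrCharacter G)
  obtain ⟨m, hm1, hmtriv, hdeg, hrank, hinv⟩ := perm_data (G := G) a
  obtain ⟨χ1, hχ1⟩ : ∃ χ1 : IrrCharacter G, (χ1 : G → ℂ) = fun _ => 1 :=
    ⟨⟨fun _ => 1, Helper2.isIrrCharacter_one_fun⟩, rfl⟩
  have hm11 : m χ1 = 1 := hmtriv χ1 hχ1
  have hd1 : charDegree (χ1 : G → ℂ) = 1 := by
    have h := charDegree_spec (isCharacter_of_irr χ1.2)
    rw [hχ1] at h
    rw [hχ1]
    have h' : ((1 : ℕ) : ℂ) = (charDegree (fun _ : G => (1 : ℂ)) : ℂ) := by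
      rw [Nat.cast_one]
      exact h
    exact_mod_cast h'.symm
  have hdpos : ∀ χ : IrrCharacter G, 0 < charDegree (χ : G → ℂ) := fun χ => irr_degree_pos χ.2
  have hdf : ∀ χ : IrrCharacter G, χ ≠ χ1 → charDegree (χ : G → ℂ) * m χ = f * m χ := by
    intro χ hne
    by_cases h0 : m χ = 0
    · rw [h0, mul_zero, mul_zero]
    · have hne' : (χ : G → ℂ) ≠ fun _ => 1 := fun h => hne (Subtype.ext (h.trans hχ1.symm))
      have hci : classInner (fun g : G => (Nat.card (MulAction.fixedBy Ω g) : ℂ)) (χ : G → ℂ)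
          ≠ 0 := by
        rw [hm1 χ]
        exact_mod_cast h0
      have h2 := hf χ χ.2 hne' hci
      rw [charDegree_spec (isCharacter_of_irr χ.2)] at h2
      have h3 : charDegree (χ : G → ℂ) = f := by exact_mod_cast h2
      rw [h3]
  have hdeg' : 1 + ∑ χ ∈ Finset.univ.erase χ1, f * m χ = Fintype.card Ω := by
    rw [← hdeg, ← Finset.add_sum_erase Finset.univ _ (Finset.mem_univ χ1), hd1, hm11, mul_one]
    congr 1
    exact Finset.sum_congr rfl fun χ hχ => (hdf χ (Finset.ne_of_mem_erase hχ)).symm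
  have hna : Nat.card (MulAction.orbit (MulAction.stabilizer G a) a) = 1 := by
    have h1 : MulAction.orbit (MulAction.stabilizer G a) a = {a} := by
      ext ω
      constructor
      · rintro ⟨h, rfl⟩
        exact Set.mem_singleton_iff.mpr (MulAction.mem_stabilizer_iff.mp h.2)
      · intro hω
        rw [Set.mem_singleton_iff.mp hω]
        exact MulAction.mem_orbit_self a
    rw [h1, Nat.card_coe_set_eq, Set.ncard_singleton]
  have hnpos : ∀ ω : Ω, 0 < Nat.card (MulAction.orbit (MulAction.stabilizer G a) ω) :=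
    fun ω => perm_orbit_pos a ω
  have hinv' : ∑ χ ∈ Finset.univ.erase χ1, ((m χ : ℚ)) ^ 2
      = ∑ ω ∈ Finset.univ.erase a,
        ((Nat.card (MulAction.orbit (MulAction.stabilizer G a) ω) : ℚ))⁻¹ := by
    have e1 := Finset.add_sum_erase Finset.univ (fun χ : IrrCharacter G => ((m χ : ℚ)) ^ 2)
      (Finset.mem_univ χ1)
    have e2 := Finset.add_sum_erase Finset.univ
      (fun ω : Ω => ((Nat.card (MulAction.orbit (MulAction.stabilizer G a) ω) : ℚ))⁻¹)
      (Finset.mem_univ a)
    simp only [hm11, hna, Nat.cast_one, one_pow, inv_one] at e1 e2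
    linarith
  by_cases hΩ : ∀ b : Ω, b = a
  · have hcard : Fintype.card Ω = 1 := Fintype.card_eq_one_iff.mpr ⟨a, hΩ⟩
    have hz : ∑ χ ∈ Finset.univ.erase χ1, f * m χ = 0 := by omega
    have hzero : ∀ χ : IrrCharacter G, χ ≠ χ1 → m χ = 0 := by
      intro χ hne
      have h1 := (Finset.sum_eq_zero_iff.mp hz) χ
        (Finset.mem_erase.mpr ⟨hne, Finset.mem_univ _⟩)
      have h2 := hdf χ hne
      rw [h1] at h2
      rcases Nat.mul_eq_zero.mp h2 with h3 | h3
      · exact absurd h3 (hdpos χ).ne'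
      · exact h3
    refine ⟨fun χ hχ => ?_, fun b hb => absurd (hΩ b) hb⟩
    obtain ⟨χ', hχ'⟩ : ∃ χ' : IrrCharacter G, (χ' : G → ℂ) = χ := ⟨⟨χ, hχ⟩, rfl⟩
    rw [← hχ', hm1 χ']
    by_cases h : χ' = χ1
    · right
      rw [h, hm11, Nat.cast_one]
    · left
      rw [hzero χ' h, Nat.cast_zero]
  · push Not at hΩ
    obtain ⟨b₀, hb₀⟩ := hΩ
    have hcard2 : 2 ≤ Fintype.card Ω := by
      have h1 : 1 < Fintype.card Ω := Fintype.one_lt_card_iff_nontrivial.mpr ⟨⟨b₀, a, hb₀⟩⟩
      omega
    have hfpos : 0 < f := by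
      rcases Nat.eq_zero_or_pos f with h0 | h0
      · exfalso
        rw [h0] at hdeg'
        simp only [zero_mul, Finset.sum_const_zero] at hdeg'
        omega
      · exact h0
    have hdvd : ∀ b : Ω, b ≠ a →
        f ∣ Nat.card (MulAction.orbit (MulAction.stabilizer G a) b) := by
      intro b hb
      exact perm_subdegree_dvd f
        (fun χ h1 h2 h3 => ⟨1, by rw [hf χ h1 h2 h3, Nat.cast_one, mul_one]⟩) a b hb
    have hle : ∀ b : Ω, b ≠ a →
        f ≤ Nat.card (MulAction.orbit (MulAction.stabilizer G a) b) :=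
      fun b hb => Nat.le_of_dvd (hnpos b) (hdvd b hb)
    have hX : ∀ b ∈ Finset.univ.erase a, (0 : ℚ) ≤ 1 - (f : ℚ)
        * ((Nat.card (MulAction.orbit (MulAction.stabilizer G a) b) : ℚ))⁻¹ := by
      intro b hb
      have h1 := hle b (Finset.ne_of_mem_erase hb)
      have h2 : (0 : ℚ) < (Nat.card (MulAction.orbit (MulAction.stabilizer G a) b) : ℚ) := by
        exact_mod_cast hnpos b
      have h3 : (f : ℚ) ≤ (Nat.card (MulAction.orbit (MulAction.stabilizer G a) b) : ℚ) := by
        exact_mod_cast h1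
      rw [sub_nonneg, ← div_eq_mul_inv, div_le_one h2]
      exact h3
    have hY : ∀ χ ∈ Finset.univ.erase χ1,
        (0 : ℚ) ≤ (f : ℚ) * (((m χ : ℚ)) ^ 2 - (m χ : ℚ)) := by
      intro χ _
      have h1 : (m χ : ℚ) ≤ ((m χ : ℚ)) ^ 2 := by
        have h0 : m χ ≤ (m χ) ^ 2 := Nat.le_self_pow (by norm_num) _
        exact_mod_cast h0
      have h2 : (0 : ℚ) ≤ (f : ℚ) := by positivity
      exact mul_nonneg h2 (sub_nonneg.mpr h1)
    have hXeq : ∑ b ∈ Finset.univ.erase a, (1 - (f : ℚ)
        * ((Nat.card (MulAction.orbit (MulAction.stabilizer G a) b) : ℚ))⁻¹)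
        = ((Fintype.card Ω : ℚ) - 1) - (f : ℚ) * ∑ b ∈ Finset.univ.erase a,
          ((Nat.card (MulAction.orbit (MulAction.stabilizer G a) b) : ℚ))⁻¹ := by
      rw [Finset.sum_sub_distrib, ← Finset.mul_sum, Finset.sum_const,
        Finset.card_erase_of_mem (Finset.mem_univ a), Finset.card_univ, nsmul_eq_mul, mul_one,
        Nat.cast_sub (by omega : 1 ≤ Fintype.card Ω), Nat.cast_one]
    have hYeq : ∑ χ ∈ Finset.univ.erase χ1, (f : ℚ) * (((m χ : ℚ)) ^ 2 - (m χ : ℚ))
        = (f : ℚ) * ∑ χ ∈ Finset.univ.erase χ1, ((m χ : ℚ)) ^ 2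
          - (f : ℚ) * ∑ χ ∈ Finset.univ.erase χ1, (m χ : ℚ) := by
      rw [← Finset.mul_sum, Finset.sum_sub_distrib, mul_sub]
    have hdegq : (f : ℚ) * ∑ χ ∈ Finset.univ.erase χ1, (m χ : ℚ)
        = (Fintype.card Ω : ℚ) - 1 := by
      have h1 : ((1 + ∑ χ ∈ Finset.univ.erase χ1, f * m χ : ℕ) : ℚ)
          = (Fintype.card Ω : ℚ) := by exact_mod_cast hdeg'
      push_cast at h1
      rw [← Finset.mul_sum] at h1
      linarith
    have hX0 : ∑ b ∈ Finset.univ.erase a, (1 - (f : ℚ)
        * ((Nat.card (MulAction.orbit (MulAction.stabilizer G a) b) : ℚ))⁻¹) = 0 := by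
      apply le_antisymm _ (Finset.sum_nonneg hX)
      have hYnn := Finset.sum_nonneg hY
      rw [hYeq, hinv'] at hYnn
      rw [hXeq]
      linarith
    have hY0 : ∑ χ ∈ Finset.univ.erase χ1, (f : ℚ) * (((m χ : ℚ)) ^ 2 - (m χ : ℚ)) = 0 := by
      apply le_antisymm _ (Finset.sum_nonneg hY)
      rw [hXeq] at hX0
      rw [hYeq, hinv']
      linarith
    have hXt := (Finset.sum_eq_zero_iff_of_nonneg hX).mp hX0
    have hYt := (Finset.sum_eq_zero_iff_of_nonneg hY).mp hY0
    have hK1 : ∀ χ : IrrCharacter G, χ ≠ χ1 → m χ = 0 ∨ m χ = 1 := by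
      intro χ hne
      have h1 := hYt χ (Finset.mem_erase.mpr ⟨hne, Finset.mem_univ _⟩)
      have hfq : (f : ℚ) ≠ 0 := by exact_mod_cast hfpos.ne'
      have h2 := (mul_eq_zero.mp h1).resolve_left hfq
      have h3 : ((m χ : ℚ)) ^ 2 = (m χ : ℚ) := by linarith
      have h4 : (m χ) ^ 2 = m χ := by exact_mod_cast h3
      rcases Nat.eq_zero_or_pos (m χ) with h5 | h5
      · left
        exact h5
      · right
        have h6 : m χ * m χ = m χ * 1 := by
          rw [mul_one, ← sq]
          exact h4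
        exact Nat.eq_of_mul_eq_mul_left h5 h6
    have hK2 : ∀ b : Ω, b ≠ a →
        Nat.card (MulAction.orbit (MulAction.stabilizer G a) b) = f := by
      intro b hb
      have h1 := hXt b (Finset.mem_erase.mpr ⟨hb, Finset.mem_univ _⟩)
      have h2 : (Nat.card (MulAction.orbit (MulAction.stabilizer G a) b) : ℚ) ≠ 0 := by
        exact_mod_cast (hnpos b).ne'
      have h3 : (f : ℚ) * ((Nat.card (MulAction.orbit (MulAction.stabilizer G a) b) : ℚ))⁻¹
          = 1 := by linarith
      have h4 : (f : ℚ) = (Nat.card (MulAction.orbit (MulAction.stabilizer G a) b) : ℚ) := by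
        have h5 := congrArg
          (fun z : ℚ => z * (Nat.card (MulAction.orbit (MulAction.stabilizer G a) b) : ℚ)) h3
        simp only [one_mul] at h5
        rw [mul_assoc, inv_mul_cancel₀ h2, mul_one] at h5
        exact h5
      exact_mod_cast h4.symm
    refine ⟨fun χ hχ => ?_, hK2⟩
    obtain ⟨χ', hχ'⟩ : ∃ χ' : IrrCharacter G, (χ' : G → ℂ) = χ := ⟨⟨χ, hχ⟩, rfl⟩
    rw [← hχ', hm1 χ']
    by_cases h : χ' = χ1
    · right
      rw [h, hm11, Nat.cast_one]
    · rcases hK1 χ' h with h0 | h0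
      · left
        rw [h0, Nat.cast_zero]
      · right
        rw [h0, Nat.cast_one]

set_option maxHeartbeats 800000 in
/-- A transitive group of rank at most 5 has multiplicity-free permutation character. -/
theorem perm_rank_le_five [MulAction.IsPretransitive G Ω] (a : Ω)
    (hr : Nat.card (MulAction.orbitRel.Quotient (MulAction.stabilizer G a) Ω) ≤ 5) :
    ∀ χ : G → ℂ, IsIrrCharacter G χ →
      classInner (fun g : G => (Nat.card (MulAction.fixedBy Ω g) : ℂ)) χ = 0 ∨
      classInner (fun g : G => (Nat.card (MulAction.fixedBy Ω g) : ℂ)) χ = 1 := by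
  classical
  have := finite_irrCharacter (G := G)
  have := Fintype.ofFinite (IrrCharacter G)
  obtain ⟨m, hm1, hmtriv, hdeg, hrank, hinv⟩ := perm_data (G := G) a
  obtain ⟨χ1, hχ1⟩ : ∃ χ1 : IrrCharacter G, (χ1 : G → ℂ) = fun _ => 1 :=
    ⟨⟨fun _ => 1, Helper2.isIrrCharacter_one_fun⟩, rfl⟩
  have hm11 : m χ1 = 1 := hmtriv χ1 hχ1
  intro χ hχ
  by_contra hcon
  push Not at hcon
  obtain ⟨χ', hχ'⟩ : ∃ χ' : IrrCharacter G, (χ' : G → ℂ) = χ := ⟨⟨χ, hχ⟩, rfl⟩
  have hm2 : 2 ≤ m χ' := by
    have h0 : m χ' ≠ 0 := by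
      intro h
      apply hcon.1
      rw [← hχ', hm1 χ', h, Nat.cast_zero]
    have h1 : m χ' ≠ 1 := by
      intro h
      apply hcon.2
      rw [← hχ', hm1 χ', h, Nat.cast_one]
    omega
  have hne1 : χ' ≠ χ1 := by
    intro h
    rw [h, hm11] at hm2
    omega
  have hsum : ∑ ψ : IrrCharacter G, (m ψ) ^ 2 ≤ 5 := by
    rw [hrank]
    exact hr
  have hothers : ∀ ψ : IrrCharacter G, ψ ≠ χ1 → ψ ≠ χ' → m ψ = 0 := by
    intro ψ h1 h2
    by_contra h0
    have h3 : ∑ φ ∈ ({χ1, χ', ψ} : Finset (IrrCharacter G)), (m φ) ^ 2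
        ≤ ∑ φ : IrrCharacter G, (m φ) ^ 2 :=
      Finset.sum_le_sum_of_subset (Finset.subset_univ _)
    rw [Finset.sum_insert (by simp [Ne.symm hne1, Ne.symm h1]),
      Finset.sum_insert (by simp [Ne.symm h2]), Finset.sum_singleton, hm11] at h3
    have h4 : 4 ≤ (m χ') ^ 2 := by nlinarith
    have h5 : 1 ≤ (m ψ) ^ 2 := Nat.one_le_pow _ _ (Nat.pos_of_ne_zero h0)
    omega
  have ha := perm_same_degree a (charDegree (χ' : G → ℂ)) (by
    intro ψ hψ hψ1 hψc
    obtain ⟨ψ', hψ'⟩ : ∃ ψ' : IrrCharacter G, (ψ' : G → ℂ) = ψ := ⟨⟨ψ, hψ⟩, rfl⟩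
    have hψne1 : ψ' ≠ χ1 := by
      intro h
      apply hψ1
      rw [← hψ', h, hχ1]
    have hψeq : ψ' = χ' := by
      by_contra hne
      have h0 := hothers ψ' hψne1 hne
      apply hψc
      rw [← hψ', hm1 ψ', h0, Nat.cast_zero]
    rw [← hψ', hψeq]
    exact charDegree_spec (isCharacter_of_irr χ'.2))
  rcases ha.1 χ hχ with h | h
  · exact hcon.1 h
  · exact hcon.2 h

end PermMultFree

end Cfsg.Agent.Helper24
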