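import Cfsg.Agent.Helper24.PermChar

set_option autoImplicit false

namespace Cfsg.Agent.Helper24

open Cfsg Polynomial

set_option maxHeartbeats 800000 in
/-- If `f` divides the degree of every non-principal irreducible constituent of the permutation
character of a transitive group, then `f` divides every non-trivial subdegree. -/
theorem perm_subdegree_dvd {G : Type*} [Group G] [Fintype G] {Ω : Type*} [Fintype Ω]
    [MulAction G Ω] [MulAction.IsPretransitive G Ω] (f : ℕ)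
    (hf : ∀ χ : G → ℂ, IsIrrCharacter G χ → χ ≠ (fun _ => 1) →
      classInner (fun g : G => (Nat.card (MulAction.fixedBy Ω g) : ℂ)) χ ≠ 0 →
      ∃ m : ℕ, χ 1 = (f : ℂ) * m)
    (a b : Ω) (hab : b ≠ a) :
    f ∣ Nat.card (MulAction.orbit (MulAction.stabilizer G a) b) := by
  classical
  have := finite_irrCharacter (G := G)
  have := Fintype.ofFinite (IrrCharacter G)
  obtain ⟨hc, hhc⟩ : ∃ hc : ℕ, hc = (Finset.univ.filter (fun g : G => g • a = a)).card :=
    ⟨_, rfl⟩
  have hcpos : 0 < hc := by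
    rw [hhc]
    exact Finset.card_pos.mpr ⟨1, by simp⟩
  have hcne : (hc : ℂ) ≠ 0 := by exact_mod_cast hcpos.ne'
  obtain ⟨n, hn⟩ : ∃ n : ℕ, n = Nat.card (MulAction.orbit (MulAction.stabilizer G a) b) :=
    ⟨_, rfl⟩
  rw [← hn]
  have hper : ∀ χ : IrrCharacter G, (χ : G → ℂ) ≠ (fun _ => 1) → ∃ c : ℂ, IsIntegral ℤ c ∧
      (χ : G → ℂ) 1 * (∑ g : G, if dcMem a b g then (χ : G → ℂ) g else 0)
        = (hc : ℂ) * (f : ℂ) * c := by
    intro χ hne
    obtain ⟨d, ρ, hirr, hρ⟩ := χ.2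
    obtain ⟨hint, hvan⟩ := perm_rep_main ρ a b
    rw [hρ, ← hhc] at hint
    rw [hρ] at hvan
    by_cases hcon : classInner (fun g : G => (Nat.card (MulAction.fixedBy Ω g) : ℂ))
        (χ : G → ℂ) = 0
    · refine ⟨0, isIntegral_zero, ?_⟩
      rw [hvan (perm_inner_zero (Helper2.IsIrrCharacter.isClassFunction χ.2) a hcon), mul_zero,
        mul_zero]
    · obtain ⟨m, hm⟩ := hf χ χ.2 hne hcon
      refine ⟨(m : ℂ) * ((hc : ℂ)⁻¹ * ∑ g : G, if dcMem a b g then (χ : G → ℂ) g else 0),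
        (isIntegral_natCast m).mul hint, ?_⟩
      rw [hm]
      have h1 : (hc : ℂ) * (hc : ℂ)⁻¹ = 1 := mul_inv_cancel₀ hcne
      linear_combination (-(f : ℂ) * m * ∑ g : G, if dcMem a b g then (χ : G → ℂ) g else 0) * h1
  choose! c hc_int hc_eq using hper
  have hreg : ∀ g : G, ∑ χ : IrrCharacter G, (χ : G → ℂ) 1 * (χ : G → ℂ) g
      = if g = 1 then (Nat.card G : ℂ) else 0 := by
    intro g
    rw [← Helper2.regular_char g, Helper2.regular_char_eq_sum, Finset.sum_apply]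
    refine Finset.sum_congr rfl fun χ _ => ?_
    rw [Pi.smul_apply, smul_eq_mul]
  have hnd1 : ¬ dcMem a b (1 : G) := by
    rintro ⟨h, h1, h2⟩
    rw [one_smul] at h2
    apply hab
    have h3 : h • b = h • a := by rw [h2, h1]
    exact smul_left_cancel h h3
  have hsum0 : ∑ χ : IrrCharacter G, (χ : G → ℂ) 1
      * (∑ g : G, if dcMem a b g then (χ : G → ℂ) g else 0) = 0 := by
    have h1 : ∀ χ : IrrCharacter G, (χ : G → ℂ) 1
        * (∑ g : G, if dcMem a b g then (χ : G → ℂ) g else 0)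
        = ∑ g : G, if dcMem a b g then (χ : G → ℂ) 1 * (χ : G → ℂ) g else 0 := by
      intro χ
      rw [Finset.mul_sum]
      refine Finset.sum_congr rfl fun g _ => ?_
      rw [mul_ite, mul_zero]
    rw [Finset.sum_congr rfl (fun χ _ => h1 χ), Finset.sum_comm]
    refine Finset.sum_eq_zero fun g _ => ?_
    by_cases hg : dcMem a b g
    · have hg1 : g ≠ 1 := by
        rintro rfl
        exact hnd1 hg
      simp only [if_pos hg]
      rw [hreg g, if_neg hg1]
    · simp only [if_neg hg, Finset.sum_const_zero]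
  obtain ⟨χ1, hχ1⟩ : ∃ χ1 : IrrCharacter G, (χ1 : G → ℂ) = fun _ => 1 :=
    ⟨⟨fun _ => 1, Helper2.isIrrCharacter_one_fun⟩, rfl⟩
  rw [← Finset.add_sum_erase Finset.univ _ (Finset.mem_univ χ1)] at hsum0
  have hT1 : (χ1 : G → ℂ) 1 * (∑ g : G, if dcMem a b g then (χ1 : G → ℂ) g else 0)
      = (hc : ℂ) * (n : ℂ) := by
    rw [hχ1]
    show (1 : ℂ) * (∑ g : G, if dcMem a b g then (1 : ℂ) else 0) = _
    rw [one_mul, ← Finset.sum_filter, Finset.sum_const, nsmul_eq_mul, mul_one,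
      perm_dc_card a b, ← hhc, ← hn, Nat.cast_mul]
  have hrest : ∑ χ ∈ Finset.univ.erase χ1, (χ : G → ℂ) 1
      * (∑ g : G, if dcMem a b g then (χ : G → ℂ) g else 0)
      = (hc : ℂ) * (f : ℂ) * ∑ χ ∈ Finset.univ.erase χ1, c χ := by
    rw [Finset.mul_sum]
    refine Finset.sum_congr rfl fun χ hχ => ?_
    have hne : (χ : G → ℂ) ≠ fun _ => 1 := by
      intro h
      exact (Finset.ne_of_mem_erase hχ) (Subtype.ext (h.trans hχ1.symm))
    exact hc_eq χ hne
  rw [hT1, hrest] at hsum0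
  obtain ⟨C, hC⟩ : ∃ C : ℂ, C = ∑ χ ∈ Finset.univ.erase χ1, c χ := ⟨_, rfl⟩
  have hCint : IsIntegral ℤ C := by
    rw [hC]
    refine IsIntegral.sum _ fun χ hχ => ?_
    exact hc_int χ (fun h => (Finset.ne_of_mem_erase hχ) (Subtype.ext (h.trans hχ1.symm)))
  rw [← hC] at hsum0
  have hnC : (n : ℂ) = -(f : ℂ) * C := by
    have h1 : (hc : ℂ) * ((n : ℂ) + (f : ℂ) * C) = 0 := by
      rw [← hsum0]
      ring
    have h2 := (mul_eq_zero.mp h1).resolve_left hcne
    linear_combination h2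
  by_cases hf0 : f = 0
  · subst hf0
    simp only [Nat.cast_zero, neg_zero, zero_mul] at hnC
    have h1 : n = 0 := by exact_mod_cast hnC
    rw [h1]
  · have hfC : (f : ℂ) ≠ 0 := by exact_mod_cast hf0
    have hCq : C = ((-(n : ℚ) / (f : ℚ) : ℚ) : ℂ) := by
      push_cast
      rw [eq_div_iff hfC]
      linear_combination hnC
    rw [hCq] at hCint
    obtain ⟨z, hz⟩ := Helper2.int_of_isIntegral_rat hCint
    have hfq : (f : ℚ) ≠ 0 := by exact_mod_cast hf0
    have h3 : (n : ℚ) = (f : ℚ) * (-(z : ℚ)) := by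
      rw [div_eq_iff hfq] at hz
      linarith
    have h4 : (n : ℤ) = (f : ℤ) * (-z) := by exact_mod_cast h3
    exact Int.natCast_dvd_natCast.mp ⟨-z, h4⟩

end Cfsg.Agent.Helper24
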