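import Mathlib
import Cfsg.Agent.Helper24.MultFreeComm
import Cfsg.Agent.Helper24.PermMultFree

set_option autoImplicit false

namespace Cfsg.Agent.Helper24

open Cfsg

section Gelfand

variable {G : Type*} [Group G] {Ω : Type*} [Fintype Ω] [MulAction G Ω]

/-- Gelfand's trick for permutation modules: if some bijection `θ` of the points has the
property that every ordered pair `(x, y)` can be moved by the group to `(θ y, θ x)`, then the
centraliser algebra of the permutation module is commutative. -/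
theorem gelfand_comm (θ : Ω → Ω) (hθ : Function.Bijective θ)
    (hsw : ∀ x y : Ω, ∃ g : G, g • x = θ y ∧ g • y = θ x)
    (S T : (Ω → ℂ) →ₗ[ℂ] (Ω → ℂ))
    (hS : S ∈ ((permRep ℂ G Ω).linHom (permRep ℂ G Ω)).invariants)
    (hT : T ∈ ((permRep ℂ G Ω).linHom (permRep ℂ G Ω)).invariants) :
    S ∘ₗ T = T ∘ₗ S := by
  classical
  rw [mem_linHom_inv] at hS hT
  have hperm : ∀ (g : G) (y : Ω),
      permRep ℂ G Ω g (Pi.single y (1 : ℂ)) = (Pi.single (g • y) (1 : ℂ) : Ω → ℂ) := by
    intro g y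
    funext x
    show (Pi.single y (1 : ℂ) : Ω → ℂ) (g⁻¹ • x) = (Pi.single (g • y) (1 : ℂ) : Ω → ℂ) x
    rw [Pi.single_apply, Pi.single_apply]
    by_cases h : x = g • y
    · rw [if_pos h, if_pos (show g⁻¹ • x = y by rw [h, inv_smul_smul])]
    · rw [if_neg h, if_neg (fun h' : g⁻¹ • x = y => h (by rw [← h', smul_inv_smul]))]
  have hinv : ∀ (R : (Ω → ℂ) →ₗ[ℂ] (Ω → ℂ)),
      (∀ (g : G) (v : Ω → ℂ), R (permRep ℂ G Ω g v) = permRep ℂ G Ω g (R v)) →
      ∀ (g : G) (x y : Ω),
        R (Pi.single (g • y) (1 : ℂ)) (g • x) = R (Pi.single y (1 : ℂ)) x := by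
    intro R hR g x y
    rw [← hperm g y, hR g (Pi.single y (1 : ℂ))]
    show R (Pi.single y (1 : ℂ)) (g⁻¹ • g • x) = R (Pi.single y (1 : ℂ)) x
    rw [inv_smul_smul]
  have hsym : ∀ (R : (Ω → ℂ) →ₗ[ℂ] (Ω → ℂ)),
      (∀ (g : G) (v : Ω → ℂ), R (permRep ℂ G Ω g v) = permRep ℂ G Ω g (R v)) →
      ∀ (x y : Ω), R (Pi.single y (1 : ℂ)) x = R (Pi.single (θ x) (1 : ℂ)) (θ y) := by
    intro R hR x y
    obtain ⟨g, hg1, hg2⟩ := hsw x y
    rw [← hinv R hR g x y, hg1, hg2]
  have hexp : ∀ (R : (Ω → ℂ) →ₗ[ℂ] (Ω → ℂ)) (f : Ω → ℂ) (x : Ω),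
      R f x = ∑ y, f y * R (Pi.single y (1 : ℂ)) x := by
    intro R f x
    have hf : f = ∑ y, f y • (Pi.single y (1 : ℂ) : Ω → ℂ) := by
      funext z
      rw [Finset.sum_apply]
      simp [Pi.single_apply]
    have h1 : R f x = R (∑ y, f y • (Pi.single y (1 : ℂ) : Ω → ℂ)) x := by rw [← hf]
    rw [h1, map_sum, Finset.sum_apply]
    refine Finset.sum_congr rfl fun y _ => ?_
    rw [map_smul, Pi.smul_apply, smul_eq_mul]
  have hcomp : ∀ (A B : (Ω → ℂ) →ₗ[ℂ] (Ω → ℂ)) (x z : Ω),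
      (A ∘ₗ B) (Pi.single z (1 : ℂ)) x
        = ∑ y, A (Pi.single y (1 : ℂ)) x * B (Pi.single z (1 : ℂ)) y := by
    intro A B x z
    rw [LinearMap.comp_apply, hexp A (B (Pi.single z (1 : ℂ))) x]
    exact Finset.sum_congr rfl fun y _ => mul_comm _ _
  have hSTinv : ∀ (g : G) (v : Ω → ℂ),
      (S ∘ₗ T) (permRep ℂ G Ω g v) = permRep ℂ G Ω g ((S ∘ₗ T) v) := by
    intro g v
    rw [LinearMap.comp_apply, LinearMap.comp_apply, hT g v, hS g (T v)]
  apply LinearMap.pi_ext
  intro z c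
  have hc : (Pi.single z c : Ω → ℂ) = c • (Pi.single z (1 : ℂ) : Ω → ℂ) := by
    rw [← Pi.single_smul, smul_eq_mul, mul_one]
  rw [hc, map_smul, map_smul]
  refine congrArg (fun w : Ω → ℂ => c • w) ?_
  funext x
  rw [hsym (S ∘ₗ T) hSTinv x z, hcomp S T (θ z) (θ x), hcomp T S x z]
  rw [← Equiv.sum_comp (Equiv.ofBijective θ hθ)
    (fun y => S (Pi.single y (1 : ℂ)) (θ z) * T (Pi.single (θ x) (1 : ℂ)) y)]
  refine Finset.sum_congr rfl fun y _ => ?_
  show S (Pi.single (θ y) (1 : ℂ)) (θ z) * T (Pi.single (θ x) (1 : ℂ)) (θ y) = _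
  rw [← hsym S hS y z, ← hsym T hT x y, mul_comm]

end Gelfand

section SLTrans

/-- The special linear group carries any linearly independent family with fewer than `n`
members to any other such family. -/
theorem sl_trans_family {F : Type*} [Field F] {n : ℕ} {ι : Type*} [Fintype ι]
    (a b : ι → (Fin n → F)) (ha : LinearIndependent F a) (hb : LinearIndependent F b)
    (hcard : Fintype.card ι < n) :
    ∃ g : Matrix.SpecialLinearGroup (Fin n) F,
      ∀ i, (g : Matrix (Fin n) (Fin n) F).mulVec (a i) = b i := by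
  classical
  let f : Submodule.span F (Set.range a) ≃ₗ[F] Submodule.span F (Set.range b) :=
    ha.linearCombinationEquiv.symm ≪≫ₗ hb.linearCombinationEquiv
  obtain ⟨g₀, hg₀⟩ := Submodule.exists_linearEquiv_restrict_eq f
  have hg₀a : ∀ i, g₀ (a i) = b i := by
    intro i
    have hmem : a i ∈ Submodule.span F (Set.range a) :=
      Submodule.subset_span (Set.mem_range_self i)
    have h1 := hg₀ ⟨a i, hmem⟩
    have h2 : ha.repr ⟨a i, hmem⟩ = Finsupp.single i 1 :=
      ha.repr_eq_single i ⟨a i, hmem⟩ rfl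
    have h3 : ((f ⟨a i, hmem⟩ : Submodule.span F (Set.range b)) : Fin n → F) = b i := by
      show ((hb.linearCombinationEquiv (ha.repr ⟨a i, hmem⟩) :
        Submodule.span F (Set.range b)) : Fin n → F) = b i
      rw [h2, LinearIndependent.linearCombinationEquiv_apply_coe,
        Finsupp.linearCombination_single, one_smul]
    rw [← h3]
    exact h1.symm
  have hlt : Submodule.span F (Set.range b) < ⊤ := by
    rw [lt_top_iff_ne_top]
    intro htop
    have h1 : (Set.range b).finrank F ≤ Fintype.card ι := finrank_range_le_card b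
    unfold Set.finrank at h1
    rw [htop, finrank_top, Module.finrank_fin_fun] at h1
    omega
  obtain ⟨φ, hφ0, hφker⟩ := Submodule.exists_le_ker_of_lt_top _ hlt
  have hφb : ∀ i, φ (b i) = 0 := fun i =>
    LinearMap.mem_ker.mp (hφker (Submodule.subset_span (Set.mem_range_self i)))
  obtain ⟨u, hu⟩ : ∃ u, φ u ≠ 0 := by
    by_contra hcon
    refine hφ0 (LinearMap.ext fun x => ?_)
    by_contra hx
    exact hcon ⟨x, hx⟩
  have hd0 : LinearMap.det (g₀ : (Fin n → F) →ₗ[F] (Fin n → F)) ≠ 0 :=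
    (LinearEquiv.isUnit_det' g₀).ne_zero
  obtain ⟨d, hd⟩ : ∃ d : F, d = LinearMap.det (g₀ : (Fin n → F) →ₗ[F] (Fin n → F)) := ⟨_, rfl⟩
  rw [← hd] at hd0
  have hφz : φ (((d⁻¹ - 1) * (φ u)⁻¹) • u) = d⁻¹ - 1 := by
    rw [map_smul, smul_eq_mul, mul_assoc, inv_mul_cancel₀ hu, mul_one]
  have hLdet : LinearMap.det (LinearMap.transvection φ (((d⁻¹ - 1) * (φ u)⁻¹) • u) ∘ₗ
      (g₀ : (Fin n → F) →ₗ[F] (Fin n → F))) = 1 := by
    rw [LinearMap.det_comp, LinearMap.transvection.det, hφz, ← hd,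
      show (1 : F) + (d⁻¹ - 1) = d⁻¹ by ring, inv_mul_cancel₀ hd0]
  have hMdet : (LinearMap.toMatrix' (LinearMap.transvection φ (((d⁻¹ - 1) * (φ u)⁻¹) • u) ∘ₗ
      (g₀ : (Fin n → F) →ₗ[F] (Fin n → F)))).det = 1 := by
    rw [LinearMap.det_toMatrix', hLdet]
  refine ⟨⟨_, hMdet⟩, fun i => ?_⟩
  show (LinearMap.toMatrix' (LinearMap.transvection φ (((d⁻¹ - 1) * (φ u)⁻¹) • u) ∘ₗ
      (g₀ : (Fin n → F) →ₗ[F] (Fin n → F)))).mulVec (a i) = b i
  rw [LinearMap.toMatrix'_mulVec]
  show LinearMap.transvection φ (((d⁻¹ - 1) * (φ u)⁻¹) • u) (g₀ (a i)) = b i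
  rw [hg₀a i, LinearMap.transvection.apply, hφb i, zero_smul, add_zero]

end SLTrans

section NZ

/-- A non-zero vector of `F^n`. -/
@[ext] structure NZVec (n : ℕ) (F : Type*) [Field F] where
  /-- the underlying vector -/
  vec : Fin n → F
  /-- it is not zero -/
  nz : vec ≠ 0

variable {n : ℕ} {F : Type*} [Field F]

theorem sl_mulVec_inv_cancel (g : Matrix.SpecialLinearGroup (Fin n) F) (v : Fin n → F) :
    (g⁻¹ : Matrix.SpecialLinearGroup (Fin n) F).1.mulVec (g.1.mulVec v) = v := by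
  rw [Matrix.mulVec_mulVec, ← Matrix.SpecialLinearGroup.coe_mul, inv_mul_cancel,
    Matrix.SpecialLinearGroup.coe_one, Matrix.one_mulVec]

theorem sl_mulVec_ne_zero (g : Matrix.SpecialLinearGroup (Fin n) F) {v : Fin n → F}
    (hv : v ≠ 0) : g.1.mulVec v ≠ 0 := by
  intro h
  apply hv
  rw [← sl_mulVec_inv_cancel g v, h, Matrix.mulVec_zero]

theorem sl_mulVec_inj (g : Matrix.SpecialLinearGroup (Fin n) F) {v w : Fin n → F}
    (h : g.1.mulVec v = g.1.mulVec w) : v = w := by
  rw [← sl_mulVec_inv_cancel g v, h, sl_mulVec_inv_cancel]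

instance nzVecMulAction : MulAction (Matrix.SpecialLinearGroup (Fin n) F) (NZVec n F) where
  smul g v := ⟨g.1.mulVec v.vec, sl_mulVec_ne_zero g v.nz⟩
  one_smul v := NZVec.ext (by
    show (1 : Matrix.SpecialLinearGroup (Fin n) F).1.mulVec v.vec = v.vec
    rw [Matrix.SpecialLinearGroup.coe_one, Matrix.one_mulVec])
  mul_smul g h v := NZVec.ext (by
    show (g * h).1.mulVec v.vec = g.1.mulVec (h.1.mulVec v.vec)
    rw [Matrix.SpecialLinearGroup.coe_mul, Matrix.mulVec_mulVec])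

theorem nzVec_smul_vec (g : Matrix.SpecialLinearGroup (Fin n) F) (v : NZVec n F) :
    (g • v).vec = g.1.mulVec v.vec := rfl

instance nzVecFinite [Finite F] : Finite (NZVec n F) :=
  Finite.of_injective (fun v : NZVec n F => v.vec) (fun _ _ h => NZVec.ext h)

noncomputable instance nzVecFintype [Fintype F] : Fintype (NZVec n F) := Fintype.ofFinite _

/-- The fixed points of a matrix on the non-zero vectors, in two forms. -/
def nzVecFixEquiv (g : Matrix.SpecialLinearGroup (Fin n) F) :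
    {v : Fin n → F // v ≠ 0 ∧ (g : Matrix (Fin n) (Fin n) F).mulVec v = v}
      ≃ MulAction.fixedBy (NZVec n F) g where
  toFun v := ⟨⟨v.1, v.2.1⟩,
    show g • (⟨v.1, v.2.1⟩ : NZVec n F) = ⟨v.1, v.2.1⟩ from NZVec.ext v.2.2⟩
  invFun w := ⟨w.1.vec, w.1.nz, congrArg NZVec.vec w.2⟩
  left_inv _ := rfl
  right_inv _ := rfl

/-- The support of a vector. -/
noncomputable def vsupp (v : Fin n → F) : Finset (Fin n) :=
  haveI : DecidablePred (fun i => v i ≠ 0) := Classical.decPred _
  Finset.univ.filter (fun i => v i ≠ 0)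

theorem mem_vsupp {v : Fin n → F} {i : Fin n} : i ∈ vsupp v ↔ v i ≠ 0 := by
  unfold vsupp
  simp

theorem vsupp_nonempty {v : Fin n → F} (hv : v ≠ 0) : (vsupp v).Nonempty := by
  by_contra h
  rw [Finset.not_nonempty_iff_eq_empty] at h
  apply hv
  funext i
  by_contra hi
  have hmem : i ∈ vsupp v := mem_vsupp.mpr hi
  rw [h] at hmem
  simp at hmem

theorem vsupp_smul {c : F} (hc : c ≠ 0) (v : Fin n → F) : vsupp (c • v) = vsupp v := by
  ext i
  rw [mem_vsupp, mem_vsupp, Pi.smul_apply, smul_eq_mul]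
  exact ⟨fun h h0 => h (by rw [h0, mul_zero]), fun h => mul_ne_zero hc h⟩

/-- Auxiliary: the coordinate of `v` at the least element of `s`. -/
noncomputable def leadAux (s : Finset (Fin n)) (v : Fin n → F) : F :=
  if h : s.Nonempty then v (s.min' h) else 1

/-- The first non-zero coordinate of a vector. -/
noncomputable def leadCoeff (v : Fin n → F) : F := leadAux (vsupp v) v

theorem leadCoeff_smul {c : F} (hc : c ≠ 0) {v : Fin n → F} (hv : v ≠ 0) :
    leadCoeff (c • v) = c * leadCoeff v := by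
  unfold leadCoeff
  rw [vsupp_smul hc v]
  unfold leadAux
  simp only [dif_pos (vsupp_nonempty hv), Pi.smul_apply, smul_eq_mul]

theorem leadCoeff_ne_zero {v : Fin n → F} (hv : v ≠ 0) : leadCoeff v ≠ 0 := by
  unfold leadCoeff leadAux
  rw [dif_pos (vsupp_nonempty hv)]
  exact mem_vsupp.mp (Finset.min'_mem _ _)

/-- The twist used for Gelfand's trick: divide by the square of the first non-zero
coordinate. -/
noncomputable def nzTheta (v : NZVec n F) : NZVec n F :=
  ⟨((leadCoeff v.vec)⁻¹ * (leadCoeff v.vec)⁻¹) • v.vec,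
    smul_ne_zero (mul_ne_zero (inv_ne_zero (leadCoeff_ne_zero v.nz))
      (inv_ne_zero (leadCoeff_ne_zero v.nz))) v.nz⟩

theorem nzTheta_vec (v : NZVec n F) :
    (nzTheta v).vec = ((leadCoeff v.vec)⁻¹ * (leadCoeff v.vec)⁻¹) • v.vec := rfl

theorem nzTheta_smul {c : F} (hc : c ≠ 0) (v w : NZVec n F) (h : w.vec = c • v.vec) :
    (nzTheta w).vec = c⁻¹ • (nzTheta v).vec := by
  have hcc : c⁻¹ * c = 1 := inv_mul_cancel₀ hc
  rw [nzTheta_vec, nzTheta_vec, h, leadCoeff_smul hc v.nz, smul_smul, smul_smul, mul_inv]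
  have hs : c⁻¹ * (leadCoeff v.vec)⁻¹ * (c⁻¹ * (leadCoeff v.vec)⁻¹) * c
      = c⁻¹ * ((leadCoeff v.vec)⁻¹ * (leadCoeff v.vec)⁻¹) := by
    calc c⁻¹ * (leadCoeff v.vec)⁻¹ * (c⁻¹ * (leadCoeff v.vec)⁻¹) * c
        = (c⁻¹ * c) * (c⁻¹ * ((leadCoeff v.vec)⁻¹ * (leadCoeff v.vec)⁻¹)) := by ring
      _ = c⁻¹ * ((leadCoeff v.vec)⁻¹ * (leadCoeff v.vec)⁻¹) := by rw [hcc, one_mul]
  rw [hs]

theorem nzTheta_invol (v : NZVec n F) : nzTheta (nzTheta v) = v := by
  have hℓ : leadCoeff v.vec ≠ 0 := leadCoeff_ne_zero v.nz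
  have hμ : (leadCoeff v.vec)⁻¹ * (leadCoeff v.vec)⁻¹ ≠ 0 :=
    mul_ne_zero (inv_ne_zero hℓ) (inv_ne_zero hℓ)
  apply NZVec.ext
  rw [nzTheta_vec, nzTheta_vec, leadCoeff_smul hμ v.nz, smul_smul]
  have hs : ((leadCoeff v.vec)⁻¹ * (leadCoeff v.vec)⁻¹ * leadCoeff v.vec)⁻¹
      * ((leadCoeff v.vec)⁻¹ * (leadCoeff v.vec)⁻¹ * leadCoeff v.vec)⁻¹
      * ((leadCoeff v.vec)⁻¹ * (leadCoeff v.vec)⁻¹) = 1 := by
    have h1 : (leadCoeff v.vec)⁻¹ * (leadCoeff v.vec)⁻¹ * leadCoeff v.vec
        = (leadCoeff v.vec)⁻¹ := by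
      rw [mul_assoc, inv_mul_cancel₀ hℓ, mul_one]
    rw [h1, inv_inv]
    calc leadCoeff v.vec * leadCoeff v.vec * ((leadCoeff v.vec)⁻¹ * (leadCoeff v.vec)⁻¹)
        = (leadCoeff v.vec * (leadCoeff v.vec)⁻¹) * (leadCoeff v.vec * (leadCoeff v.vec)⁻¹) := by
          ring
      _ = 1 := by rw [mul_inv_cancel₀ hℓ, one_mul]
  rw [hs, one_smul]

theorem nzTheta_bijective : Function.Bijective (nzTheta : NZVec n F → NZVec n F) :=
  Function.Involutive.bijective nzTheta_invol

theorem nzVec_pretransitive (hn : 3 ≤ n) :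
    MulAction.IsPretransitive (Matrix.SpecialLinearGroup (Fin n) F) (NZVec n F) := by
  refine ⟨fun x y => ?_⟩
  obtain ⟨g, hg⟩ := sl_trans_family (fun _ : Unit => x.vec) (fun _ : Unit => y.vec)
    (linearIndependent_unique_iff.mpr x.nz) (linearIndependent_unique_iff.mpr y.nz)
    (by rw [Fintype.card_unit]; omega)
  exact ⟨g, NZVec.ext (hg ())⟩

/-- The swap condition of Gelfand's trick for `SL_n` on non-zero vectors. -/
theorem nzVec_swap (hn : 3 ≤ n) (x y : NZVec n F) :
    ∃ g : Matrix.SpecialLinearGroup (Fin n) F, g • x = nzTheta y ∧ g • y = nzTheta x := by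
  by_cases hdep : ∃ c : F, y.vec = c • x.vec
  · obtain ⟨c, hc⟩ := hdep
    have hc0 : c ≠ 0 := by
      rintro rfl
      exact y.nz (by rw [hc, zero_smul])
    have hθ : (nzTheta y).vec = c⁻¹ • (nzTheta x).vec := nzTheta_smul hc0 x y hc
    obtain ⟨g, hg⟩ := sl_trans_family (fun _ : Unit => x.vec) (fun _ : Unit => (nzTheta y).vec)
      (linearIndependent_unique_iff.mpr x.nz) (linearIndependent_unique_iff.mpr (nzTheta y).nz)
      (by rw [Fintype.card_unit]; omega)
    have hgx : g.1.mulVec x.vec = (nzTheta y).vec := hg ()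
    refine ⟨g, NZVec.ext hgx, NZVec.ext ?_⟩
    show g.1.mulVec y.vec = (nzTheta x).vec
    rw [hc, Matrix.mulVec_smul, hgx, hθ, smul_smul, mul_inv_cancel₀ hc0, one_smul]
  · have hxy : LinearIndependent F ![x.vec, y.vec] := by
      rw [LinearIndependent.pair_iff' x.nz]
      intro c hc
      exact hdep ⟨c, hc.symm⟩
    have hμx : (leadCoeff x.vec)⁻¹ * (leadCoeff x.vec)⁻¹ ≠ 0 :=
      mul_ne_zero (inv_ne_zero (leadCoeff_ne_zero x.nz)) (inv_ne_zero (leadCoeff_ne_zero x.nz))
    have hθ : LinearIndependent F ![(nzTheta y).vec, (nzTheta x).vec] := by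
      rw [LinearIndependent.pair_iff' (nzTheta y).nz]
      intro c hc
      rw [nzTheta_vec, nzTheta_vec, smul_smul] at hc
      have hcμ : c * ((leadCoeff y.vec)⁻¹ * (leadCoeff y.vec)⁻¹) ≠ 0 := by
        intro h0
        rw [h0, zero_smul] at hc
        exact (smul_ne_zero hμx x.nz) hc.symm
      apply hdep
      refine ⟨(c * ((leadCoeff y.vec)⁻¹ * (leadCoeff y.vec)⁻¹))⁻¹
        * ((leadCoeff x.vec)⁻¹ * (leadCoeff x.vec)⁻¹), ?_⟩
      rw [← smul_smul, ← hc, smul_smul, inv_mul_cancel₀ hcμ, one_smul]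
    obtain ⟨g, hg⟩ := sl_trans_family ![x.vec, y.vec] ![(nzTheta y).vec, (nzTheta x).vec]
      hxy hθ (by rw [Fintype.card_fin]; omega)
    have h0 : g.1.mulVec x.vec = (nzTheta y).vec := hg 0
    have h1 : g.1.mulVec y.vec = (nzTheta x).vec := hg 1
    exact ⟨g, NZVec.ext h0, NZVec.ext h1⟩

/-- The invariant separating the orbits of a point stabiliser: the scalar `c` with
`w = c • a`, or `0` if there is none. -/
noncomputable def nzPhi (a w : NZVec n F) : F :=
  haveI : Decidable (∃ c : F, w.vec = c • a.vec) := Classical.propDecidable _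
  if h : ∃ c : F, w.vec = c • a.vec then h.choose else 0

theorem nzPhi_of_eq (a w : NZVec n F) (c : F) (h : w.vec = c • a.vec) : nzPhi a w = c := by
  have hex : ∃ c : F, w.vec = c • a.vec := ⟨c, h⟩
  unfold nzPhi
  rw [dif_pos hex]
  have h2 : w.vec = hex.choose • a.vec := hex.choose_spec
  exact smul_left_injective F a.nz (h2.symm.trans h)

theorem nzPhi_of_not (a w : NZVec n F) (h : ¬ ∃ c : F, w.vec = c • a.vec) : nzPhi a w = 0 := by
  unfold nzPhi
  rw [dif_neg h]

theorem nzPhi_eq_zero_iff (a w : NZVec n F) :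
    nzPhi a w = 0 ↔ ¬ ∃ c : F, w.vec = c • a.vec := by
  constructor
  · rintro h0 ⟨c, hc⟩
    rw [nzPhi_of_eq a w c hc] at h0
    exact w.nz (by rw [hc, h0, zero_smul])
  · exact nzPhi_of_not a w

theorem nzPhi_stab (a w : NZVec n F) (g : Matrix.SpecialLinearGroup (Fin n) F)
    (hg : g • a = a) : nzPhi a (g • w) = nzPhi a w := by
  have hga : g.1.mulVec a.vec = a.vec := congrArg NZVec.vec hg
  have hiff : ∀ c : F, (g • w).vec = c • a.vec ↔ w.vec = c • a.vec := by
    intro c
    constructor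
    · intro h
      have h' : g.1.mulVec w.vec = g.1.mulVec (c • a.vec) := by
        rw [Matrix.mulVec_smul, hga]
        exact h
      exact sl_mulVec_inj g h'
    · intro h
      show g.1.mulVec w.vec = c • a.vec
      rw [h, Matrix.mulVec_smul, hga]
  by_cases hex : ∃ c : F, w.vec = c • a.vec
  · obtain ⟨c, hc⟩ := hex
    rw [nzPhi_of_eq a w c hc, nzPhi_of_eq a (g • w) c ((hiff c).mpr hc)]
  · rw [nzPhi_of_not a w hex,
      nzPhi_of_not a (g • w) (fun ⟨c, hc⟩ => hex ⟨c, (hiff c).mp hc⟩)]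

/-- The point stabiliser of `SL_n(F)`, `n ≥ 3`, on non-zero vectors has exactly `|F|`
orbits. -/
theorem nzVec_rank (hn : 3 ≤ n) [Fintype F] (a : NZVec n F) :
    Nat.card (MulAction.orbitRel.Quotient
      (MulAction.stabilizer (Matrix.SpecialLinearGroup (Fin n) F) a) (NZVec n F))
      = Fintype.card F := by
  classical
  have hresp : ∀ w w' : NZVec n F,
      (MulAction.orbitRel (MulAction.stabilizer (Matrix.SpecialLinearGroup (Fin n) F) a)
        (NZVec n F)).r w w' → nzPhi a w = nzPhi a w' := by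
    intro w w' hr
    have hr' : w ∈ MulAction.orbit
        (MulAction.stabilizer (Matrix.SpecialLinearGroup (Fin n) F) a) w' := hr
    obtain ⟨h, hh⟩ := hr'
    have hh' : (h : Matrix.SpecialLinearGroup (Fin n) F) • w' = w := hh
    rw [← hh']
    exact nzPhi_stab a w' (h : Matrix.SpecialLinearGroup (Fin n) F)
      (MulAction.mem_stabilizer_iff.mp h.2)
  have hbij : Function.Bijective
      (Quotient.lift (s := MulAction.orbitRel
        (MulAction.stabilizer (Matrix.SpecialLinearGroup (Fin n) F) a) (NZVec n F))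
        (nzPhi a) hresp) := by
    constructor
    · intro q q'
      refine Quotient.inductionOn₂ q q' ?_
      intro w w' hqq
      have hΦ : nzPhi a w = nzPhi a w' := hqq
      apply Quotient.sound
      show w ∈ MulAction.orbit
        (MulAction.stabilizer (Matrix.SpecialLinearGroup (Fin n) F) a) w'
      by_cases hex : ∃ c : F, w.vec = c • a.vec
      · obtain ⟨c, hc⟩ := hex
        have hc0 : c ≠ 0 := by
          rintro rfl
          exact w.nz (by rw [hc, zero_smul])
        rw [nzPhi_of_eq a w c hc] at hΦ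
        have hex' : ∃ c' : F, w'.vec = c' • a.vec := by
          by_contra hne
          rw [nzPhi_of_not a w' hne] at hΦ
          exact hc0 hΦ
        obtain ⟨c', hc'⟩ := hex'
        rw [nzPhi_of_eq a w' c' hc'] at hΦ
        have hww : w = w' := NZVec.ext (by rw [hc, hc', hΦ])
        rw [hww]
        exact MulAction.mem_orbit_self w'
      · have hex' : ¬ ∃ c' : F, w'.vec = c' • a.vec := by
          rw [← nzPhi_eq_zero_iff, ← hΦ, nzPhi_of_not a w hex]
        have h1 : LinearIndependent F ![a.vec, w'.vec] := by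
          rw [LinearIndependent.pair_iff' a.nz]
          intro c hc
          exact hex' ⟨c, hc.symm⟩
        have h2 : LinearIndependent F ![a.vec, w.vec] := by
          rw [LinearIndependent.pair_iff' a.nz]
          intro c hc
          exact hex ⟨c, hc.symm⟩
        obtain ⟨g, hg⟩ := sl_trans_family ![a.vec, w'.vec] ![a.vec, w.vec] h1 h2
          (by rw [Fintype.card_fin]; omega)
        have hg0 : g.1.mulVec a.vec = a.vec := hg 0
        have hg1 : g.1.mulVec w'.vec = w.vec := hg 1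
        have hga : g • a = a := NZVec.ext hg0
        have hgw : g • w' = w := NZVec.ext hg1
        exact ⟨⟨g, hga⟩, hgw⟩
    · intro c
      by_cases hc : c = 0
      · obtain ⟨w, hw⟩ : ∃ w : Fin n → F, w ∉ Submodule.span F {a.vec} := by
          have hlt : Submodule.span F {a.vec} < ⊤ := by
            rw [lt_top_iff_ne_top]
            intro htop
            have h1 := finrank_span_singleton (K := F) a.nz
            rw [htop, finrank_top, Module.finrank_fin_fun] at h1
            omega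
          obtain ⟨w, -, hw⟩ := SetLike.exists_of_lt hlt
          exact ⟨w, hw⟩
        have hw0 : w ≠ 0 := by
          rintro rfl
          exact hw (Submodule.zero_mem _)
        refine ⟨Quotient.mk _ ⟨w, hw0⟩, ?_⟩
        show nzPhi a ⟨w, hw0⟩ = c
        rw [hc]
        apply nzPhi_of_not
        rintro ⟨c', hc'⟩
        exact hw (Submodule.mem_span_singleton.mpr ⟨c', hc'.symm⟩)
      · refine ⟨Quotient.mk _ ⟨c • a.vec, smul_ne_zero hc a.nz⟩, ?_⟩
        show nzPhi a ⟨c • a.vec, smul_ne_zero hc a.nz⟩ = c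
        exact nzPhi_of_eq a _ c rfl
  rw [Nat.card_eq_of_bijective _ hbij, Nat.card_eq_fintype_card]

end NZ

end Cfsg.Agent.Helper24
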