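import Mathlib
import Cfsg.Agent.Helper24.CharInv

set_option autoImplicit false

namespace Cfsg.Agent.Helper24

open Cfsg Finset
open scoped Pointwise

/-- A valuation subring of `ℂ` in which the prime `p` is a nonunit. -/
theorem exists_valuationSubring_prime (p : ℕ) [hp : Fact p.Prime] :
    ∃ A : ValuationSubring ℂ, A.valuation (p : ℂ) < 1 := by
  let A₀ : Subring ℂ := ⊥
  have hpA : (p : ℂ) ∈ A₀ := natCast_mem A₀ p
  let I : Ideal A₀ := Ideal.span {⟨(p : ℂ), hpA⟩}
  have hI : I ≠ ⊤ := by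
    intro h
    have h1 : (1 : A₀) ∈ I := by rw [h]; trivial
    rw [Ideal.mem_span_singleton'] at h1
    obtain ⟨a, ha⟩ := h1
    obtain ⟨m, hm⟩ := Subring.mem_bot.mp a.2
    have h2 : (m : ℂ) * (p : ℂ) = 1 := by
      have := congrArg Subtype.val ha
      simpa [hm] using this
    have h3 : m * (p : ℤ) = 1 := by exact_mod_cast h2
    have h4 : (p : ℤ) ∣ 1 := ⟨m, by rw [mul_comm]; exact h3.symm⟩
    have h5 := Int.isUnit_iff.mp (isUnit_of_dvd_one h4)
    have := hp.out.one_lt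
    omega
  obtain ⟨B, _, hB⟩ := Ideal.image_subset_nonunits_valuationSubring I hI
  refine ⟨B, ?_⟩
  have h1 : (p : ℂ) ∈ B.nonunits := hB ⟨⟨(p : ℂ), hpA⟩, Ideal.subset_span rfl, rfl⟩
  exact B.mem_nonunits_iff.mp h1

/-- In the group algebra of a `p`-group over a field of characteristic `p`, every nonzero
element has a left multiple equal to the sum of all group elements (convolution form). -/
theorem conv_one {k : Type*} [Field k] (p : ℕ) [hp : Fact p.Prime] [CharP k p] {Q : Type*}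
    [Group Q] [Fintype Q] (hQ : IsPGroup p Q) (c : Q → k) (hc : c ≠ 0) :
    ∃ b : Q → k, ∀ x, ∑ y, b y * c (y⁻¹ * x) = 1 := by
  classical
  let ι : ZMod p →+* k := ZMod.castHom (dvd_refl p) k
  let T : (Q → ZMod p) →+ (Q → k) :=
    { toFun := fun e x => ∑ y, ι (e y) * c (y⁻¹ * x)
      map_zero' := by funext x; simp
      map_add' := by intro e e'; funext x; simp [add_mul, Finset.sum_add_distrib] }
  have hT : ∀ e x, T e x = ∑ y, ι (e y) * c (y⁻¹ * x) := fun e x => rfl
  let S : AddSubgroup (Q → k) := T.range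
  haveI : Finite S := by
    have : (S : Set (Q → k)) = Set.range T := AddMonoidHom.coe_range T
    exact (Set.finite_coe_iff.mpr (this ▸ Set.finite_range T))
  have hstab : ∀ (z : Q) (f : Q → k), f ∈ S → (fun x => f (z⁻¹ * x)) ∈ S := by
    rintro z f ⟨e, rfl⟩
    refine ⟨fun y => e (z⁻¹ * y), ?_⟩
    funext x
    rw [hT, hT]
    refine Fintype.sum_equiv (Equiv.mulLeft z⁻¹) _ _ (fun y => ?_)
    simp [mul_assoc]
  letI act : MulAction Q S :=
    { smul := fun z f => ⟨fun x => f.1 (z⁻¹ * x), hstab z f.1 f.2⟩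
      one_smul := fun f => Subtype.ext (by
        show (fun x => f.1 ((1 : Q)⁻¹ * x)) = f.1
        funext x; simp)
      mul_smul := fun z z' f => Subtype.ext (by
        show (fun x => f.1 ((z * z')⁻¹ * x)) = (fun x => f.1 (z'⁻¹ * (z⁻¹ * x)))
        funext x; simp [mul_assoc]) }
  have hsmul : ∀ (z : Q) (f : S) (x : Q), (z • f).1 x = f.1 (z⁻¹ * x) := fun z f x => rfl
  have hcS : c ∈ S := by
    refine ⟨Pi.single 1 1, ?_⟩
    funext x
    rw [hT, Finset.sum_eq_single 1]
    · simp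
    · intro y _ hy
      simp [Pi.single_eq_of_ne hy]
    · intro h; exact absurd (Finset.mem_univ _) h
  have hpc : p • (⟨c, hcS⟩ : S) = 0 := by
    apply Subtype.ext
    show p • c = 0
    funext x
    simp [CharP.cast_eq_zero]
  have hc0 : (⟨c, hcS⟩ : S) ≠ 0 := fun h => hc (congrArg Subtype.val h)
  have hord : addOrderOf (⟨c, hcS⟩ : S) = p := addOrderOf_eq_prime hpc hc0
  have hdvd : p ∣ Nat.card S := hord ▸ addOrderOf_dvd_natCard _
  have hfix0 : (0 : S) ∈ MulAction.fixedPoints Q S := by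
    intro z
    apply Subtype.ext
    funext x
    rw [hsmul]
    rfl
  obtain ⟨f, hf, hf0⟩ := hQ.exists_fixed_point_of_prime_dvd_card_of_fixed_point S hdvd hfix0
  have hconst : ∀ x, f.1 x = f.1 1 := by
    intro x
    have h1 := congrArg (fun t : S => t.1 x) (hf x)
    simp only [hsmul] at h1
    rw [← h1, inv_mul_cancel]
  have hf1 : f.1 1 ≠ 0 := by
    intro h
    apply hf0
    apply Subtype.ext
    funext x
    rw [hconst x, h]
    rfl
  obtain ⟨e, he⟩ := f.2
  refine ⟨fun y => ι (e y) / f.1 1, fun x => ?_⟩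
  have h2 : ∑ y, ι (e y) / f.1 1 * c (y⁻¹ * x) = (∑ y, ι (e y) * c (y⁻¹ * x)) / f.1 1 := by
    rw [Finset.sum_div]
    refine Finset.sum_congr rfl fun y _ => ?_
    ring
  rw [h2, ← hT, he, hconst x, div_self hf1]

/-- For a TI Sylow subgroup `P` and `H ≥ N_G(P)`: `P ∩ g H g⁻¹ = 1` for `g ∉ H`. -/
theorem ti_free {G : Type*} [Group G] [Finite G] (p : ℕ) [Fact p.Prime] (P : Sylow p G)
    (hTI : ∀ g : G, g ∉ Subgroup.normalizer ((P : Subgroup G) : Set G) →
      (P : Subgroup G) ⊓ (MulAut.conj g • (P : Subgroup G)) = ⊥)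
    (H : Subgroup G) (hH : Subgroup.normalizer ((P : Subgroup G) : Set G) ≤ H)
    {g x h : G} (hg : g ∉ H) (hx : x ∈ (P : Subgroup G)) (hh : h ∈ H) (hxg : x * g = g * h) :
    x = 1 := by
  classical
  by_contra hx1
  have hPH : (P : Subgroup G) ≤ H := Subgroup.le_normalizer.trans hH
  -- h = g⁻¹ x g lies in the p-subgroup g⁻¹ P g ∩ H of H
  have hh' : h = g⁻¹ * x * g := by rw [mul_assoc, hxg]; group
  let R : Subgroup ↥H := ((g⁻¹ • P : Sylow p G) : Subgroup G).subgroupOf H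
  have hRp : IsPGroup p ↥R := (g⁻¹ • P : Sylow p G).2.comap_subtype
  have hhR : (⟨h, hh⟩ : ↥H) ∈ R := by
    show h ∈ ((g⁻¹ • P : Sylow p G) : Subgroup G)
    rw [Sylow.coe_subgroup_smul, Subgroup.mem_pointwise_smul_iff_inv_smul_mem]
    have : (MulAut.conj g⁻¹)⁻¹ • h = x := by
      rw [hh']; simp [MulAut.smul_def, mul_assoc]
    rw [this]; exact hx
  obtain ⟨Q, hQ⟩ := hRp.exists_le_sylow
  let P' : Sylow p ↥H := P.subtype hPH
  obtain ⟨k, hk⟩ := MulAction.exists_smul_eq ↥H P' Q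
  have hhQ : (⟨h, hh⟩ : ↥H) ∈ ((k • P' : Sylow p ↥H) : Subgroup ↥H) := by
    rw [hk]; exact hQ hhR
  rw [Sylow.coe_subgroup_smul, Subgroup.mem_pointwise_smul_iff_inv_smul_mem] at hhQ
  have hs : (k : G)⁻¹ * h * (k : G) ∈ (P : Subgroup G) := by
    have h1 : ((MulAut.conj k)⁻¹ • (⟨h, hh⟩ : ↥H) : ↥H) ∈ (P' : Subgroup ↥H) := hhQ
    have h2 : (((MulAut.conj k)⁻¹ • (⟨h, hh⟩ : ↥H) : ↥H) : G) ∈ (P : Subgroup G) := h1
    have h3 : (((MulAut.conj k)⁻¹ • (⟨h, hh⟩ : ↥H) : ↥H) : G) = (k : G)⁻¹ * h * (k : G) := by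
      simp [MulAut.smul_def]
    rwa [h3] at h2
  -- x ∈ P ∩ (g k) P (g k)⁻¹
  have hxc : x ∈ MulAut.conj (g * (k : G)) • (P : Subgroup G) := by
    rw [Subgroup.mem_pointwise_smul_iff_inv_smul_mem]
    have : (MulAut.conj (g * (k : G)))⁻¹ • x = (k : G)⁻¹ * h * (k : G) := by
      rw [hh']; simp [MulAut.smul_def, mul_assoc]
    rw [this]; exact hs
  have hgk : g * (k : G) ∈ Subgroup.normalizer ((P : Subgroup G) : Set G) := by
    by_contra hn
    have h1 : x ∈ (P : Subgroup G) ⊓ (MulAut.conj (g * (k : G)) • (P : Subgroup G)) := ⟨hx, hxc⟩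
    rw [hTI _ hn, Subgroup.mem_bot] at h1
    exact hx1 h1
  apply hg
  have := H.mul_mem (hH hgk) (H.inv_mem k.2)
  simpa using this

/-- Decomposition: for an `H`-fixed vector `w` with zero `G`-sum, `w = -∑_{x∈P} x·u` with `u` an
integral combination of translates of `w`. -/
theorem ti_decomp {G : Type*} [Group G] [Fintype G] (p : ℕ) [Fact p.Prime] (P : Sylow p G)
    (hTI : ∀ g : G, g ∉ Subgroup.normalizer ((P : Subgroup G) : Set G) →
      (P : Subgroup G) ⊓ (MulAut.conj g • (P : Subgroup G)) = ⊥)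
    (H : Subgroup G) (hH : Subgroup.normalizer ((P : Subgroup G) : Set G) ≤ H)
    [Fintype ↥(P : Subgroup G)]
    {V : Type*} [AddCommGroup V] [Module ℂ V] (a : G →* Module.End ℂ V) (w : V)
    (hw : ∀ h ∈ H, a h w = w) (hsum : ∑ g : G, a g w = 0) :
    ∃ D : Finset G, w + ∑ x : ↥(P : Subgroup G), a (x : G) (∑ d ∈ D, a d w) = 0 := by
  classical
  have hPH : (P : Subgroup G) ≤ H := Subgroup.le_normalizer.trans hH
  let Y := {g : G // g ∉ H}
  let Γ := ↥(P : Subgroup G) × ↥H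
  letI act : MulAction Γ Y :=
    { smul := fun xh y => ⟨(xh.1 : G) * y.1 * (xh.2 : G)⁻¹, fun hmem => y.2 (by
          have h1 : (xh.1 : G) ∈ H := hPH xh.1.2
          have := H.mul_mem (H.mul_mem (H.inv_mem h1) hmem) xh.2.2
          simpa [mul_assoc] using this)⟩
      one_smul := fun y => Subtype.ext (by
        show ((1 : Γ).1 : G) * y.1 * (((1 : Γ).2 : G))⁻¹ = y.1
        simp)
      mul_smul := fun s t y => Subtype.ext (by
        show ((s.1 * t.1 : ↥(P : Subgroup G)) : G) * y.1 * (((s.2 * t.2 : ↥H) : G))⁻¹ =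
          (s.1 : G) * ((t.1 : G) * y.1 * (t.2 : G)⁻¹) * (s.2 : G)⁻¹
        simp [mul_assoc]) }
  have hsmul : ∀ (s : Γ) (y : Y), ((s • y : Y) : G) = (s.1 : G) * y.1 * (s.2 : G)⁻¹ :=
    fun s y => rfl
  have hfree : ∀ (s : Γ) (y : Y), s • y = y → s = 1 := by
    intro s y hs
    have h1 : (s.1 : G) * y.1 * (s.2 : G)⁻¹ = y.1 := by rw [← hsmul, hs]
    have h2 : (s.1 : G) * y.1 = y.1 * (s.2 : G) := mul_inv_eq_iff_eq_mul.mp h1
    have h3 : (s.1 : G) = 1 := ti_free p P hTI H hH y.2 s.1.2 s.2.2 h2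
    have h4 : (s.2 : G) = 1 := by
      rw [h3, one_mul] at h2
      exact (mul_left_cancel (a := y.1) (b := (1 : G)) (c := (s.2 : G))
        (by rw [mul_one]; exact h2)).symm
    exact Prod.ext (Subtype.ext h3) (Subtype.ext h4)
  let Ω := Quotient (MulAction.orbitRel Γ Y)
  have hmk : ∀ (s : Γ) (y : Y), (Quotient.mk'' (s • y) : Ω) = Quotient.mk'' y :=
    fun s y => Quotient.sound' (MulAction.mem_orbit y s)
  let Ψ : Ω × Γ → Y := fun qs => qs.2 • qs.1.out
  have hΨ : Function.Bijective Ψ := by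
    constructor
    · rintro ⟨q, s⟩ ⟨q', s'⟩ hqs
      have hqs' : s • q.out = s' • q'.out := hqs
      have hq : q = q' := by
        calc q = Quotient.mk'' q.out := (Quotient.out_eq' q).symm
          _ = Quotient.mk'' (s • q.out) := (hmk s _).symm
          _ = Quotient.mk'' (s' • q'.out) := by rw [hqs']
          _ = Quotient.mk'' q'.out := hmk s' _
          _ = q' := Quotient.out_eq' q'
      subst hq
      have h1 : (s'⁻¹ * s) • q.out = q.out := by
        rw [mul_smul, hqs', inv_smul_smul]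
      have h2 := hfree _ _ h1
      have h3 : s = s' := by
        have := congrArg (fun t => s' * t) h2
        simpa using this
      rw [h3]
    · intro y
      have h1 : (Quotient.mk'' y : Ω).out ∈ MulAction.orbit Γ y :=
        MulAction.orbitRel_apply.mp (Quotient.exact' (Quotient.out_eq' (Quotient.mk'' y : Ω)))
      obtain ⟨s, hs⟩ := h1
      refine ⟨(Quotient.mk'' y, s⁻¹), ?_⟩
      show s⁻¹ • (Quotient.mk'' y : Ω).out = y
      rw [← hs, inv_smul_smul]
  have hsplit := Fintype.sum_subtype_add_sum_subtype (fun g : G => g ∈ H) (fun g => a g w)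
  have hfirst : ∑ i : {x : G // x ∈ H}, a (i : G) w = Nat.card ↥H • w := by
    rw [Finset.sum_congr rfl (fun i _ => hw i.1 i.2), Finset.sum_const, Finset.card_univ,
      ← Nat.card_eq_fintype_card]
  let u : V := ∑ q : Ω, a ((q.out : Y) : G) w
  have hsecond : ∑ y : Y, a (y : G) w =
      Nat.card ↥H • ∑ x : ↥(P : Subgroup G), a (x : G) u := by
    rw [← Fintype.sum_bijective Ψ hΨ (fun qs => a ((Ψ qs : Y) : G) w) (fun y => a (y : G) w)
      (fun _ => rfl)]
    rw [Fintype.sum_prod_type]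
    have h1 : ∀ q : Ω, ∑ s : Γ, a ((Ψ (q, s) : Y) : G) w =
        Nat.card ↥H • ∑ x : ↥(P : Subgroup G), a (x : G) (a ((q.out : Y) : G) w) := by
      intro q
      rw [Fintype.sum_prod_type, Finset.smul_sum]
      refine Finset.sum_congr rfl fun x _ => ?_
      have h2 : ∀ h : ↥H, a ((Ψ (q, (x, h)) : Y) : G) w =
          a (x : G) (a ((q.out : Y) : G) w) := by
        intro h
        have e : ((Ψ (q, (x, h)) : Y) : G) = (x : G) * ((q.out : Y) : G) * (h : G)⁻¹ := rfl
        rw [e, map_mul, map_mul, Module.End.mul_apply, Module.End.mul_apply,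
          hw _ (H.inv_mem h.2)]
      rw [Finset.sum_congr rfl (fun h _ => h2 h), Finset.sum_const, Finset.card_univ,
        ← Nat.card_eq_fintype_card]
    rw [Finset.sum_congr rfl (fun q _ => h1 q), ← Finset.smul_sum, Finset.sum_comm]
    congr 1
    refine Finset.sum_congr rfl fun x _ => ?_
    rw [map_sum]
  refine ⟨Finset.univ.image (fun q : Ω => ((q.out : Y) : G)), ?_⟩
  have hD : ∑ d ∈ Finset.univ.image (fun q : Ω => ((q.out : Y) : G)), a d w = u := by
    rw [Finset.sum_image]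
    intro q _ q' _ hqq
    have : q.out = q'.out := Subtype.ext hqq
    calc q = Quotient.mk'' q.out := (Quotient.out_eq' q).symm
      _ = Quotient.mk'' q'.out := by rw [this]
      _ = q' := Quotient.out_eq' q'
  rw [hD]
  have h3 : Nat.card ↥H • (w + ∑ x : ↥(P : Subgroup G), a (x : G) u) = 0 := by
    rw [smul_add, ← hfirst, ← hsecond, hsplit, hsum]
  have h4 : ((Nat.card ↥H : ℕ) : ℂ) • (w + ∑ x : ↥(P : Subgroup G), a (x : G) u) = 0 := by
    rw [Nat.cast_smul_eq_nsmul]; exact h3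
  rcases smul_eq_zero.mp h4 with h5 | h5
  · exact absurd h5 (Nat.cast_ne_zero.mpr Nat.card_pos.ne')
  · exact h5

/-- Reduction modulo the maximal ideal: a nontrivial linear relation among the `P`-translates of
`u` yields `∑ x·u = -∑ f_x x·u` with all `f_x` in the maximal ideal. -/
theorem val_reduce (A : ValuationSubring ℂ) (p : ℕ) [hp : Fact p.Prime]
    (hpA : A.valuation (p : ℂ) < 1) {Q : Type*} [Group Q] [Fintype Q] (hQ : IsPGroup p Q)
    {V : Type*} [AddCommGroup V] [Module ℂ V] (a : Q →* Module.End ℂ V) (u : V)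
    (c : Q → ℂ) (hc : c ≠ 0) (hrel : ∑ x, c x • a x u = 0) :
    ∃ f : Q → ℂ, (∀ x, A.valuation (f x) < 1) ∧ ∑ x, a x u + ∑ x, f x • a x u = 0 := by
  classical
  haveI : Nonempty Q := ⟨1⟩
  obtain ⟨x₀, hx₀⟩ := Finite.exists_max (fun x => A.valuation (c x))
  have hcx₀ : c x₀ ≠ 0 := by
    intro h0
    apply hc
    funext x
    have h1 := hx₀ x
    simp only [h0, map_zero] at h1
    exact (A.valuation.zero_iff).mp (le_zero_iff.mp h1)
  have hvx₀ : A.valuation (c x₀) ≠ 0 := (A.valuation.ne_zero_iff).mpr hcx₀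
  let c' : Q → ℂ := fun x => c x / c x₀
  have hc'A : ∀ x, c' x ∈ A := by
    intro x
    rw [← A.valuation_le_one_iff]
    show A.valuation (c x / c x₀) ≤ 1
    rw [map_div₀]
    exact (div_le_one₀ (zero_lt_iff.mpr hvx₀)).mpr (hx₀ x)
  have hrel' : ∑ x, c' x • a x u = 0 := by
    have : ∑ x, c' x • a x u = (c x₀)⁻¹ • ∑ x, c x • a x u := by
      rw [Finset.smul_sum]
      refine Finset.sum_congr rfl fun x _ => ?_
      rw [smul_smul]; congr 1
      show c x / c x₀ = (c x₀)⁻¹ * c x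
      rw [div_eq_inv_mul]
    rw [this, hrel, smul_zero]
  -- residue field
  let k := IsLocalRing.ResidueField A
  let res : A →+* k := IsLocalRing.residue A
  haveI : CharP k p := by
    rw [CharP.charP_iff_prime_eq_zero hp.out]
    have h1 : (p : A) ∈ IsLocalRing.maximalIdeal A := by
      rw [A.valuation_lt_one_iff]
      have : (((p : A) : ℂ)) = (p : ℂ) := by push_cast; rfl
      rw [this]; exact hpA
    have h2 : res (p : A) = 0 := (IsLocalRing.residue_eq_zero_iff _).mpr h1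
    rw [← h2, map_natCast]
  let cb : Q → k := fun x => res ⟨c' x, hc'A x⟩
  have hcb : cb ≠ 0 := by
    intro h
    have h1 : cb x₀ = 0 := by rw [h]; rfl
    have h2 : (⟨c' x₀, hc'A x₀⟩ : A) = 1 := Subtype.ext (div_self hcx₀)
    have h3 : cb x₀ = 1 := by show res ⟨c' x₀, hc'A x₀⟩ = 1; rw [h2, map_one]
    rw [h3] at h1
    exact one_ne_zero h1
  obtain ⟨bb, hbb⟩ := conv_one p hQ cb hcb
  have hsurj : Function.Surjective res := IsLocalRing.residue_surjective
  choose b hb using fun y => hsurj (bb y)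
  let F : Q → A := fun x => ∑ y, b y * ⟨c' (y⁻¹ * x), hc'A _⟩
  have hF : ∀ x, F x - 1 ∈ IsLocalRing.maximalIdeal A := by
    intro x
    rw [← IsLocalRing.residue_eq_zero_iff]
    show res (F x - 1) = 0
    rw [map_sub, map_one, map_sum, sub_eq_zero, ← hbb x]
    refine Finset.sum_congr rfl fun y _ => ?_
    rw [map_mul, hb]
  have hFc : ∀ x, ((F x : A) : ℂ) = ∑ y, (b y : ℂ) * c' (y⁻¹ * x) := by
    intro x
    show ((∑ y, b y * ⟨c' (y⁻¹ * x), hc'A _⟩ : A) : ℂ) = _
    push_cast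
    rfl
  refine ⟨fun x => ((F x : A) : ℂ) - 1, fun x => ?_, ?_⟩
  · have := (A.valuation_lt_one_iff _).mp (hF x)
    have e : (((F x - 1 : A)) : ℂ) = ((F x : A) : ℂ) - 1 := by push_cast; rfl
    rwa [e] at this
  · have hy : ∀ y : Q, ∑ x, c' (y⁻¹ * x) • a x u = 0 := by
      intro y
      have h1 : a y (∑ x, c' x • a x u) = 0 := by rw [hrel', map_zero]
      rw [map_sum] at h1
      rw [← h1]
      symm
      refine Fintype.sum_equiv (Equiv.mulLeft y) _ _ (fun x => ?_)
      simp only [Equiv.coe_mulLeft, inv_mul_cancel_left, map_smul, map_mul, Module.End.mul_apply]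
    have hzero : ∑ x, ((F x : A) : ℂ) • a x u = 0 := by
      calc ∑ x, ((F x : A) : ℂ) • a x u
          = ∑ x, ∑ y, (b y : ℂ) • (c' (y⁻¹ * x) • a x u) := by
            refine Finset.sum_congr rfl fun x _ => ?_
            rw [hFc, Finset.sum_smul]
            refine Finset.sum_congr rfl fun y _ => ?_
            rw [mul_smul]
        _ = ∑ y, (b y : ℂ) • ∑ x, c' (y⁻¹ * x) • a x u := by
            rw [Finset.sum_comm]
            refine Finset.sum_congr rfl fun y _ => ?_
            rw [Finset.smul_sum]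
        _ = 0 := by
            refine Finset.sum_eq_zero fun y _ => ?_
            rw [hy y, smul_zero]
    rw [← hzero, ← Finset.sum_add_distrib]
    refine Finset.sum_congr rfl fun x _ => ?_
    rw [sub_smul, one_smul, add_sub_cancel]

/-- A vector that is a combination of its own translates with all coefficients in the maximal
ideal vanishes. -/
theorem val_contra (A : ValuationSubring ℂ) {G : Type*} [Group G] [Finite G]
    {V : Type*} [AddCommGroup V] [Module ℂ V] (a : G →* Module.End ℂ V)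
    {J : Type*} [Finite J] (coord : J → V →ₗ[ℂ] ℂ)
    (hsep : ∀ v : V, (∀ j, coord j v = 0) → v = 0)
    {ι : Type*} (s : Finset ι) (f : ι → ℂ) (hf : ∀ i ∈ s, A.valuation (f i) < 1) (γ : ι → G)
    (D : Finset G) (w : V) (hw : w = ∑ i ∈ s, f i • a (γ i) (∑ d ∈ D, a d w)) : w = 0 := by
  classical
  by_contra hw0
  obtain ⟨j₁, hj₁⟩ : ∃ j, coord j w ≠ 0 := by
    by_contra hne
    push_neg at hne
    exact hw0 (hsep w hne)
  haveI : Nonempty (G × J) := ⟨(1, j₁)⟩
  obtain ⟨⟨g₀, j₀⟩, hmax⟩ :=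
    Finite.exists_max (fun gj : G × J => A.valuation (coord gj.2 (a gj.1 w)))
  have hmax' : ∀ g j, A.valuation (coord j (a g w)) ≤ A.valuation (coord j₀ (a g₀ w)) :=
    fun g j => hmax (g, j)
  have ht0 : A.valuation (coord j₀ (a g₀ w)) ≠ 0 := by
    intro h0
    have h1 := hmax' 1 j₁
    rw [h0, map_one, Module.End.one_apply, le_zero_iff, Valuation.zero_iff] at h1
    exact hj₁ h1
  have hexp : coord j₀ (a g₀ w) = ∑ i ∈ s, f i * ∑ d ∈ D, coord j₀ (a (g₀ * γ i * d) w) := by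
    conv_lhs => rw [hw]
    simp only [map_sum, map_smul, smul_eq_mul, map_mul, Module.End.mul_apply]
  have hlt : A.valuation (coord j₀ (a g₀ w)) < A.valuation (coord j₀ (a g₀ w)) := by
    conv_lhs => rw [hexp]
    refine Valuation.map_sum_lt _ ht0 fun i hi => ?_
    rw [map_mul]
    have h1 : A.valuation (∑ d ∈ D, coord j₀ (a (g₀ * γ i * d) w)) ≤
        A.valuation (coord j₀ (a g₀ w)) :=
      Valuation.map_sum_le _ fun d _ => hmax' (g₀ * γ i * d) j₀
    calc A.valuation (f i) * A.valuation (∑ d ∈ D, coord j₀ (a (g₀ * γ i * d) w))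
        ≤ A.valuation (f i) * A.valuation (coord j₀ (a g₀ w)) := mul_le_mul' le_rfl h1
      _ < 1 * A.valuation (coord j₀ (a g₀ w)) :=
          mul_lt_mul_of_pos_right (hf i hi) (zero_lt_iff.mpr ht0)
      _ = A.valuation (coord j₀ (a g₀ w)) := one_mul _
  exact lt_irrefl _ hlt

/-- Main fixed-vector lemma: for a TI Sylow `p`-subgroup `P` and `H ≥ N_G(P)`, an `H`-fixed
vector with zero `G`-sum inside an invariant subspace of dimension `< |P|` vanishes. -/
theorem ti_fixed {G : Type*} [Group G] [Fintype G] (p : ℕ) [Fact p.Prime] (P : Sylow p G)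
    (hTI : ∀ g : G, g ∉ Subgroup.normalizer ((P : Subgroup G) : Set G) →
      (P : Subgroup G) ⊓ (MulAut.conj g • (P : Subgroup G)) = ⊥)
    (H : Subgroup G) (hH : Subgroup.normalizer ((P : Subgroup G) : Set G) ≤ H)
    {V : Type*} [AddCommGroup V] [Module ℂ V] (a : G →* Module.End ℂ V)
    {J : Type*} [Finite J] (coord : J → V →ₗ[ℂ] ℂ)
    (hsep : ∀ v : V, (∀ j, coord j v = 0) → v = 0)
    (K : Submodule ℂ V) [FiniteDimensional ℂ K] (hK : ∀ g, ∀ v ∈ K, a g v ∈ K)
    (hdim : Module.finrank ℂ K < Nat.card ↥(P : Subgroup G))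
    (w : V) (hwK : w ∈ K) (hw : ∀ h ∈ H, a h w = w) (hsum : ∑ g : G, a g w = 0) : w = 0 := by
  classical
  obtain ⟨A, hA⟩ := exists_valuationSubring_prime p
  obtain ⟨D, hD⟩ := ti_decomp p P hTI H hH a w hw hsum
  have huK : (∑ d ∈ D, a d w) ∈ K := K.sum_mem fun d _ => hK d w hwK
  obtain ⟨c, hc, hrel⟩ : ∃ c : ↥(P : Subgroup G) → ℂ, c ≠ 0 ∧
      ∑ x, c x • a (x : G) (∑ d ∈ D, a d w) = 0 := by
    let fam : ↥(P : Subgroup G) → K := fun x => ⟨a (x : G) (∑ d ∈ D, a d w), hK _ _ huK⟩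
    have hnot : ¬ LinearIndependent ℂ fam := by
      intro hli
      have := hli.fintype_card_le_finrank
      rw [← Nat.card_eq_fintype_card] at this
      omega
    rw [Fintype.not_linearIndependent_iff] at hnot
    obtain ⟨c, hc, x, hx⟩ := hnot
    refine ⟨c, fun h => hx (by rw [h]; rfl), ?_⟩
    have h1 := congrArg (Subtype.val) hc
    rw [Submodule.coe_sum] at h1
    simpa [fam] using h1
  obtain ⟨f, hf, hfrel⟩ := val_reduce A p hA P.isPGroup' (a.comp (P : Subgroup G).subtype)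
    (∑ d ∈ D, a d w) c hc hrel
  have hw' : w = ∑ x ∈ (Finset.univ : Finset ↥(P : Subgroup G)),
      f x • a (x : G) (∑ d ∈ D, a d w) := by
    have h1 : ∑ x : ↥(P : Subgroup G), a (x : G) (∑ d ∈ D, a d w) = - w := by
      rw [eq_neg_iff_add_eq_zero, add_comm]; exact hD
    have h2 : ∑ x : ↥(P : Subgroup G), a (x : G) (∑ d ∈ D, a d w) +
        ∑ x : ↥(P : Subgroup G), f x • a (x : G) (∑ d ∈ D, a d w) = 0 := hfrel
    rw [h1, neg_add_eq_zero] at h2
    exact h2
  exact val_contra A a coord hsep Finset.univ f (fun x _ => hf x) (fun x => (x : G)) D w hw'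

/-- If `P` is a TI Sylow `p`-subgroup, `H ≥ N_G(P)` and `n² ≤ |P|`, then any matrix commuting
with an `n`-dimensional representation on `H` commutes with it on all of `G`. -/
theorem ti_commute {G : Type*} [Group G] [Fintype G] (p : ℕ) [Fact p.Prime] (P : Sylow p G)
    (hTI : ∀ g : G, g ∉ Subgroup.normalizer ((P : Subgroup G) : Set G) →
      (P : Subgroup G) ⊓ (MulAut.conj g • (P : Subgroup G)) = ⊥)
    (H : Subgroup G) (hH : Subgroup.normalizer ((P : Subgroup G) : Set G) ≤ H) {n : ℕ}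
    (R : G →* Matrix (Fin n) (Fin n) ℂ) (hn : n ^ 2 ≤ Nat.card ↥(P : Subgroup G)) (T : Matrix (Fin n) (Fin n) ℂ)
    (hT : ∀ h ∈ H, R h * T = T * R h) (g : G) : R g * T = T * R g := by
  classical
  rcases Nat.eq_zero_or_pos n with hn0 | hn0
  · subst hn0
    exact Matrix.ext fun i => i.elim0
  have hRinv : ∀ g : G, R g⁻¹ * R g = 1 := fun g => by rw [← map_mul, inv_mul_cancel, map_one]
  have hRinv' : ∀ g : G, R g * R g⁻¹ = 1 := fun g => by rw [← map_mul, mul_inv_cancel, map_one]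
  let a : G →* Module.End ℂ (Matrix (Fin n) (Fin n) ℂ) :=
    { toFun := fun g =>
        { toFun := fun T => R g * T * R g⁻¹
          map_add' := fun T T' => by rw [mul_add, add_mul]
          map_smul' := fun c T => by simp }
      map_one' := by
        apply LinearMap.ext; intro T
        show R 1 * T * R (1 : G)⁻¹ = T
        simp
      map_mul' := fun g h => by
        apply LinearMap.ext; intro T
        show R (g * h) * T * R (g * h)⁻¹ = R g * (R h * T * R h⁻¹) * R g⁻¹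
        rw [mul_inv_rev, map_mul, map_mul]; simp only [mul_assoc] }
  have ha : ∀ g (T : Matrix (Fin n) (Fin n) ℂ), a g T = R g * T * R g⁻¹ := fun g T => rfl
  have hfix_iff : ∀ g (T : Matrix (Fin n) (Fin n) ℂ), a g T = T ↔ R g * T = T * R g := by
    intro g T
    rw [ha]
    constructor
    · intro h
      calc R g * T = R g * T * (R g⁻¹ * R g) := by rw [hRinv, mul_one]
        _ = (R g * T * R g⁻¹) * R g := by simp only [mul_assoc]
        _ = T * R g := by rw [h]
    · intro h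
      rw [h, mul_assoc, hRinv', mul_one]
  let K : Submodule ℂ (Matrix (Fin n) (Fin n) ℂ) := LinearMap.ker (Matrix.traceLinearMap (Fin n) ℂ ℂ)
  have hKmem : ∀ v : Matrix (Fin n) (Fin n) ℂ, v ∈ K ↔ v.trace = 0 := fun v => LinearMap.mem_ker
  have htr : ∀ g (T : Matrix (Fin n) (Fin n) ℂ), (a g T).trace = T.trace := by
    intro g T
    rw [ha, Matrix.trace_mul_comm, ← mul_assoc, hRinv, one_mul]
  have hK : ∀ g, ∀ v ∈ K, a g v ∈ K := by
    intro g v hv
    rw [hKmem] at hv ⊢
    rw [htr]; exact hv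
  have hcn : (n : ℂ) ≠ 0 := Nat.cast_ne_zero.mpr hn0.ne'
  have hKtop : K ≠ ⊤ := by
    intro h
    have h1 : (1 : Matrix (Fin n) (Fin n) ℂ) ∈ K := by rw [h]; trivial
    rw [hKmem, Matrix.trace_one, Fintype.card_fin] at h1
    exact hcn h1
  have hdim : Module.finrank ℂ K < Nat.card ↥(P : Subgroup G) := by
    have h1 := Submodule.finrank_lt hKtop
    have h2 : Module.finrank ℂ (Matrix (Fin n) (Fin n) ℂ) = n * n := by
      rw [Module.finrank_matrix, Fintype.card_fin, Module.finrank_self, mul_one]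
    rw [h2] at h1
    have : n * n = n ^ 2 := by ring
    omega
  have hT₀K : T - (T.trace / n) • (1 : Matrix (Fin n) (Fin n) ℂ) ∈ K := by
    rw [hKmem, Matrix.trace_sub, Matrix.trace_smul, Matrix.trace_one, Fintype.card_fin,
      smul_eq_mul, div_mul_cancel₀ _ hcn, sub_self]
  have ha1 : ∀ g, a g (1 : Matrix (Fin n) (Fin n) ℂ) = 1 := fun g => by rw [ha, mul_one, hRinv']
  have hT₀H : ∀ h ∈ H, a h (T - (T.trace / n) • (1 : Matrix (Fin n) (Fin n) ℂ)) = T - (T.trace / n) • (1 : Matrix (Fin n) (Fin n) ℂ) := by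
    intro h hh
    rw [map_sub, map_smul, ha1, (hfix_iff h T).mpr (hT h hh)]
  have hS : ∀ g, a g (∑ g' : G, a g' (T - (T.trace / n) • (1 : Matrix (Fin n) (Fin n) ℂ))) =
      ∑ g' : G, a g' (T - (T.trace / n) • (1 : Matrix (Fin n) (Fin n) ℂ)) := by
    intro g
    rw [map_sum]
    refine Fintype.sum_equiv (Equiv.mulLeft g) _ _ (fun g' => ?_)
    simp only [Equiv.coe_mulLeft, map_mul, Module.End.mul_apply]
  have hSK : (∑ g' : G, a g' (T - (T.trace / n) • (1 : Matrix (Fin n) (Fin n) ℂ))) ∈ K :=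
    K.sum_mem fun g _ => hK g _ hT₀K
  have hwK : (T - (T.trace / n) • (1 : Matrix (Fin n) (Fin n) ℂ)) -
      (Fintype.card G : ℂ)⁻¹ • (∑ g' : G, a g' (T - (T.trace / n) • (1 : Matrix (Fin n) (Fin n) ℂ))) ∈ K :=
    K.sub_mem hT₀K (K.smul_mem _ hSK)
  have hwg : ∀ g, a g ((T - (T.trace / n) • (1 : Matrix (Fin n) (Fin n) ℂ)) -
      (Fintype.card G : ℂ)⁻¹ • (∑ g' : G, a g' (T - (T.trace / n) • (1 : Matrix (Fin n) (Fin n) ℂ)))) =
      a g (T - (T.trace / n) • (1 : Matrix (Fin n) (Fin n) ℂ)) -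
      (Fintype.card G : ℂ)⁻¹ • (∑ g' : G, a g' (T - (T.trace / n) • (1 : Matrix (Fin n) (Fin n) ℂ))) := by
    intro g
    rw [map_sub, map_smul, hS]
  have hwH : ∀ h ∈ H, a h ((T - (T.trace / n) • (1 : Matrix (Fin n) (Fin n) ℂ)) -
      (Fintype.card G : ℂ)⁻¹ • (∑ g' : G, a g' (T - (T.trace / n) • (1 : Matrix (Fin n) (Fin n) ℂ)))) =
      (T - (T.trace / n) • (1 : Matrix (Fin n) (Fin n) ℂ)) -
      (Fintype.card G : ℂ)⁻¹ • (∑ g' : G, a g' (T - (T.trace / n) • (1 : Matrix (Fin n) (Fin n) ℂ))) := by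
    intro h hh
    rw [hwg, hT₀H h hh]
  have hwsum : ∑ g : G, a g ((T - (T.trace / n) • (1 : Matrix (Fin n) (Fin n) ℂ)) -
      (Fintype.card G : ℂ)⁻¹ • (∑ g' : G, a g' (T - (T.trace / n) • (1 : Matrix (Fin n) (Fin n) ℂ)))) = 0 := by
    rw [Finset.sum_congr rfl (fun g _ => hwg g), Finset.sum_sub_distrib, Finset.sum_const,
      Finset.card_univ, ← Nat.cast_smul_eq_nsmul ℂ, smul_smul,
      mul_inv_cancel₀ (Nat.cast_ne_zero.mpr Fintype.card_ne_zero), one_smul]
    exact sub_self _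
  let coord : Fin n × Fin n → (Matrix (Fin n) (Fin n) ℂ) →ₗ[ℂ] ℂ := fun ij => Matrix.entryLinearMap ℂ ℂ ij.1 ij.2
  have hsep : ∀ v : Matrix (Fin n) (Fin n) ℂ, (∀ j, coord j v = 0) → v = 0 :=
    fun v hv => Matrix.ext fun i j => hv (i, j)
  have hw0 := ti_fixed p P hTI H hH a coord hsep K hK hdim _ hwK hwH hwsum
  have hT₀ : T - (T.trace / n) • (1 : Matrix (Fin n) (Fin n) ℂ) =
      (Fintype.card G : ℂ)⁻¹ • (∑ g' : G, a g' (T - (T.trace / n) • (1 : Matrix (Fin n) (Fin n) ℂ))) :=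
    sub_eq_zero.mp hw0
  have hT₀g : a g (T - (T.trace / n) • (1 : Matrix (Fin n) (Fin n) ℂ)) = T - (T.trace / n) • (1 : Matrix (Fin n) (Fin n) ℂ) := by
    rw [hT₀, map_smul, hS]
  have hTg : a g T = T := by
    have e : T = (T - (T.trace / n) • (1 : Matrix (Fin n) (Fin n) ℂ)) + (T.trace / n) • (1 : Matrix (Fin n) (Fin n) ℂ) :=
      (sub_add_cancel _ _).symm
    rw [e, map_add, map_smul, ha1, hT₀g]
  exact (hfix_iff g T).mp hTg

end Cfsg.Agent.Helper24
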