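import Mathlib

set_option autoImplicit false

namespace Cfsg.Agent.Helper24

open scoped Pointwise

/-- A transfer computation. Let `K = P N` with `N` normal and `P` of odd index, and let
`ϕ : P →* A` be a homomorphism to an abelian `2`-group with `ϕ q ^ 2 = 1` on `P ∩ N`.
If every element of `N` has an odd power in the derived subgroup of `K` and the square of
every element of `P` lies in `N K'`, then `ϕ x ^ 2 = 1` for all `x ∈ P`. -/
theorem transfer_sq_eq_one {K A : Type*} [Group K] [CommGroup A] (P N : Subgroup K)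
    [hNn : N.Normal] [P.FiniteIndex] (hsup : P ⊔ N = ⊤) (hidx : Odd P.index) (ϕ : P →* A)
    (hA : ∀ a : A, ∃ k : ℕ, a ^ (2 ^ k) = 1)
    (h1 : ∀ q : P, (q : K) ∈ N → ϕ q ^ 2 = 1)
    (h2 : ∀ n ∈ N, ∃ m : ℕ, Odd m ∧ n ^ m ∈ commutator K)
    (h3 : ∀ x : P, ∃ q ∈ N, ∃ c ∈ commutator K, (x : K) ^ 2 = q * c) :
    ∀ x : P, ϕ x ^ 2 = 1 := by
  classical
  have hodd2 : ∀ (a : A) (m : ℕ), Odd m → a ^ m = 1 → a = 1 := by
    intro a m hm ham
    obtain ⟨k, hk⟩ := hA a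
    have hd1 : orderOf a ∣ m := orderOf_dvd_of_pow_eq_one ham
    have hd2 : orderOf a ∣ 2 ^ k := orderOf_dvd_of_pow_eq_one hk
    have hcop : Nat.Coprime m (2 ^ k) :=
      Nat.Coprime.pow_right k (Nat.Coprime.symm (Nat.coprime_two_left.mpr hm))
    have hone : orderOf a = 1 := Nat.eq_one_of_dvd_coprimes hcop hd1 hd2
    exact orderOf_eq_one_iff.mp hone
  obtain ⟨V, hV⟩ : ∃ V : K →* A, V = MonoidHom.transfer ϕ := ⟨_, rfl⟩
  have hVcomm : ∀ c ∈ commutator K, V c = 1 := fun c hc =>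
    MonoidHom.mem_ker.mp (Abelianization.commutator_subset_ker V hc)
  have hVN : ∀ n ∈ N, V n = 1 := by
    intro n hn
    obtain ⟨m, hm, hnm⟩ := h2 n hn
    apply hodd2 _ m hm
    rw [← map_pow]
    exact hVcomm _ hnm
  have hVsq : ∀ x : P, V ((x : K) ^ 2) = 1 := by
    intro x
    obtain ⟨q, hq, c, hc, hx⟩ := h3 x
    rw [hx, map_mul, hVN q hq, hVcomm c hc, one_mul]
  have hrep : ∀ q : K ⧸ P, ∃ n : K, n ∈ N ∧ (n : K ⧸ P) = q := by
    intro q
    induction q using QuotientGroup.induction_on with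
    | H k =>
      have hk : k ∈ N ⊔ P := by
        rw [sup_comm, hsup]; exact Subgroup.mem_top k
      obtain ⟨n, hn, p, hp, rfl⟩ := Subgroup.mem_sup_of_normal_left.mp hk
      refine ⟨n, hn, ?_⟩
      rw [QuotientGroup.eq]
      simpa using hp
  choose f hfN hf using hrep
  obtain ⟨T, hTdef⟩ : ∃ T : P.LeftTransversal,
      T = ⟨Set.range f, Subgroup.isComplement_range_left hf⟩ := ⟨_, rfl⟩
  have hT : ∀ q, (T.2.leftQuotientEquiv q : K) = f q := by
    intro q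
    rw [hTdef]
    exact Subgroup.IsComplement.leftQuotientEquiv_apply hf q
  intro x
  have key : ∀ (p : P) (q : K ⧸ P),
      (p : K) = (f q)⁻¹ * ((x : K) * f ((x : K)⁻¹ • q)) → ϕ p ^ 2 = ϕ x ^ 2 := by
    intro p q hp
    have hr : ((x⁻¹ * p : P) : K) ∈ N := by
      rw [Subgroup.coe_mul, Subgroup.coe_inv, hp]
      have e : (x : K)⁻¹ * ((f q)⁻¹ * ((x : K) * f ((x : K)⁻¹ • q))) =
          ((x : K)⁻¹ * (f q)⁻¹ * ((x : K)⁻¹)⁻¹) * f ((x : K)⁻¹ • q) := by group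
      rw [e]
      exact N.mul_mem (hNn.conj_mem _ (N.inv_mem (hfN q)) _) (hfN _)
    have h := h1 _ hr
    have e2 : p = x * (x⁻¹ * p) := by group
    rw [e2, map_mul, mul_pow, h, mul_one]
  have hVx : V (x : K) ^ 2 = (ϕ x ^ 2) ^ P.index := by
    have hdef : V (x : K) = Subgroup.leftTransversals.diff ϕ T ((x : K) • T) := by
      rw [hV]; exact MonoidHom.transfer_def ϕ T x
    rw [hdef, Subgroup.leftTransversals.diff]
    rw [← Finset.prod_pow]
    rw [Finset.prod_congr rfl (fun q _ => key _ q (by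
      show (T.2.leftQuotientEquiv q : K)⁻¹ * ((((x : K) • T).2.leftQuotientEquiv q : K)) = _
      rw [Subgroup.smul_apply_eq_smul_apply_inv_smul, hT, hT, smul_eq_mul]))]
    rw [Finset.prod_const]
    congr 1
    letI := P.fintypeQuotientOfFiniteIndex
    rw [Subgroup.index_eq_card, Nat.card_eq_fintype_card]
    rfl
  have h5 : V (x : K) ^ 2 = 1 := by
    rw [← map_pow]; exact hVsq x
  rw [hVx] at h5
  exact hodd2 _ _ hidx h5

/-- Let `N` be normal in the finite group `G`, `P` a Sylow `2`-subgroup and `Q = P ∩ N`. If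
`P / Q P'` and `Q / Q'` are elementary abelian and `N / N'` has odd order, then `P / P'` is
elementary abelian. -/
theorem sq_mem_commutator_of_odd_abelianization {G : Type*} [Group G] [Finite G]
    (N : Subgroup G) [N.Normal] (P : Sylow 2 G)
    (hP : ∀ x ∈ (P : Subgroup G),
      x ^ 2 ∈ ((P : Subgroup G) ⊓ N) ⊔ ⁅(P : Subgroup G), (P : Subgroup G)⁆)
    (hQ : ∀ x ∈ (P : Subgroup G) ⊓ N, x ^ 2 ∈ ⁅(P : Subgroup G) ⊓ N, (P : Subgroup G) ⊓ N⁆)
    (hodd : Odd (Nat.card (Abelianization N))) :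
    ∀ x ∈ (P : Subgroup G), x ^ 2 ∈ ⁅(P : Subgroup G), (P : Subgroup G)⁆ := by
  have hP2' : IsPGroup 2 (P : Subgroup G) := P.isPGroup'
  have hPidx' : Odd (P : Subgroup G).index := by
    rw [← Nat.not_even_iff_odd, even_iff_two_dvd]
    exact P.not_dvd_index
  obtain ⟨P₀, hP₀⟩ : ∃ P₀ : Subgroup G, P₀ = (P : Subgroup G) := ⟨_, rfl⟩
  rw [← hP₀] at hP hQ hP2' hPidx' ⊢
  obtain ⟨K, hK⟩ : ∃ K : Subgroup G, K = P₀ ⊔ N := ⟨_, rfl⟩
  have hPK : P₀ ≤ K := hK ▸ le_sup_left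
  have hNK : N ≤ K := hK ▸ le_sup_right
  have hsup : P₀.subgroupOf K ⊔ N.subgroupOf K = ⊤ := by
    rw [← Subgroup.subgroupOf_sup hPK hNK, ← hK, Subgroup.subgroupOf_self]
  have hidx : Odd (P₀.subgroupOf K).index :=
    Odd.of_dvd_nat hPidx' (Subgroup.relIndex_dvd_index_of_le hPK)
  have hker : ∀ z : P₀, (z : G) ∈ ⁅P₀, P₀⁆ ↔ Abelianization.of z = 1 := by
    intro z
    rw [← Subgroup.map_subtype_commutator, ← MonoidHom.mem_ker, Abelianization.ker_of]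
    exact Subgroup.mem_map_iff_mem P₀.subtype_injective
  have hcommK : ∀ c₀ : G, c₀ ∈ ⁅K, K⁆ → ∃ c : K, c ∈ commutator K ∧ (c : G) = c₀ := by
    intro c₀ hc₀
    rw [← Subgroup.map_subtype_commutator] at hc₀
    obtain ⟨c, hc, hcc⟩ := hc₀
    exact ⟨c, hc, hcc⟩
  obtain ⟨e, he⟩ : ∃ e : P₀.subgroupOf K ≃* P₀, ∀ y, ((e y : P₀) : G) = ((y : K) : G) :=
    ⟨Subgroup.subgroupOfEquivOfLe hPK, fun y => rfl⟩
  obtain ⟨ϕ, hϕ⟩ : ∃ ϕ : P₀.subgroupOf K →* Abelianization P₀,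
      ∀ y, ϕ y = Abelianization.of (e y) :=
    ⟨(Abelianization.of).comp e.toMonoidHom, fun y => rfl⟩
  have key := transfer_sq_eq_one (P₀.subgroupOf K) (N.subgroupOf K) hsup hidx ϕ ?_ ?_ ?_ ?_
  · intro x hx
    have hxK : x ∈ K := hPK hx
    have h := key ⟨⟨x, hxK⟩, Subgroup.mem_subgroupOf.mpr hx⟩
    rw [hϕ, ← map_pow, ← hker] at h
    have h2 : ((e ⟨⟨x, hxK⟩, Subgroup.mem_subgroupOf.mpr hx⟩ ^ 2 : P₀) : G) = x ^ 2 := by
      rw [Subgroup.coe_pow, he]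
    rw [h2] at h
    exact h
  · intro a
    obtain ⟨z, rfl⟩ := QuotientGroup.mk_surjective (s := commutator P₀) a
    obtain ⟨k, hk⟩ := hP2' z
    refine ⟨k, ?_⟩
    show Abelianization.of z ^ 2 ^ k = 1
    rw [← map_pow, hk, map_one]
  · intro q hq
    rw [Subgroup.mem_subgroupOf] at hq
    have hqP : ((q : K) : G) ∈ P₀ := Subgroup.mem_subgroupOf.mp q.2
    have h1 := hQ _ ⟨hqP, hq⟩
    have h2 : ((q : K) : G) ^ 2 ∈ ⁅P₀, P₀⁆ :=
      Subgroup.commutator_mono inf_le_left inf_le_left h1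
    rw [hϕ, ← map_pow, ← hker, Subgroup.coe_pow, he]
    exact h2
  · intro n hn
    rw [Subgroup.mem_subgroupOf] at hn
    refine ⟨Nat.card (Abelianization N), hodd, ?_⟩
    have h1 : (Abelianization.of (⟨(n : G), hn⟩ : N)) ^ Nat.card (Abelianization N) = 1 :=
      pow_card_eq_one'
    rw [← map_pow, ← MonoidHom.mem_ker, Abelianization.ker_of] at h1
    have h2 : (((⟨(n : G), hn⟩ : N) ^ Nat.card (Abelianization N) : N) : G) ∈ ⁅N, N⁆ := by
      rw [← Subgroup.map_subtype_commutator]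
      exact Subgroup.mem_map_of_mem _ h1
    have h3 : (n : G) ^ Nat.card (Abelianization N) ∈ ⁅K, K⁆ := by
      have := Subgroup.commutator_mono hNK hNK h2
      simpa using this
    obtain ⟨c, hc, hcc⟩ := hcommK _ h3
    have h4 : n ^ Nat.card (Abelianization N) = c := by
      apply Subtype.ext
      rw [hcc]; simp
    rw [h4]
    exact hc
  · intro x
    have hxP : ((x : K) : G) ∈ P₀ := Subgroup.mem_subgroupOf.mp x.2
    have h1 := hP _ hxP
    have hle : (P₀ ⊓ N) ⊔ ⁅P₀, P₀⁆ ≤ N ⊔ ⁅P₀, P₀⁆ := sup_le_sup_right inf_le_right _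
    have h2 : ((x : K) : G) ^ 2 ∈ N ⊔ ⁅P₀, P₀⁆ := hle h1
    obtain ⟨q₀, hq₀, c₀, hc₀, hqc⟩ := Subgroup.mem_sup_of_normal_left.mp h2
    obtain ⟨c, hc, hcc⟩ := hcommK c₀ (Subgroup.commutator_mono hPK hPK hc₀)
    refine ⟨⟨q₀, hNK hq₀⟩, Subgroup.mem_subgroupOf.mpr hq₀, c, hc, ?_⟩
    apply Subtype.ext
    rw [Subgroup.coe_pow, Subgroup.coe_mul, hcc, ← hqc]

end Cfsg.Agent.Helper24
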